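import Mathlib
import Cfsg.Agent.Lib.StdL.Bor

/-!
# Standard subgroups of type `M22`: the product `U₁ × U₂`
-/

set_option autoImplicit false
set_option linter.unusedSectionVars false

namespace CfsgLib.StdL

open Subgroup Cfsg CfsgLib.Tech
open CfsgLib.StdInt hiding cj mem_cj

variable {G : Type*} [Group G] [Finite G] {L E F A B X Y : Subgroup G} {t σ ρ φ g n u x y x' y' : G}

omit [Finite G] in
theorem spb_zp (ss : x * x = 1) (hy : y ∈ zpowers x) : y = 1 ∨ y = x := by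
  obtain ⟨k, rfl⟩ := hy
  rcases Int.even_or_odd' k with ⟨k, rfl | rfl⟩
  · exact Or.inl (by simp only [zpow_mul, zpow_two, ss, one_zpow])
  · exact Or.inr (by simp only [zpow_add, zpow_mul, zpow_two, ss, one_zpow, one_mul, zpow_one])

theorem spb_lt {H K : Subgroup G} {m : ℕ} (h : m ≤ Nat.card H) (le : H ≤ K) (hx : x ∈ K) (n : x ∉ H) :
    2 * m ≤ Nat.card K := by
  obtain ⟨k, hk⟩ := card_dvd_of_le le
  have h0 : 0 < Nat.card K := Nat.card_pos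
  rcases k with _ | _ | k
  · omega
  · exact (n (by rw [eq_of_le_of_card_ge le (by omega)]; exact hx)).elim
  · nlinarith

namespace Sp0

variable (h : Sp0 L E F A B t σ ρ φ)
include h

theorem mem_cj' : x ∈ cj t X ↔ ∃ y ∈ X, x = t * y * t⁻¹ := ⟨fun ⟨y, hy, e⟩ => ⟨y, hy, e.symm⟩, fun ⟨y, hy, e⟩ => ⟨y, hy, e.symm⟩⟩

theorem tw2 : Tw2 A B (cj t A) (cj t B) := by
  refine ⟨h.tri, h.tri.conj t, fun x hx y hy => ?_, fun x hx hy => ?_⟩
  · rw [← cj_sup] at hy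
    obtain ⟨y, hy', rfl⟩ := h.mem_cj'.1 hy
    exact h.com' x hx y hy'
  · rw [← cj_sup] at hy
    obtain ⟨y, hy', rfl⟩ := h.mem_cj'.1 hy
    rw [h.dis y hy' hx, mul_one, mul_inv_cancel]

theorem tct (x : G) : t * (t * x * t⁻¹) * t⁻¹ = x := by
  calc _ = t * t * x * (t * t)⁻¹ := by group
    _ = x := by rw [h.tt]; group

theorem spb_diag (hX : X ≤ A ⊔ B) :
    (∃ x ∈ X, u = x * (t * x * t⁻¹)) ↔ ∃ x ∈ cj t X, u = x * (t * x * t⁻¹) := by
  constructor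
  · rintro ⟨x, hx, rfl⟩
    exact ⟨_, conj_mem_cj.2 hx, by rw [h.tct, (h.com' x (hX hx) x (hX hx)).eq]⟩
  · rintro ⟨_, hx', rfl⟩
    obtain ⟨x, hx, rfl⟩ := h.mem_cj'.1 hx'
    exact ⟨x, hx, by rw [h.tct, (h.com' x (hX hx) x (hX hx)).eq]⟩

theorem flip : Sp0 L E F (cj t A) (cj t B) t σ ρ φ := by
  have c := cj_cj_sq h.tt
  refine ⟨h.toFr0, h.tri.conj t, fun x hx y hy => ?_, fun x hx hy => ?_, fun e => ?_, fun e => ?_,
    h.σA.cj (h.cL _ h.σL).symm, h.σB.cj (h.cL _ h.σL).symm, h.ρA.cj (h.cL _ h.ρL).symm,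
    h.ρB.cj (h.cL _ h.ρL).symm, fun g a b => ?_, fun g a b => ?_, fun θ a => ?_⟩
  · rw [← cj_sup] at hy
    obtain ⟨y, hy', rfl⟩ := h.mem_cj'.1 hy
    rw [h.tct]
    exact (h.tw2.com y hy' x hx).symm
  · rw [← cj_sup] at hx
    obtain ⟨x, hx', rfl⟩ := h.mem_cj'.1 hx
    rw [h.tct] at hy
    rw [h.tw2.dis x hx' hy, mul_one, mul_inv_cancel]
  · rw [h.dE, h.spb_diag le_sup_left]
  · rw [h.dF, h.spb_diag le_sup_right]
  · rw [c, sup_comm]
    exact h.nE g a b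
  · rw [c, sup_comm]
    exact h.nF g a b
  · rw [← cj_sup]
    exact (h.th θ a).cj a.1

theorem UU_flip : UU (cj t A) (cj t B) t = UU A B t := by
  rw [UU, UU, cj_cj_sq h.tt, cj_cj_sq h.tt, sup_comm]

theorem UU_eq : UU A B t = (A ⊔ cj t A) ⊔ (B ⊔ cj t B) := sup_sup_sup_comm _ _ _ _

theorem UU_eq' : UU A B t = (A ⊔ B) ⊔ cj t (A ⊔ B) := by rw [UU, cj_sup]

theorem mem_pair (hX : X ≤ A ⊔ B) (hY : Y ≤ A ⊔ B) :
    g ∈ X ⊔ cj t Y ↔ ∃ x ∈ X, ∃ y ∈ Y, g = x * (t * y * t⁻¹) := by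
  rw [mem_sup_comm fun x hx y hy => h.tw2.com x (hX hx) y (by rw [← cj_sup]; exact cj_mono t hY hy)]
  constructor
  · rintro ⟨x, hx, _, hy', rfl⟩
    obtain ⟨y, hy, rfl⟩ := h.mem_cj'.1 hy'
    exact ⟨x, hx, y, hy, rfl⟩
  · rintro ⟨x, hx, y, hy, rfl⟩
    exact ⟨x, hx, _, conj_mem_cj.2 hy, rfl⟩

theorem mem_UU : g ∈ UU A B t ↔ ∃ x ∈ A ⊔ B, ∃ y ∈ A ⊔ B, g = x * (t * y * t⁻¹) := by
  rw [h.UU_eq', h.mem_pair le_rfl le_rfl]

theorem uniq (hx : x ∈ A ⊔ B) (hy : y ∈ A ⊔ B) (hx' : x' ∈ A ⊔ B) (hy' : y' ∈ A ⊔ B)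
    (e : x * (t * y * t⁻¹) = x' * (t * y' * t⁻¹)) : x = x' ∧ y = y' := by
  have e1 : t * (y' * y⁻¹) * t⁻¹ = x'⁻¹ * x := by
    calc _ = x'⁻¹ * (x' * (t * y' * t⁻¹)) * (t * y * t⁻¹)⁻¹ := by group
      _ = _ := by rw [← e]; group
  have e2 := h.dis _ (mul_mem hy' (inv_mem hy)) (by rw [e1]; exact mul_mem (inv_mem hx') hx)
  rw [e2, mul_one, mul_inv_cancel, eq_comm, inv_mul_eq_one] at e1
  exact ⟨e1.symm, (mul_inv_eq_one.1 e2).symm⟩

theorem dmul (hx : x ∈ A ⊔ B) (hy : y ∈ A ⊔ B) :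
    x * (t * x * t⁻¹) * (y * (t * y * t⁻¹)) = x * y * (t * (x * y) * t⁻¹) := by
  rw [mul_assoc, ← mul_assoc _ y, ← (h.com' y hy x hx).eq]
  group

theorem dU : u ∈ E ⊔ F ↔ ∃ x ∈ A ⊔ B, u = x * (t * x * t⁻¹) := by
  rw [h.toTri.mem_sup]
  constructor
  · rintro ⟨e, he, f, hf, rfl⟩
    obtain ⟨a, ha, rfl⟩ := (h.dE e).1 he
    obtain ⟨b, hb, rfl⟩ := (h.dF f).1 hf
    exact ⟨_, mul_mem_sup ha hb, h.dmul (mem_sup_left ha) (mem_sup_right hb)⟩
  · rintro ⟨x, hx, rfl⟩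
    obtain ⟨a, ha, b, hb, rfl⟩ := h.tri.mem_sup.1 hx
    exact ⟨_, (h.dE _).2 ⟨a, ha, rfl⟩, _, (h.dF _).2 ⟨b, hb, rfl⟩, (h.dmul (mem_sup_left ha) (mem_sup_right hb)).symm⟩

theorem dZ : u ∈ E ⊓ F ↔ ∃ x ∈ A ⊓ B, u = x * (t * x * t⁻¹) := by
  constructor
  · rintro ⟨h1, h2⟩
    obtain ⟨a, ha, e⟩ := (h.dE u).1 h1
    obtain ⟨b, hb, e'⟩ := (h.dF u).1 h2
    have := (h.uniq (mem_sup_left ha) (mem_sup_left ha) (mem_sup_right hb) (mem_sup_right hb) (e.symm.trans e')).1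
    exact ⟨a, ⟨ha, by rw [this]; exact hb⟩, e⟩
  · rintro ⟨x, hx, e⟩
    exact ⟨(h.dE u).2 ⟨x, hx.1, e⟩, (h.dF u).2 ⟨x, hx.2, e⟩⟩

theorem card_pair (hX : X ≤ A ⊔ B) (hY : Y ≤ A ⊔ B) : Nat.card ↥(X ⊔ cj t Y) = Nat.card X * Nat.card Y := by
  have hY' : cj t Y ≤ cj t A ⊔ cj t B := by rw [← cj_sup]; exact cj_mono t hY
  have := card_sup_comm fun x hx y hy => h.tw2.com x (hX hx) y (hY' hy)
  rwa [(eq_bot_iff_forall (X ⊓ cj t Y)).2 fun x hx => h.tw2.dis x (hX hx.1) (hY' hx.2), card_bot, mul_one,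
    card_cj] at this

theorem elV : El (A ⊔ cj t A) := h.tri.elE.sup (h.tri.elE.cj t) fun x hx y hy => h.tw2.com x (mem_sup_left hx) y (mem_sup_left hy)

theorem cardV : Nat.card ↥(A ⊔ cj t A) = 256 := by rw [h.card_pair le_sup_left le_sup_left, h.tri.cE]

theorem two_UU : IsPGroup 2 (UU A B t) := IsPGroup.of_card (n := 12) (by
  rw [h.UU_eq', h.card_pair le_rfl le_rfl, h.tri.card]; norm_num)

theorem t_nm : Nm t (X ⊔ cj t X) := nm_iff_cj.2 (by rw [cj_sup, cj_cj_sq h.tt, sup_comm])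

theorem nmV (hg : g ∈ UU A B t) : Nm g A ∧ Nm g B ∧ Nm g (cj t A) ∧ Nm g (cj t B) := by
  obtain ⟨x, hx, y, hy, rfl⟩ := h.mem_UU.1 hg
  have c1 : Cm (t * y * t⁻¹) (A ⊔ B) := fun a ha => (h.com' a ha y hy).symm
  have c2 : Cm x (cj t A ⊔ cj t B) := h.tw2.com x hx
  exact ⟨(h.tri.nmE hx).mul (c1.mono le_sup_left).nm, (h.tri.nmF hx).mul (c1.mono le_sup_right).nm,
    (c2.mono le_sup_left).nm.mul ((h.tri.nmE hy).conj t), (c2.mono le_sup_right).nm.mul ((h.tri.nmF hy).conj t)⟩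

theorem t_not : t ∉ UU A B t := fun ht => by
  obtain ⟨e, he, hn⟩ := h.tri.exE
  exact hn (by rw [h.dis e (mem_sup_left he) (mem_sup_left ((h.nmV ht).1 e he))]; exact one_mem _)

theorem fix_pair (hx : x ∈ A ⊔ B) (hy : y ∈ A ⊔ B) (c : Commute (x * (t * y * t⁻¹)) t) : x = y := by
  have e : y * (t * x * t⁻¹) = x * (t * y * t⁻¹) := by
    rw [(h.com' y hy x hx).eq]
    calc _ = t * (x * (t * y * t⁻¹)) * t⁻¹ := by rw [← conj_mul, h.tct]
      _ = _ := by rw [← c.eq, mul_inv_cancel_right]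
  exact (h.uniq hy hx hx hy e).2

theorem fixV (hg : g ∈ A ⊔ cj t A) (c : Commute g t) : g ∈ E := by
  obtain ⟨x, hx, y, hy, rfl⟩ := (h.mem_pair le_sup_left le_sup_left).1 hg
  obtain rfl := h.fix_pair (mem_sup_left hx) (mem_sup_left hy) c
  exact (h.dE _).2 ⟨x, hx, rfl⟩

theorem fixU (hg : g ∈ UU A B t) (c : Commute g t) : g ∈ E ⊔ F := by
  obtain ⟨x, hx, y, hy, rfl⟩ := h.mem_UU.1 hg
  obtain rfl := h.fix_pair hx hy c
  exact h.dU.2 ⟨x, hx, rfl⟩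

theorem EV : E ≤ A ⊔ cj t A := fun e he => by
  obtain ⟨x, hx, rfl⟩ := (h.dE e).1 he
  exact mul_mem_sup hx (conj_mem_cj.2 hx)

theorem UUU : E ⊔ F ≤ UU A B t := fun u hu => by
  obtain ⟨x, hx, rfl⟩ := h.dU.1 hu
  exact h.mem_UU.2 ⟨x, hx, x, hx, rfl⟩

/-- conjugating `t` -/
theorem conj_t (hx : x ∈ A) : x * t * x⁻¹ = t * (x * (t * x * t⁻¹)) := by
  rw [(h.com' x (mem_sup_left hx) x (mem_sup_left hx)).eq, h.tri.elE.inv hx, h.toFr0.ti, ← mul_assoc, ← mul_assoc,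
    ← mul_assoc, h.tt, one_mul]

/-- an element of `L` centralising `L` centralises `U₁` -/
theorem cenL (hx : x ∈ L) (c : Cm x L) : Cm x (A ⊔ B) := h.th x (h.toFr0.th_of hx c)

/-- an element fixing the diagonal element fixes the components -/
theorem fix_of (c : Commute n t) (a : Nm n (A ⊔ B)) (hx : x ∈ A ⊔ B) (e : Commute n (x * (t * x * t⁻¹))) :
    Commute n x := by
  have e1 : n * x * n⁻¹ * (t * (n * x * n⁻¹) * t⁻¹) = x * (t * x * t⁻¹) := by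
    calc _ = n * x * n⁻¹ * (t * n) * x * (t * n)⁻¹ := by group
      _ = n * (x * (t * x * t⁻¹)) * n⁻¹ := by rw [← c.eq]; group
      _ = _ := by rw [e.eq, mul_inv_cancel_right]
  exact mul_inv_eq_iff_eq_mul.1 (h.uniq (a x hx) (a x hx) hx hx e1).1

theorem fσA : Fpf σ A := fun x hx c => by
  have c1 := h.cL _ h.σL
  have := h.fσ _ ((h.dE _).2 ⟨x, hx, rfl⟩) (c.mul_right ((c1.symm.mul_right c).mul_right c1.symm.inv_right))
  exact (h.uniq (mem_sup_left hx) (mem_sup_left hx) (one_mem _) (one_mem _) (by rw [this]; group)).1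

theorem σ3' : Cm (σ ^ 3) (A ⊔ B) := h.cenL (pow_mem h.σL 3) h.σ3

theorem tσ' : ∀ b ∈ B, σ * b * σ⁻¹ * b ∈ A := fun b hb => by
  obtain ⟨a, ha, e⟩ := (h.dE _).1 (h.tσ _ ((h.dF _).2 ⟨b, hb, rfl⟩))
  have h1 : σ * b * σ⁻¹ ∈ A ⊔ B := mem_sup_right (h.σB b hb)
  have e1 : σ * (b * (t * b * t⁻¹)) * σ⁻¹ = σ * b * σ⁻¹ * (t * (σ * b * σ⁻¹) * t⁻¹) := by
    calc _ = σ * b * σ⁻¹ * (σ * t) * b * (σ * t)⁻¹ := by group
      _ = _ := by rw [← (h.cL _ h.σL).eq]; group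
  rw [e1, h.dmul h1 (mem_sup_right hb)] at e
  rw [(h.uniq (mul_mem h1 (mem_sup_right hb)) (mul_mem h1 (mem_sup_right hb)) (mem_sup_left ha) (mem_sup_left ha) e).1]
  exact ha

theorem decB (hx : x ∈ B) : ∃ b ∈ B, Commute σ b ∧ ∃ z ∈ A ⊓ B, x = b * z := by
  obtain ⟨f, hf, c, z, hz', e⟩ := h.toTor.symm.decE ((h.dF _).2 ⟨x, hx, rfl⟩)
  obtain ⟨b, hb, rfl⟩ := (h.dF f).1 hf
  obtain ⟨z, hz, rfl⟩ := h.dZ.1 ⟨hz'.2, hz'.1⟩
  rw [h.dmul (mem_sup_right hb) (mem_sup_left hz.1)] at e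
  have m := mul_mem (mem_sup_right hb : b ∈ A ⊔ B) (mem_sup_left hz.1)
  exact ⟨b, hb, h.fix_of (h.cL _ h.σL).symm (h.σA.sup h.σB) (mem_sup_right hb) c, z, hz,
    (h.uniq (mem_sup_right hx) (mem_sup_right hx) m m e).1⟩

theorem spb_le : A ≤ normalClosure (L : Set G) := fun a ha => by
  obtain ⟨y, hy, rfl⟩ := h.fσA.onto h.tri.elE h.σA ha
  have m : σ ∈ normalClosure (L : Set G) := subset_normalClosure h.σL
  have := mul_mem m (normalClosure_normal.conj_mem _ (inv_mem m) y)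
  rw [h.tri.elE.inv hy] at this
  simpa only [mul_assoc] using this

theorem le_X : A ⊔ B ≤ normalClosure (L : Set G) := sup_le h.spb_le h.symm.spb_le

theorem two_V (h2 : Two x) (c : Cm x (A ⊔ cj t A)) : x ∈ A ⊔ cj t A := by
  refine WD.cs (X := centralizer ((A ⊔ cj t A : Subgroup G) : Set G)) h.tt ?_ (nm_iff.1 h.t_nm)
    (fun v hv => cm_iff.1 fun w hw => h.elV.comm hv hw) h.elV.two (fun x hx z hz => (cm_iff.2 hx z hz).eq)
    (fun x hx h2 c => ?_) (fun z hz e => ?_) x (cm_iff.1 c) h2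
  · exact nm_iff.1 fun x hx => cm_iff.1 ((cm_iff.2 hx).conj_nm h.t_nm)
  · refine h.EV ((h.toFr0.twoE c h2 ((cm_iff.2 hx).mono h.EV)).resolve_right fun m => h.t_not ?_)
    obtain ⟨e, he, hn⟩ := h.tri.exE
    have c1 : Commute t e := by
      have := ((h.elV.comm (h.EV m) (mem_sup_left he)).mul_left (cm_iff.2 hx e (mem_sup_left he)).inv_left)
      rwa [mul_inv_cancel_right] at this
    exact (hn (by
      rw [h.dis e (mem_sup_left he) (by rw [c1.eq, mul_inv_cancel_right]; exact mem_sup_left he)]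
      exact one_mem _)).elim
  · obtain ⟨y, hy, e⟩ := conj_of_inv (U := A) h.tt (fun x hx y hy => h.com' x (mem_sup_left hx) y (mem_sup_left hy))
      (fun x hx hy => h.dis x (mem_sup_left hx) (mem_sup_left hy)) hz e
    exact ⟨y, mem_sup_left hy, e⟩

/-- an element centralising the double of `E` is not conjugate to `t` -/
theorem not_conj (c : Cm x (A ⊔ cj t A)) : ¬IsConj t x := fun hc => by
  obtain ⟨g, rfl⟩ := isConj_iff.1 hc
  have := h.toFr0.el_le (h.elV.cj g⁻¹) (by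
    have := c.conj g⁻¹
    rwa [show g⁻¹ * (g * t * g⁻¹) * g⁻¹⁻¹ = t by group] at this)
  rw [card_cj, h.cardV] at this
  omega

theorem triP' (c : Commute n t) (nn : n * n = 1) (e : Cm (n * φ) L) (a : Nm n A) (b : Nm n B) : TriP A B n := by
  refine ⟨h.tri, nn, a, b, fun c1 => h.toTor.triP.nZ fun z hz => ?_⟩
  obtain ⟨x, hx, rfl⟩ := h.dZ.1 hz
  have := (((c1 x hx).mul_right ((c.mul_right (c1 x hx)).mul_right c.inv_right)).inv_left.mul_left
    (e _ (h.EL hz.1)))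
  rwa [inv_mul_cancel_left] at this

/-- SPLC: the field case does not occur -/
theorem not_field (a : Nm (t * φ) A) (b : Nm (t * φ) B) : False := by
  have c0 : Commute t φ := h.cL _ h.φL
  have c : Commute (t * φ) t := (Commute.refl t).mul_left c0.symm
  have ss : t * φ * (t * φ) = 1 := by rw [← pow_two, c0.mul_pow, pow_two, pow_two, h.tt, h.φφ, one_mul]
  have P := h.triP' c ss (by rw [mul_assoc, h.φφ, mul_one]; exact h.cL) a b
  obtain ⟨g, hg⟩ := isConj_iff.1 (h.fus φ h.φL h.φφ).symm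
  generalize t * φ = s at *
  have sU : s ∉ UU A B t := fun m => P.nZ fun z hz => by
    obtain ⟨x, hx, y, hy, rfl⟩ := h.mem_UU.1 m
    exact (h.tri.cenZ hz x hx).symm.mul_left (h.com' z (mem_sup_left hz.1) y hy).symm
  obtain ⟨z, hz, z1, cz, -⟩ := P.fix
  obtain ⟨a₁, ha, na, ca⟩ := P.fixE
  obtain ⟨b₁, hb, nb, cb⟩ := P.symm.fixE
  have zc : z ∈ centralizer {s} := mem_centralizer_singleton_iff.2 (cz s (mem_sup_right (mem_zpowers s))).eq
  have c2 : 2 ≤ Nat.card ↥(A ⊓ B ⊓ centralizer {s}) := spb_lt (H := ⊥) (m := 1) (x := z) (by simp) bot_le ⟨hz, zc⟩ z1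
  have c3 : 4 ≤ Nat.card ↥(A ⊓ centralizer {s}) := spb_lt (x := a₁) c2 (inf_le_inf_right _ inf_le_left)
    ⟨ha, mem_centralizer_singleton_iff.2 ca.eq⟩ fun m => na m.1.2
  have c4 : 4 ≤ Nat.card ↥(B ⊓ centralizer {s}) := spb_lt (x := b₁) c2 (inf_le_inf_right _ inf_le_right)
    ⟨hb, mem_centralizer_singleton_iff.2 cb.eq⟩ fun m => nb m.1.1
  have lA : A ⊓ centralizer {s} ≤ A ⊔ B := inf_le_left.trans le_sup_left
  have key : ∀ X : Subgroup G, X ≤ A ⊔ B → El X → X ≤ centralizer {s} →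
      (A ⊓ centralizer {s}) ⊔ cj t X ≤ UU A B t ∧ El ((A ⊓ centralizer {s}) ⊔ cj t X ⊔ zpowers s) ∧
      (∀ x ∈ (A ⊓ centralizer {s}) ⊔ cj t X ⊔ zpowers s, x ∈ UU A B t → x ∈ (A ⊓ centralizer {s}) ⊔ cj t X) ∧
      Nat.card ↥((A ⊓ centralizer {s}) ⊔ cj t X ⊔ zpowers s) = Nat.card ↥(A ⊓ centralizer {s}) * Nat.card X * 2 := by
    intro X l e cx
    have l1 : (A ⊓ centralizer {s}) ⊔ cj t X ≤ UU A B t := by rw [h.UU_eq']; exact sup_le_sup lA (cj_mono t l)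
    have cs : Cm s ((A ⊓ centralizer {s}) ⊔ cj t X) :=
      Cm.sup (fun x hx => (mem_centralizer_singleton_iff.1 hx.2).symm)
        (Cm.cj (fun x hx => (mem_centralizer_singleton_iff.1 (cx hx)).symm) c)
    have cm : ∀ x ∈ (A ⊓ centralizer {s}) ⊔ cj t X, ∀ y ∈ zpowers s, Commute x y := by
      rintro x hx _ ⟨k, rfl⟩
      exact (cs x hx).symm.zpow_right k
    refine ⟨l1, El.sup (El.sup (h.tri.elE.mono inf_le_left) (e.cj t) fun x hx y hy =>
      h.tw2.com x (lA hx) y (by rw [← cj_sup]; exact cj_mono t l hy)) (fun x hx => ?_) cm, fun x hx m => ?_, ?_⟩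
    · rcases spb_zp ss hx with rfl | rfl
      · exact one_mul _
      · exact ss
    · obtain ⟨x, hx', y, hy, rfl⟩ := (mem_sup_comm cm).1 hx
      rcases spb_zp ss hy with rfl | rfl
      · rwa [mul_one]
      · exact (sU ((mul_mem_cancel_left (l1 hx')).1 m)).elim
    · have := card_sup_comm cm
      rwa [(eq_bot_iff_forall (_ ⊓ zpowers s)).2 fun x hx => (spb_zp ss hx.2).resolve_right fun e => sU (e ▸ l1 hx.1),
        card_bot, mul_one, h.card_pair lA l, Nat.card_zpowers,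
        orderOf_eq_prime (p := 2) (by rw [pow_two, ss]) fun e => sU (by rw [e]; exact one_mem _)] at this
  obtain ⟨l1, e1, -, k1⟩ := key _ lA (h.tri.elE.mono inf_le_left) inf_le_right
  obtain ⟨l2, e2, m2, k2⟩ := key (B ⊓ centralizer {s}) (inf_le_left.trans le_sup_right) (h.tri.elF.mono inf_le_left)
    inf_le_right
  obtain ⟨-, -, -, k3⟩ := key (A ⊓ B ⊓ centralizer {s}) (inf_le_left.trans (inf_le_left.trans le_sup_left))
    (h.tri.elZ.mono inf_le_left) inf_le_right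
  have ns : Nm s (UU A B t) := (a.sup b).sup ((a.cj c).sup (b.cj c))
  rcases h.toFr0.two32 (e1.cj g) (e2.cj g) (by rw [← hg]; exact conj_mem_cj.2 (mem_sup_right (mem_zpowers s)))
    (by rw [← hg]; exact conj_mem_cj.2 (mem_sup_right (mem_zpowers s))) (by rw [card_cj, k1]; nlinarith)
    (by rw [card_cj, k2]; nlinarith) (by
      rw [← cj_sup]
      exact isPGroup_cj g ((two_sup_nm h.two_UU (WD.Two.pgroup (WD.two_of_sq ss)) fun x hx => by
        rcases spb_zp ss hx with rfl | rfl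
        · exact Nm.of_mem (one_mem _)
        · exact ns).to_le (sup_le (sup_le_sup_right l1 _) (sup_le_sup_right l2 _)))) with e | e
  · have m : t * a₁ * t⁻¹ ∈ (A ⊓ centralizer {s}) ⊔ cj t (A ⊓ centralizer {s}) :=
      mem_sup_right (conj_mem_cj.2 ⟨ha, mem_centralizer_singleton_iff.2 ca.eq⟩)
    obtain ⟨x, hx, y, hy, e3⟩ := (h.mem_pair lA (inf_le_left.trans le_sup_right)).1
      (m2 _ (by rw [← cj_injective g e]; exact mem_sup_left m) (l1 m))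
    exact na (by
      rw [(h.uniq (one_mem _) (mem_sup_left ha) (lA hx) (mem_sup_right hy.1) (by rw [one_mul, e3])).2]
      exact hy.1)
  · rw [← cj_inf, card_cj] at e
    have := card_le_of_le (le_inf
      (sup_le_sup_right (sup_le_sup_left (cj_mono t (inf_le_inf_right (centralizer {s}) (inf_le_left (a := A) (b := B))))
        (A ⊓ centralizer {s})) (zpowers s))
      (sup_le_sup_right (sup_le_sup_left (cj_mono t (inf_le_inf_right (centralizer {s}) (inf_le_right (a := A) (b := B))))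
        (A ⊓ centralizer {s})) (zpowers s)))
    rw [k3] at this
    nlinarith

end Sp0

theorem Sp.flip (h : Sp L E F A B t σ ρ φ) : Sp L E F (cj t A) (cj t B) t σ ρ φ :=
  ⟨h.toSp0.flip, h.φA.cj (h.cL _ h.φL).symm, h.φB.cj (h.cL _ h.φL).symm⟩

theorem Sp.triPA (h : Sp L E F A B t σ ρ φ) : TriP A B φ :=
  h.toSp0.triP' (h.cL _ h.φL).symm h.φφ (by rw [h.φφ]; exact fun x _ => Commute.one_left x) h.φA h.φB

theorem Js.flip (h : Js L E F A B t σ ρ φ) : Js L E F (cj t A) (cj t B) t σ ρ φ := by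
  have c := cj_cj_sq h.tt
  refine ⟨h.toSp.flip, by rw [h.toSp0.UU_flip]; exact h.two_le, fun n h1 h2 h3 h4 h5 h6 h7 => ?_,
    fun x hx x2 x1 g => ?_, fun n hn => ?_⟩
  · rw [c] at h4 h5
    rw [c, c] at h7
    rw [h.toSp0.UU_flip]
    exact h.ker n h1 h4 h5 h2 h3 h7 h6
  · rw [← cj_sup] at hx
    obtain ⟨y, hy, rfl⟩ := h.toSp0.mem_cj'.1 hx
    have := h.sep y hy (by rwa [conj_mul, conj_eq_one_iff] at x2) (fun e => x1 (by rw [e]; group)) (g * t)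
    convert this using 2
    group
  · rw [h.toSp0.UU_flip] at hn
    rw [c, c]
    exact (h.perm n hn).imp And.symm And.symm

end CfsgLib.StdL
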