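import Mathlib
import Cfsg.Agent.Lib.StdL.Spb

/-!
# Standard subgroups of type `M22`: the product `T₁ × T₂`
-/

set_option autoImplicit false
set_option linter.unusedSectionVars false

namespace CfsgLib.StdL

open Subgroup Cfsg CfsgLib.Tech
open CfsgLib.StdInt hiding cj mem_cj

variable {G : Type*} [Group G] [Finite G] {L E F A B P : Subgroup G} {t σ ρ φ p g n s v x y x' y' : G}

theorem Sw.conj {H K : Subgroup G} (a : Sw n H K) (g : G) : Sw (g * n * g⁻¹) (cj g H) (cj g K) := by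
  have e : ∀ X : Subgroup G, cj (g * n * g⁻¹) (cj g X) = cj g (cj n X) := fun X => by
    rw [← cj_mul, ← cj_mul, inv_mul_cancel_right]
  rw [Sw, e, e]
  exact a.imp (And.imp (congrArg _) (congrArg _)) (And.imp (congrArg _) (congrArg _))

theorem Sw.nm_conj {H K : Subgroup G} (a : Sw n H K) (b : Nm s H) (c : Nm s K) :
    Nm (n * s * n⁻¹) H ∧ Nm (n * s * n⁻¹) K := by
  have b' := b.conj n
  have c' := c.conj n
  rcases a with ⟨e1, e2⟩ | ⟨e1, e2⟩ <;> rw [e1] at b' <;> rw [e2] at c'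
  exacts [⟨b', c'⟩, ⟨c', b'⟩]

theorem Fr0.in_one (h : Fr0 L E F t σ ρ φ) : In L 1 := ⟨1, one_mem _, fun _ _ => by simp⟩

/-- SYL1: conjugates of `t` normalising `U₁ × U₂` interchange the factors -/
theorem Js.swp (h : Js L E F A B t σ ρ φ) (c : IsConj t s) (a : Sw s A B) : False := by
  obtain ⟨g, rfl⟩ := isConj_iff.1 c
  have h4 := h.tri.four_le (by rw [conj_mul, h.tt]; group) a
  have ct : ∀ x ∈ (A ⊔ B) ⊓ centralizer {g * t * g⁻¹}, Commute (g⁻¹ * x * g) t := fun x hx =>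
    comm_conj.1 (mem_centralizer_singleton_iff.1 (mem_inf.1 hx).2)
  have mul : ∀ x y : G, g⁻¹ * (x * y) * g = g⁻¹ * x * g * (g⁻¹ * y * g) := fun x y => by group
  obtain ⟨y, hy, y1, y2, y3⟩ : ∃ y ∈ (A ⊔ B) ⊓ centralizer {g * t * g⁻¹}, y ≠ 1 ∧ y * y = 1 ∧
      In L (g⁻¹ * y * g) := by
    by_cases e : El ((A ⊔ B) ⊓ centralizer {g * t * g⁻¹})
    · have := Finite.one_lt_card_iff_nontrivial.1
        (by omega : 1 < Nat.card ↥((A ⊔ B) ⊓ centralizer {g * t * g⁻¹}))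
      obtain ⟨⟨x, hx⟩, x1⟩ := exists_ne (1 : ↥((A ⊔ B) ⊓ centralizer {g * t * g⁻¹}))
      replace x1 : x ≠ 1 := fun e => x1 (Subtype.ext e)
      obtain ⟨y, hy, y1⟩ : ∃ y ∈ (A ⊔ B) ⊓ centralizer {g * t * g⁻¹}, y ∉ zpowers x := by
        by_contra! hh
        have := card_le_of_le (show _ ≤ zpowers x from hh)
        rw [Nat.card_zpowers, orderOf_two_of_mul_self (e x hx) x1] at this
        omega
      by_cases ix : In L (g⁻¹ * x * g)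
      · exact ⟨x, hx, x1, e x hx, ix⟩
      by_cases iy : In L (g⁻¹ * y * g)
      · exact ⟨y, hy, fun e => y1 (e ▸ one_mem _), e y hy, iy⟩
      exact ⟨x * y, mul_mem hx hy, fun e => y1 (eq_inv_of_mul_eq_one_right e ▸ inv_mem (mem_zpowers x)),
        e _ (mul_mem hx hy), mul x y ▸ h.idx _ _ (ct x hx) (ct y hy) ix iy⟩
    · obtain ⟨x, hx, x1⟩ : ∃ x ∈ (A ⊔ B) ⊓ centralizer {g * t * g⁻¹}, x * x ≠ 1 := by
        by_contra! hh
        exact e hh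
      refine ⟨x * x, mul_mem hx hx, x1, h.tri.elZ _ (h.tri.sq_mem (mem_inf.1 hx).1), mul x x ▸ ?_⟩
      by_cases ix : In L (g⁻¹ * x * g)
      · exact h.in_mul ix ix (ct x hx)
      · exact h.idx _ _ (ct x hx) (ct x hx) ix ix
  rcases h.cls (ct y hy) (by rw [← mul, y2]; group) y3 with k | k
  · exact h.sep y (mem_inf.1 hy).1 y2 y1 g⁻¹ (by rwa [inv_inv])
  · have k' : IsConj t y := k.trans (isConj_iff.2 ⟨g, by group⟩)
    rcases h.tri.invol (mem_inf.1 hy).1 y2 with m | m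
    · exact h.not_conj (fun z hz => h.elV.comm (mem_sup_left m) hz) k'
    · exact h.toSp0.symm.not_conj (fun z hz => h.toSp0.symm.elV.comm (mem_sup_left m) hz) k'

namespace Pd

variable (h : Pd L E F A B t σ ρ φ p)
include h

theorem p_mem : p ∈ TT A B p := mem_sup_right (mem_zpowers p)

theorem U_le : A ⊔ B ≤ TT A B p := le_sup_left

theorem cm_t (hy : y ∈ TT A B p) : Cm (t * y * t⁻¹) (TT A B p) := fun x hx => (h.comT x hx y hy).symm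

theorem cm_T2 (hx : x ∈ TT A B p) : Cm x (cj t (TT A B p)) := by
  rintro _ ⟨y, hy, rfl⟩
  exact h.comT x hx y hy

theorem triPT : TriP A B p :=
  ⟨h.tri, h.pp, h.pA, h.pB, fun c => h.toSp.triPA.nZ (by
    rw [h.eq]
    exact c.mul ((h.cm_t h.p_mem).mono (inf_le_left.trans (le_sup_left.trans h.U_le))))⟩

theorem cj_T : cj t (TT A B p) = TT (cj t A) (cj t B) (t * p * t⁻¹) := h.triPT.cj_TT t

theorem triPT2 : TriP (cj t A) (cj t B) (t * p * t⁻¹) := h.triPT.conj' t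

theorem tt' (x : G) : t * (t * x * t⁻¹) * t⁻¹ = x := by
  calc _ = (t * t) * x * (t * t)⁻¹ := by group
    _ = x := by rw [h.tt]; group

theorem disT (hx : x ∈ TT A B p) (hx' : t * x * t⁻¹ ∈ TT A B p) : x = 1 := by
  obtain ⟨z, hz, -, -, -, h1, -⟩ := h.triPT.fix
  have zU : z ∈ A ⊔ B := mem_sup_left (mem_inf.1 hz).1
  rcases h1 x hx (h.tt' x ▸ h.cm_t hx') with e | e
  · exact e
  · rcases h1 _ hx' (h.cm_t hx) with e' | e'
    · simpa using e'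
    · exact h.dis x (e ▸ zU) (e' ▸ zU)

theorem mem_SS : g ∈ SS A B t p ↔ ∃ x ∈ TT A B p, ∃ y ∈ TT A B p, g = x * (t * y * t⁻¹) := by
  rw [SS, mem_sup_comm fun x hx => h.cm_T2 hx]
  exact ⟨by rintro ⟨x, hx, _, ⟨y, hy, rfl⟩, e⟩; exact ⟨x, hx, y, hy, e⟩,
    fun ⟨x, hx, y, hy, e⟩ => ⟨x, hx, _, ⟨y, hy, rfl⟩, e⟩⟩

theorem uniqT (hx : x ∈ TT A B p) (hy : y ∈ TT A B p) (hx' : x' ∈ TT A B p) (hy' : y' ∈ TT A B p)
    (e : x * (t * y * t⁻¹) = x' * (t * y' * t⁻¹)) : x = x' ∧ y = y' := by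
  have e1 : t * (y * y'⁻¹) * t⁻¹ = x⁻¹ * x' := by
    calc _ = x⁻¹ * (x * (t * y * t⁻¹)) * (t * y' * t⁻¹)⁻¹ := by group
      _ = _ := by rw [e]; group
  obtain rfl := mul_inv_eq_one.1 (h.disT (mul_mem hy (inv_mem hy')) (e1 ▸ mul_mem (inv_mem hx) hx'))
  exact ⟨mul_right_cancel e, rfl⟩

theorem mul_pair (hy : y ∈ TT A B p) (hx' : x' ∈ TT A B p) (x y' : G) :
    x * (t * y * t⁻¹) * (x' * (t * y' * t⁻¹)) = x * x' * (t * (y * y') * t⁻¹) := by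
  rw [mul_assoc x, ← mul_assoc _ x', ← (h.comT x' hx' y hy).eq]; group

theorem sq_pair (hx : x ∈ TT A B p) (hy : y ∈ TT A B p) (e : x * (t * y * t⁻¹) * (x * (t * y * t⁻¹)) = 1) :
    x * x = 1 ∧ y * y = 1 :=
  h.uniqT (mul_mem hx hx) (mul_mem hy hy) (one_mem _) (one_mem _) (by rw [← h.mul_pair hy hx, e]; simp)

theorem two_SS : IsPGroup 2 (SS A B t p) :=
  two_sup_nm h.triPT.two_TT (isPGroup_cj t h.triPT.two_TT) (by
    rintro _ ⟨y, hy, rfl⟩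
    exact (h.cm_t hy).nm)

theorem nm4 (hg : g ∈ SS A B t p) : Nm g A ∧ Nm g B ∧ Nm g (cj t A) ∧ Nm g (cj t B) := by
  obtain ⟨x, hx, y, hy, rfl⟩ := h.mem_SS.1 hg
  have lA : A ≤ TT A B p := le_sup_left.trans h.U_le
  have lB : B ≤ TT A B p := le_sup_right.trans h.U_le
  exact ⟨(h.triPT.nm hx).1.mul ((h.cm_t hy).mono lA).nm, (h.triPT.nm hx).2.mul ((h.cm_t hy).mono lB).nm,
    ((h.cm_T2 hx).mono (cj_mono t lA)).nm.mul ((h.triPT.nm hy).1.conj t),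
    ((h.cm_T2 hx).mono (cj_mono t lB)).nm.mul ((h.triPT.nm hy).2.conj t)⟩

theorem not_le {X : Subgroup G} (hX : X ≤ A ⊔ B) : ¬A ≤ cj t X := fun e => by
  obtain ⟨a, ha, a1⟩ := h.tri.exE
  obtain ⟨y, hy, rfl⟩ := e ha
  have : y = 1 := h.dis y (hX hy) (mem_sup_left ha)
  exact a1 (by simp [this])

theorem t_SS : t ∉ SS A B t p ∧ Nm t (SS A B t p) :=
  ⟨fun e => h.not_le le_sup_left (nm_iff_cj.1 (h.nm4 e).1).ge, h.t_nm⟩

theorem UU_le : UU A B t ≤ SS A B t p := by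
  rw [h.UU_eq']
  exact sup_le_sup h.U_le (cj_mono t h.U_le)

theorem T1_le : TT A B p ≤ SS A B t p := le_sup_left

theorem T2_mem (hx : x ∈ TT A B p) : t * x * t⁻¹ ∈ SS A B t p := mem_sup_right ⟨x, hx, rfl⟩

theorem T_le : TT E F φ ≤ SS A B t p :=
  sup_le (h.UUU.trans h.UU_le) (zpowers_le.2 (h.mem_SS.2 ⟨p, h.p_mem, p, h.p_mem, h.eq⟩))

theorem SS_le : SS A B t p ≤ normalClosure (L : Set G) :=
  sup_le h.leX (by
    rintro _ ⟨y, hy, rfl⟩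
    exact normalClosure_normal.conj_mem _ (h.leX hy) t)

theorem sepT (hx : x ∈ TT A B p) (h2 : x * x = 1) (x1 : x ≠ 1) (g : G) : g * x * g⁻¹ ∉ L := by
  obtain ⟨z, hz, z1⟩ := h.tri.exZ
  have zU : z ∈ A ⊔ B := mem_sup_left (mem_inf.1 hz).1
  obtain ⟨c, -, rfl⟩ := h.cls1 z (h.U_le zU) (h.tri.elZ z hz) z1 x hx h2 x1
  have := h.sep z zU (h.tri.elZ z hz) z1 (g * c)
  rwa [show g * c * z * (g * c)⁻¹ = g * (c * z * c⁻¹) * g⁻¹ by group] at this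

/-- SYL2: pure and mixed involutions are not conjugate -/
theorem typ (hx : x ∈ TT A B p) (h2 : x * x = 1) (hg : g * x * g⁻¹ ∈ SS A B t p) :
    g * x * g⁻¹ ∈ TT A B p ∨ g * x * g⁻¹ ∈ cj t (TT A B p) := by
  by_cases x1 : x = 1
  · exact Or.inl (by simp [x1])
  obtain ⟨a, ha, b, hb, e⟩ := h.mem_SS.1 hg
  obtain ⟨a2, b2⟩ := h.sq_pair ha hb (by rw [← e, conj_mul, h2]; group)
  by_cases b1 : b = 1
  · exact Or.inl (by simpa [e, b1] using ha)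
  by_cases a1 : a = 1
  · exact Or.inr ⟨b, hb, by simp [e, a1]⟩
  obtain ⟨c, -, hc⟩ := h.cls2 a ha a2 a1 b hb b2 b1
  exact absurd (by rwa [← e, show c * (g * x * g⁻¹) * c⁻¹ = c * g * x * (c * g)⁻¹ by group] at hc)
    (h.sepT hx h2 x1 _)

/-- SYL3 -/
theorem s00 (hP : IsPGroup 2 P) (le : SS A B t p ≤ P) (hn : n ∈ P) (a : Nm n A) (b : Nm n B) (c : Nm n (cj t A))
    (d : Nm n (cj t B)) : n ∈ SS A B t p := by
  let Q := P ⊓ (normalizer (A : Set G) ⊓ normalizer (B : Set G) ⊓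
    (normalizer (cj t A : Set G) ⊓ normalizer (cj t B : Set G)))
  have hQ : IsPGroup 2 Q := hP.to_le inf_le_left
  have mQ : ∀ g, g ∈ Q ↔ g ∈ P ∧ (Nm g A ∧ Nm g B) ∧ Nm g (cj t A) ∧ Nm g (cj t B) := fun g => by
    simp only [Q, mem_inf, nm_iff]
  have lQ : SS A B t p ≤ Q := fun g hg =>
    (mQ g).2 ⟨le hg, ⟨(h.nm4 hg).1, (h.nm4 hg).2.1⟩, (h.nm4 hg).2.2⟩
  have p1 := h.T1_le h.p_mem
  have p2 := h.T2_mem h.p_mem
  have k2 : ∀ m ∈ Q, Cm m (A ⊓ B) → Cm m (cj t A ⊓ cj t B) → m ∈ SS A B t p := fun m hm c1 c2 => by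
    obtain ⟨-, ⟨m1, m2⟩, m3, m4⟩ := (mQ m).1 hm
    exact h.UU_le (h.ker m (two_of_mem hQ hm) m1 m2 m3 m4 c1 c2)
  have k1 : ∀ m ∈ Q, Cm m (A ⊓ B) → m ∈ SS A B t p := fun m hm c1 => by
    by_cases c2 : Cm m (cj t A ⊓ cj t B)
    · exact k2 m hm c1 c2
    · exact (mul_mem_cancel_right p2).1 (k2 _ (mul_mem hm (lQ p2))
        (c1.mul ((h.cm_t h.p_mem).mono (inf_le_left.trans (le_sup_left.trans h.U_le))))
        (two_act h.triPT2.cZ h.triPT2.elZ hQ (fun g hg => ((mQ g).1 hg).2.2.1.inf ((mQ g).1 hg).2.2.2) hm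
          (lQ p2) c2 h.triPT2.nZ))
  have hm := (mQ n).2 ⟨hn, ⟨a, b⟩, c, d⟩
  by_cases c1 : Cm n (A ⊓ B)
  · exact k1 n hm c1
  · exact (mul_mem_cancel_right p1).1 (k1 _ (mul_mem hm (lQ p1))
      (two_act h.tri.cZ h.tri.elZ hQ (fun g hg => ((mQ g).1 hg).2.1.1.inf ((mQ g).1 hg).2.1.2) hm (lQ p1) c1
        h.triPT.nZ))

theorem nS (hP : IsPGroup 2 P) (le : SS A B t p ≤ P) (hn : n ∈ P) (a : Sw n A B) (b : Sw n (cj t A) (cj t B)) :
    Nm n (SS A B t p) := fun s hs => by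
  obtain ⟨s1, s2, s3, s4⟩ := h.nm4 hs
  exact h.s00 hP le (mul_mem (mul_mem hn (le hs)) (inv_mem hn)) (a.nm_conj s1 s2).1 (a.nm_conj s1 s2).2
    (b.nm_conj s3 s4).1 (b.nm_conj s3 s4).2

theorem nT1 (hP : IsPGroup 2 P) (le : SS A B t p ≤ P) (hn : n ∈ P) (a : Sw n A B) (b : Sw n (cj t A) (cj t B)) :
    Nm n (TT A B p) := by
  have k : n * p * n⁻¹ ∈ TT A B p := by
    refine (h.typ h.p_mem h.pp (h.nS hP le hn a b p (h.T1_le h.p_mem))).resolve_right fun e => ?_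
    have l2 : cj t A ⊔ cj t B ≤ cj t (TT A B p) := by rw [← cj_sup]; exact cj_mono t h.U_le
    have e2 := h.triPT2.cU (h.cj_T ▸ e) (((h.cm_T2 h.p_mem).mono l2).conj_nm b.nm_sup)
    have e3 := b.nm_sup.inv _ (mem_sup_left (mem_inf.1 e2).1)
    rw [show n⁻¹ * (n * p * n⁻¹) * n⁻¹⁻¹ = p by group] at e3
    obtain ⟨y, hy, e4⟩ := l2 e3
    have y1 : y = 1 := h.disT hy (by rw [show t * y * t⁻¹ = p from e4]; exact h.p_mem)
    refine h.triPT.not_mem ?_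
    rw [← e4, y1, map_one]
    exact one_mem _
  refine cj_le_iff.1 ?_
  rw [TT, cj_sup, cj_zpowers]
  exact sup_le ((cj_le_iff.2 a.nm_sup).trans le_sup_left) (zpowers_le.2 k)

theorem nT (hP : IsPGroup 2 P) (le : SS A B t p ≤ P) (hn : n ∈ P) (a : Sw n A B) (b : Sw n (cj t A) (cj t B)) :
    Nm n (TT A B p) ∧ Nm n (cj t (TT A B p)) := by
  refine ⟨h.nT1 hP le hn a b, ?_⟩
  have b' := b.conj t
  rw [cj_cj_sq h.tt, cj_cj_sq h.tt] at b'
  have := (h.nT1 (isPGroup_cj t hP) ((nm_iff_cj.1 h.t_SS.2).ge.trans (cj_mono t le)) (conj_mem_cj.2 hn) b'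
    (a.conj t)).conj t
  rwa [h.tt'] at this

/-- SYL4: an outer involution is not conjugate into `T₁ × T₂` -/
theorem nv (c : Commute v t) (h2 : v * v = 1) (a : ¬In L v) (g : G) : g * v * g⁻¹ ∉ SS A B t p := fun hg => by
  obtain ⟨z, hz, z1⟩ := h.tri.exZ
  have zU : z ∈ A ⊔ B := mem_sup_left (mem_inf.1 hz).1
  have zT := h.U_le zU
  have z2 := h.tri.elZ z hz
  have cz : Cm z (UU A B t) := by
    rw [h.UU_eq']
    exact (h.tri.cenZ hz).sup ((h.cm_T2 zT).mono (cj_mono t h.U_le))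
  have cz' : Cm (t * z * t⁻¹) (UU A B t) := by
    refine cz.conj_nm ?_
    rw [h.UU_eq']
    exact h.t_nm
  obtain ⟨ζ, c1, c2⟩ : ∃ ζ, Cm ζ (UU A B t) ∧ IsConj ζ (g * v * g⁻¹) := by
    obtain ⟨x, hx, y, hy, e⟩ := h.mem_SS.1 hg
    obtain ⟨x2, y2⟩ := h.sq_pair hx hy (by rw [← e, conj_mul, h2]; group)
    have ne : g * v * g⁻¹ ≠ 1 := fun e => a (by rw [conj_eq_one_iff.1 e]; exact h.in_one)
    rw [e] at ne ⊢
    by_cases y1 : y = 1
    · obtain ⟨c, -, hc⟩ := h.cls1 z zT z2 z1 x hx x2 fun e => ne (by simp [e, y1])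
      exact ⟨z, cz, isConj_iff.2 ⟨c, by simp [hc, y1]⟩⟩
    by_cases x1 : x = 1
    · obtain ⟨c, -, hc⟩ := h.cls1 z zT z2 z1 y hy y2 y1
      exact ⟨z, cz, isConj_iff.2 ⟨t * c, by rw [x1, ← hc]; group⟩⟩
    obtain ⟨c, -, hc⟩ := h.cls2 x hx x2 x1 y hy y2 y1
    have hζ := h.dZ.2 ⟨z, hz, rfl⟩
    obtain ⟨l, -, hl⟩ := h.one _ (h.EL (mem_inf.1 hζ).1) (h.elZ _ hζ)
      (fun e => z1 (h.uniqT zT zT (one_mem _) (one_mem _) (by simpa using e)).1) _ hc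
      (by rw [conj_mul, h.mul_pair hy hx, x2, y2]; group) (by rwa [Ne, conj_eq_one_iff])
    exact ⟨_, cz.mul cz', isConj_iff.2 ⟨c⁻¹ * l, by
      rw [show ∀ u : G, c⁻¹ * l * u * (c⁻¹ * l)⁻¹ = c⁻¹ * (l * u * l⁻¹) * c from fun u => by group, hl]; group⟩⟩
  obtain ⟨k0, hk0⟩ := isConj_iff.1 (c2.trans (isConj_iff.2 ⟨g⁻¹, by group⟩ : IsConj (g * v * g⁻¹) v))
  obtain ⟨R, hR, tR⟩ := exists_isSylowIn_ge (isPGroup_two_zpowers h.tt)
    (zpowers_le.2 (mem_centralizer_singleton_iff.2 c.symm) : zpowers t ≤ centralizer {v})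
  obtain ⟨m, hm, le⟩ := hR.exists_cj_le (isPGroup_cj k0 h.two_UU) fun x hx =>
    mem_centralizer_singleton_iff.2 ((hk0 ▸ c1.conj k0) x hx).symm
  have hk : m * k0 * ζ * (m * k0)⁻¹ = v := by
    calc _ = m * (k0 * ζ * k0⁻¹) * m⁻¹ := by group
      _ = v := by rw [hk0, mem_centralizer_singleton_iff.1 hm, mul_inv_cancel_right]
  rw [← cj_mul] at le
  generalize m * k0 = k at hk le
  have ns : Nm (k⁻¹ * t * k⁻¹⁻¹) (UU A B t) := h.two_le _ (isPGroup_cj k⁻¹ hR.pgroup)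
    ((cj_inv_cj k _).ge.trans (cj_mono _ le)) _ (conj_mem_cj.2 (tR (mem_zpowers t)))
  have ct : IsConj t (k⁻¹ * t * k⁻¹⁻¹) := isConj_iff.2 ⟨_, rfl⟩
  have ss : k⁻¹ * t * k⁻¹⁻¹ * (k⁻¹ * t * k⁻¹⁻¹) = 1 := by rw [conj_mul, h.tt]; group
  have ts : k * (k⁻¹ * t * k⁻¹⁻¹) * k⁻¹ = t := by group
  generalize k⁻¹ * t * k⁻¹⁻¹ = s at ns ct ss ts
  obtain ⟨X, hX, eX, cX, e⟩ : ∃ X ≤ A ⊔ B, El X ∧ Nat.card X = 16 ∧ cj s A = cj t X := by
    have k : ∀ X, cj (t * s) A = X → cj s A = cj t X := fun X e => by rw [← e, cj_mul, cj_cj_sq h.tt]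
    rcases ((h.perm s ns).resolve_left fun e => h.toJs.swp ct e.1).1 with ⟨e, -⟩ | ⟨e, -⟩
    · exact ⟨A, le_sup_left, h.tri.elE, h.tri.cE, k _ e⟩
    · exact ⟨B, le_sup_right, h.tri.elF, h.tri.cF, k _ e⟩
  have lY : A ⊔ cj t X ≤ UU A B t := by
    rw [h.UU_eq']
    exact sup_le_sup le_sup_left (cj_mono t hX)
  have eY : El (A ⊔ cj t X) := h.tri.elE.sup (eX.cj t) fun x hx =>
    (h.cm_T2 (h.U_le (mem_sup_left hx))).mono (cj_mono t (hX.trans h.U_le))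
  have h1 := card_le_sq eY ss (by
    rw [nm_iff_cj, cj_sup, ← e, cj_cj_sq ss, sup_comm])
  rw [h.card_pair le_sup_left hX, h.tri.cE, cX] at h1
  set C := (A ⊔ cj t X) ⊓ centralizer {s} with hC
  have eZ : El (zpowers s) := by
    rintro _ ⟨i, rfl⟩
    simp only
    rw [← (Commute.refl s).mul_zpow, ss, one_zpow]
  have h3 := h.rk' c h2 a (Y := cj k (C ⊔ zpowers s))
    (((eY.mono inf_le_left).sup eZ fun x hx => by
      rintro _ ⟨i, rfl⟩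
      exact Commute.zpow_right (mem_centralizer_singleton_iff.1 (mem_inf.1 hx).2) i).cj k)
    (ts ▸ conj_mem_cj.2 (mem_sup_right (mem_zpowers s)))
    (hk ▸ ((c1.mono (inf_le_left.trans lY)).sup (by
      rintro _ ⟨i, rfl⟩
      refine Commute.zpow_right ?_ i
      rw [← hk, ← ts] at c
      simpa [mul_assoc] using c.conj k⁻¹)).conj k)
  rw [card_cj] at h3
  have h4 : C = C ⊔ zpowers s := eq_of_le_of_card_ge le_sup_left (by nlinarith)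
  have h5 : s ∈ C := h4 ▸ mem_sup_right (mem_zpowers s)
  exact h.not_le hX (e ▸ (nm_iff_cj.1 (h.nmV (lY (mem_inf.1 h5).1)).1).ge)

end Pd

end CfsgLib.StdL
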