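import Mathlib
import Cfsg.Agent.Lib.StdL.Syl
import Cfsg.Agent.Lib.StdL.Tri2
import Cfsg.Agent.Lib.Transfer.Cocycle

/-!
# Standard subgroups of type `M22`: no independent graph automorphisms
-/

set_option autoImplicit false
set_option linter.unusedSectionVars false
set_option linter.unusedVariables false

namespace CfsgLib.StdL

open Subgroup Cfsg CfsgLib.Tech
open CfsgLib.StdInt hiding cj mem_cj

variable {G : Type*} [Group G] [Finite G] {L E F A B S Z : Subgroup G} {t σ ρ φ p v w a b x y z : G}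

/-- Thompson's transfer lemma for a parity predicate on a Sylow subgroup of `X` -/
theorem thom {X R : Subgroup G} (hX : ∀ M : Subgroup X, M.index ≠ 2) (hS : IsSylowIn 2 S X) (P : G → Prop)
    (hP : ∀ x ∈ S, ∀ y ∈ S, P (x * y) ↔ (P x ↔ P y)) (hw : w ∈ S) (nw : ¬P w) (hv : v ∈ X) (vv : v * v = 1)
    (hR : IsPGroup 2 R) (RX : R ≤ X) (c : R ≤ centralizer {v}) :
    ∃ g ∈ X, g * v * g⁻¹ ∈ S ∧ P (g * v * g⁻¹) ∧ cj g R ≤ S := by
  have h1 : P 1 := by simpa using hP 1 (one_mem _) 1 (one_mem _)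
  let Q : Subgroup X :=
    { carrier := {x | (x : G) ∈ S ∧ P x}
      mul_mem' := fun {a b} ha hb => ⟨mul_mem ha.1 hb.1, (hP _ ha.1 _ hb.1).2 (iff_of_true ha.2 hb.2)⟩
      one_mem' := ⟨one_mem _, h1⟩
      inv_mem' := fun {a} ha => ⟨inv_mem ha.1, ((hP _ (inv_mem ha.1) _ ha.1).1 (by simpa using h1)).2 ha.2⟩ }
  obtain ⟨g, g1, g2⟩ := Transfer.thompson_transfer_extremal hX (H := S.subgroupOf X) (Q := Q)
    (R := R.subgroupOf X) hS.not_dvd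
    (relIndex_eq_two_iff_exists_notMem_and.2 ⟨⟨w, hS.le hw⟩, hw, fun k => nw k.2, fun b hb => by
      by_cases k : P b
      · exact Or.inr ⟨hb, k⟩
      · exact Or.inl ⟨mul_mem hb hw, (hP _ hb _ hw).2 (iff_of_false k nw)⟩⟩)
    (u := ⟨v, hv⟩) (Subtype.ext vv) hR.comap_subtype fun r hr =>
      mem_centralizer_singleton_iff.2 (Subtype.ext (mem_centralizer_singleton_iff.1 (c hr)))
  refine ⟨g⁻¹, inv_mem g.2, by simpa using g1.1, by simpa using g1.2, cj_le_iff.2 fun r hr => ?_⟩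
  simpa [mem_subgroupOf] using g2 ⟨r, RX hr⟩ hr

theorem Sw.par (ne : A ≠ B) (a : Sw x A B) (b : Sw y A B) : cj (x * y) A = A ↔ (cj x A = A ↔ cj y A = A) := by
  rw [cj_mul]
  rcases a with ⟨a1, a2⟩ | ⟨a1, a2⟩ <;> rcases b with ⟨b1, -⟩ | ⟨b1, -⟩ <;> simp [a1, a2, b1, ne.symm]

theorem Sw.pos (ne : A ≠ B) (a : Sw x A B) (e : cj x A = A) : cj x B = B :=
  (a.resolve_right fun k => ne (e.symm.trans k.1)).2

theorem Sw.neg (a : Sw x A B) (e : cj x A ≠ A) : cj x A = B ∧ cj x B = A := a.resolve_left fun k => e k.1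

theorem Fpf.sq (c : Nat.card Z = 4) (e : El Z) (n : Nm a Z) (f : Fpf a Z) (hz : z ∈ Z) :
    a * (a * z * a⁻¹) * a⁻¹ = z * (a * z * a⁻¹) := by
  by_cases z1 : z = 1
  · simp [z1]
  have hy := n z hz
  have y1 : a * z * a⁻¹ ≠ 1 := by rwa [Ne, conj_eq_one_iff]
  have zy : z ≠ a * z * a⁻¹ := fun k => z1 (f z hz (comm_of_conj k.symm))
  rcases klein c e hz hy z1 y1 zy _ (n _ hy) with k | k | k | k
  · exact absurd (conj_eq_one_iff.1 k) y1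
  · have := f _ (mul_mem hz hy) (comm_of_conj (by rw [← conj_mul, k, (e.comm hy hz).eq]))
    exact absurd ((eq_inv_of_mul_eq_one_left this).trans (e.inv hy)) zy
  · exact absurd (f _ hy (comm_of_conj k)) y1
  · exact k

theorem Fpf.inv (f : Fpf a Z) : Fpf a⁻¹ Z := fun x hx c => f x hx (by simpa using c.inv_left)

theorem Fpf.conj (f : Fpf a Z) (n : Nm x Z) : Fpf (x * a * x⁻¹) Z := fun y hy c => by
  have := f _ (n.inv y hy) (by simpa [mul_assoc] using c.conj x⁻¹)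
  rwa [conj_eq_one_iff] at this

theorem Fpf.cube (c : Nat.card Z = 4) (e : El Z) (na : Nm a Z) (nb : Nm b Z) (fa : Fpf a Z) (fb : Fpf b Z) :
    Cm ((a * b) ^ 3) Z := by
  by_cases f : Fpf (a * b) Z
  · intro z hz
    have n := na.mul nb
    generalize a * b = g at f n
    refine comm_of_conj ?_
    calc _ = g * (g * (g * z * g⁻¹) * g⁻¹) * g⁻¹ := by rw [pow_succ, pow_two]; group
      _ = g * z * g⁻¹ * (g * (g * z * g⁻¹) * g⁻¹) := by rw [conj_mul (b := g), ← f.sq c e n hz]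
      _ = z := by
        rw [f.sq c e n hz, ← mul_assoc, (e.comm (n z hz) hz).eq, mul_assoc, e _ (n z hz), mul_one]
  · obtain ⟨z, hz, cz, z1⟩ : ∃ z ∈ Z, Commute (a * b) z ∧ z ≠ 1 := by
      by_contra! hh
      exact f hh
    have e1 : b * z * b⁻¹ = a⁻¹ * z * a⁻¹⁻¹ := by
      conv_rhs => rw [← conj_of_comm cz]
      group
    have hy := nb z hz
    have cy : Commute (a * b) (b * z * b⁻¹) := comm_of_conj (by
      calc _ = a * (b * (b * z * b⁻¹) * b⁻¹) * a⁻¹ := by group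
        _ = _ := by rw [fb.sq c e nb hz, e1, ← fa.inv.sq c e na.inv hz]; group)
    refine Cm.pow (fun u hu => ?_) 3
    rcases klein c e hz hy z1 (by rwa [Ne, conj_eq_one_iff]) (fun k => z1 (fb z hz (comm_of_conj k.symm))) u hu with
      rfl | rfl | rfl | rfl
    exacts [Commute.one_right _, cz, cy, cz.mul_right cy]

namespace Pd

variable (h : Pd L E F A B t σ ρ φ p)
include h

theorem inner1 (h2 : Two x) (a : Nm x A) (b : Nm x B) (s : Sw x (cj t A) (cj t B)) (c : Cm x (A ⊓ B)) :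
    ∃ u ∈ A ⊔ B, Cm (x * u) (A ⊔ B) := by
  refine h.tri.inner h.σA h.σB h.σ3' h.fσA h.tσ' h2 a b c ?_
  have σt : Commute σ t := (h.cL σ h.σL).symm
  have a' : Nm (σ * x * σ⁻¹) A := (h.σA.mul a).mul h.σA.inv
  have b' : Nm (σ * x * σ⁻¹) B := (h.σB.mul b).mul h.σB.inv
  have c' : Cm (σ * x * σ⁻¹) (A ⊓ B) := c.conj_nm (h.σA.inf h.σB)
  have ck : Cm (σ * x * σ⁻¹ * x⁻¹) (A ⊓ B) := c'.mul c.inv
  have n2 : Nm (σ * x * σ⁻¹ * x⁻¹) (cj t A) ∧ Nm (σ * x * σ⁻¹ * x⁻¹) (cj t B) := by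
    have := s.nm_conj (h.σA.cj σt).inv (h.σB.cj σt).inv
    rw [show σ * x * σ⁻¹ * x⁻¹ = σ * (x * σ⁻¹ * x⁻¹) by group]
    exact ⟨(h.σA.cj σt).mul this.1, (h.σB.cj σt).mul this.2⟩
  have c3 : Cm ((σ * x * σ⁻¹ * x⁻¹) ^ 3) (cj t A ⊓ cj t B) := by
    have nσ := (h.σA.cj σt).inf (h.σB.cj σt)
    have f : Fpf σ (cj t A ⊓ cj t B) := fun y hy => h.toSp0.flip.fσA y (mem_inf.1 hy).1
    rw [show σ * x * σ⁻¹ * x⁻¹ = σ * (x * σ⁻¹ * x⁻¹) by group]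
    exact Fpf.cube h.triPT2.cZ h.triPT2.elZ nσ ((s.nm_inf.mul nσ.inv).mul s.nm_inf.inv) f (f.inv.conj s.nm_inf)
  have c2 : Cm ((σ * x * σ⁻¹ * x⁻¹) ^ 2) (A ⊔ B) := fun u hu => by
    have h2' : Two (σ * x * σ⁻¹) := h2.imp fun k hk => by rw [conj_pow, hk]; group
    have e1 := h.tri.triv (Two.inv h2) a.inv b.inv c.inv hu
    have e2 := h.tri.triv h2' a' b' c' ((a.sup b).inv u hu)
    have e3 := mul_mem e2 e1
    rw [show σ * x * σ⁻¹ * (x⁻¹ * u * x⁻¹⁻¹) * (σ * x * σ⁻¹)⁻¹ * (x⁻¹ * u * x⁻¹⁻¹)⁻¹ * (x⁻¹ * u * x⁻¹⁻¹ * u⁻¹) =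
      σ * x * σ⁻¹ * x⁻¹ * u * (σ * x * σ⁻¹ * x⁻¹)⁻¹ * u⁻¹ by group] at e3
    generalize σ * x * σ⁻¹ * x⁻¹ = k at e3 ck
    refine comm_of_conj ?_
    calc _ = k * (k * u * k⁻¹ * u⁻¹) * k⁻¹ * (k * u * k⁻¹ * u⁻¹) * u := by rw [sq]; group
      _ = u := by rw [conj_of_comm (ck _ e3), h.tri.elZ _ e3, one_mul]
  have na := a'.mul a.inv
  have nb := b'.mul b.inv
  generalize σ * x * σ⁻¹ * x⁻¹ = k at ck n2 c3 c2 na nb
  obtain ⟨_, ⟨j, rfl⟩, hm⟩ := exists_odd_two (k ^ 3)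
  obtain ⟨u, hu, u', hu', e⟩ := h.mem_UU.1 (h.ker _ hm ((na.pow _).pow _) ((nb.pow _).pow _) ((n2.1.pow _).pow _)
    ((n2.2.pow _).pow _) ((ck.pow _).pow _) (c3.pow _))
  refine ⟨u⁻¹, inv_mem hu, ?_⟩
  have e' : k * u⁻¹ = ((k ^ 2) ^ (3 * j + 1))⁻¹ * (t * u' * t⁻¹) := by
    calc _ = ((k ^ 2) ^ (3 * j + 1))⁻¹ * ((k ^ 3) ^ (2 * j + 1) * u⁻¹) := by
          rw [← pow_mul, ← pow_mul, show 3 * (2 * j + 1) = 2 * (3 * j + 1) + 1 by ring, pow_succ]; group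
      _ = _ := by rw [e, (h.com' u hu u' hu').eq, mul_inv_cancel_right]
  rw [e']
  exact (c2.pow _).inv.mul fun y hy => (h.com' y hy u' hu').symm

theorem split (hS : IsPGroup 2 S) (le : SS A B t p ≤ S) (hw : w ∈ S) (a : Nm w A) (b : Nm w B)
    (s : Sw w (cj t A) (cj t B)) : ∃ y ∈ S, Cm y (TT A B p) ∧ ∃ w' ∈ TT A B p, w = y * w' := by
  have lT : TT A B p ≤ S := h.T1_le.trans le
  have sT : ∀ x ∈ TT A B p, Sw x (cj t A) (cj t B) := fun x hx =>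
    Or.inl ⟨nm_iff_cj.1 (h.nm4 (h.T1_le hx)).2.2.1, nm_iff_cj.1 (h.nm4 (h.T1_le hx)).2.2.2⟩
  obtain ⟨q, hq, c⟩ : ∃ q ∈ TT A B p, Cm (w * q) (A ⊓ B) := by
    by_cases c : Cm w (A ⊓ B)
    · exact ⟨1, one_mem _, by rwa [mul_one]⟩
    · exact ⟨p, h.p_mem, two_act h.tri.cZ h.tri.elZ (P := S ⊓ normalizer ((A ⊓ B : Subgroup G) : Set G))
        (hS.to_le inf_le_left) (fun g hg => nm_iff.2 (mem_inf.1 hg).2) (mem_inf.2 ⟨hw, nm_iff.1 (a.inf b)⟩)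
        (mem_inf.2 ⟨lT h.p_mem, nm_iff.1 (h.pA.inf h.pB)⟩) c h.triPT.nZ⟩
  obtain ⟨u, hu, c1⟩ := h.inner1 (two_of_mem hS (mul_mem hw (lT hq))) (a.mul (h.triPT.nm hq).1)
    (b.mul (h.triPT.nm hq).2) (s.mul (sT q hq)) c
  have hq' := mul_mem hq (h.U_le hu)
  rw [mul_assoc] at c1
  generalize q * u = r at hq' c1
  have n := h.nT1 hS le (mul_mem hw (lT hq')) (Or.inl ⟨nm_iff_cj.1 (c1.mono le_sup_left).nm,
    nm_iff_cj.1 (c1.mono le_sup_right).nm⟩) (s.mul (sT r hq'))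
  have hζ : p⁻¹ * (w * r * p * (w * r)⁻¹) ∈ A ⊓ B := h.triPT.cU (mul_mem (inv_mem h.p_mem) (n p h.p_mem)) (by
    rw [show p⁻¹ * (w * r * p * (w * r)⁻¹) = p⁻¹ * (w * r) * p⁻¹⁻¹ * (w * r)⁻¹ by group]
    exact (c1.conj_nm (h.pA.sup h.pB).inv).mul c1.inv)
  have key : ∀ y, Cm y (A ⊔ B) → y * p * y⁻¹ = p → Cm y (TT A B p) := fun y c1 c2 => c1.sup (by
    rintro _ ⟨i, rfl⟩
    exact (comm_of_conj c2).zpow_right i)
  obtain ⟨z, -, -, -, h1, -, y, hy, h2⟩ := h.triPT.fix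
  have yT := h.U_le (mem_sup_left (mem_inf.1 hy).1)
  rcases h1 _ hζ (by
    have e := h.tri.elZ _ hζ
    have e2 : w * r * p * (w * r)⁻¹ * (w * r * p * (w * r)⁻¹) = 1 := by rw [conj_mul, h.pp]; group
    rw [h.triPT.inv] at e ⊢
    generalize w * r * p * (w * r)⁻¹ = p' at e e2
    have e3 : p * p' = p' * p := by
      rw [eq_inv_of_mul_eq_one_left e, mul_inv_rev, h.triPT.inv, ← eq_inv_of_mul_eq_one_left e2]
    exact (Commute.refl p).mul_left (Commute.symm e3)) with e | e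
  · exact ⟨w * r, mul_mem hw (lT hq'), key _ c1 (inv_mul_eq_one.1 e).symm, r⁻¹, inv_mem hq', by group⟩
  · refine ⟨y⁻¹ * (w * r), mul_mem (inv_mem (lT yT)) (mul_mem hw (lT hq')),
      key _ ((h.tri.cenZ hy).inv.mul c1) ?_, y * r⁻¹, mul_mem yT (inv_mem hq'), ?_⟩
    · calc _ = y⁻¹ * (p * (p⁻¹ * (w * r * p * (w * r)⁻¹))) * y := by group
        _ = p := by rw [e, ← h2]; group
    · rw [mul_assoc, ← mul_assoc (w * r), (c1 y (mem_sup_left (mem_inf.1 hy).1)).eq]; group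

end Pd

/-- CC1: an involution of type `(+, -)` has a conjugate with a large centraliser -/
theorem Pd.big (h : Pd L E F A B t σ ρ φ p) (hS : IsPGroup 2 S) (le : SS A B t p ≤ S) (hw : w ∈ S) (ww : w * w = 1)
    (a : cj w A = A) (b : cj w B = B) (c : cj w (cj t A) = cj t B) (d : cj w (cj t B) = cj t A) :
    ∃ g ∈ normalClosure (L : Set G), g * w * g⁻¹ ∈ S ∧ cj (g * w * g⁻¹) A = A ∧ cj (g * w * g⁻¹) (cj t A) = cj t B ∧
      2 ^ 11 ≤ Nat.card ↥(S ⊓ centralizer {g * w * g⁻¹}) := by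
  obtain ⟨y, hy, cy, w', hw', e⟩ := h.split hS le hw (nm_iff_cj.2 a) (nm_iff_cj.2 b) (Or.inr ⟨c, d⟩)
  obtain ⟨g, hg, η, hη, e1, cη⟩ := h.gam y (h.two_le S hS (h.UU_le.trans le) y hy) (two_of_mem hS hy) cy w' hw'
    (e ▸ ww)
  rw [← e] at e1
  have ηT := h.U_le (mem_sup_left (mem_inf.1 hη).1)
  have e2 : g * w * g⁻¹ = w * (w'⁻¹ * η) := by rw [e1, e]; group
  have m := h.T1_le (mul_mem (inv_mem hw') ηT)
  have c1 : Cm (g * w * g⁻¹) (TT A B p) := e1 ▸ cy.mul cη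
  have c' : cj (g * w * g⁻¹) (cj t A) = cj t B := by rw [e2, cj_mul, nm_iff_cj.1 (h.nm4 m).2.2.1, c]
  have d' : cj (g * w * g⁻¹) (cj t B) = cj t A := by rw [e2, cj_mul, nm_iff_cj.1 (h.nm4 m).2.2.2, d]
  have hs : g * w * g⁻¹ ∈ S := e2 ▸ mul_mem hw (le m)
  have ss : g * w * g⁻¹ * (g * w * g⁻¹) = 1 := by rw [conj_mul, ww]; group
  have a' := nm_iff_cj.1 (c1.mono (le_sup_left.trans h.U_le)).nm
  have b' := nm_iff_cj.1 (c1.mono (le_sup_right.trans h.U_le)).nm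
  refine ⟨g, hg, hs, a', c', ?_⟩
  generalize g * w * g⁻¹ = s at c1 c' d' hs ss a' b'
  have h1 := h.triPT2.sw_lo ss c' d' (h.cj_T ▸ (h.nT hS le hs (Or.inl ⟨a', b'⟩) (Or.inr ⟨c', d'⟩)).2)
  rw [← h.cj_T] at h1
  have h2 := card_sup_comm (H := TT A B p) (K := cj t (TT A B p) ⊓ centralizer {s})
    fun x hx y hy => h.cm_T2 hx y (mem_inf.1 hy).1
  have h3 : TT A B p ⊓ (cj t (TT A B p) ⊓ centralizer {s}) = ⊥ := le_bot_iff.1 fun x hx => by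
    obtain ⟨y, yT, rfl⟩ := (mem_inf.1 (mem_inf.1 hx).2).1
    rw [h.disT yT (mem_inf.1 hx).1, map_one]
    exact one_mem _
  rw [h3, card_bot, h.triPT.card_TT] at h2
  have h4 := spb_lt (m := 1024) (H := TT A B p ⊔ cj t (TT A B p) ⊓ centralizer {s}) (K := S ⊓ centralizer {s})
    (by omega) (sup_le (le_inf (h.T1_le.trans le) fun x hx => mem_centralizer_singleton_iff.2 (c1 x hx).symm)
      (inf_le_inf_right _ (le_sup_right.trans le))) (mem_inf.2 ⟨hs, mem_centralizer_singleton_iff.2 rfl⟩)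
    fun k => h.triPT2.ne ((nm_iff_cj.1 (h.nm4 (sup_le h.T1_le (inf_le_left.trans le_sup_right) k)).2.2.1).symm.trans c')
  omega

/-- CC2: an involution of type `(-, -)` has a small centraliser -/
theorem Pd.small (h : Pd L E F A B t σ ρ φ p) (hS : IsPGroup 2 S) (le : SS A B t p ≤ S)
    (sw : ∀ n ∈ S, Sw n A B ∧ Sw n (cj t A) (cj t B)) (hw : w ∈ S) (ww : w * w = 1)
    (a : cj w A = B) (c : cj w (cj t A) = cj t B) : Nat.card ↥(S ⊓ centralizer {w}) ≤ 2 ^ 10 := by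
  have k : ∀ {H X Y : Subgroup G}, X ≠ Y → (∀ n ∈ H, Sw n X Y) →
      Nat.card H ≤ 2 * Nat.card ↥(H ⊓ normalizer (X : Set G)) := fun ne s =>
    card_le_two_mul fun x hx y hy h1 h2 => by
      rw [mem_normalizer_iff_cj] at h1 h2 ⊢
      exact (Sw.par ne (s x hx) (s y hy)).2 (iff_of_false h1 h2)
  have h1 := k (H := S ⊓ centralizer {w}) h.tri.ne fun n hn => (sw n (mem_inf.1 hn).1).1
  have h2 := k (H := S ⊓ centralizer {w} ⊓ normalizer (A : Set G)) h.triPT2.ne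
    fun n hn => (sw n (mem_inf.1 (mem_inf.1 hn).1).1).2
  have h3 := h.triPT.sw_hi ww a ((sw w hw).1.neg (a ▸ h.tri.ne.symm)).2
  have h4 := h.triPT2.sw_hi ww c ((sw w hw).2.neg (c ▸ h.triPT2.ne.symm)).2
  rw [← h.cj_T] at h4
  have h5 := card_sup_comm (H := TT A B p ⊓ centralizer {w}) (K := cj t (TT A B p) ⊓ centralizer {w})
    fun x hx y hy => h.cm_T2 (mem_inf.1 hx).1 y (mem_inf.1 hy).1
  have h6 := card_le_of_le (show S ⊓ centralizer {w} ⊓ normalizer (A : Set G) ⊓ normalizer (cj t A : Set G) ≤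
      TT A B p ⊓ centralizer {w} ⊔ cj t (TT A B p) ⊓ centralizer {w} from fun n hn => by
    simp only [mem_inf, mem_normalizer_iff_cj, mem_centralizer_singleton_iff] at hn
    obtain ⟨⟨⟨n1, n2⟩, n3⟩, n4⟩ := hn
    obtain ⟨x, hx, y, hy, rfl⟩ := h.mem_SS.1 (h.s00 hS le n1 (nm_iff_cj.2 n3)
      (nm_iff_cj.2 ((sw n n1).1.pos h.tri.ne n3)) (nm_iff_cj.2 n4) (nm_iff_cj.2 ((sw n n1).2.pos h.triPT2.ne n4)))
    obtain ⟨m1, m2⟩ := h.nT hS le hw (sw w hw).1 (sw w hw).2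
    obtain ⟨y', hy', e⟩ := m2 _ (conj_mem_cj.2 hy)
    replace e : t * y' * t⁻¹ = w * (t * y * t⁻¹) * w⁻¹ := e
    obtain ⟨e1, e2⟩ := h.uniqT (m1 x hx) hy' hx hy (by rw [e, conj_mul, ← n2, mul_inv_cancel_right])
    exact mul_mem_sup (mem_inf.2 ⟨hx, mem_centralizer_singleton_iff.2 (comm_of_conj e1).symm⟩)
      (mem_inf.2 ⟨conj_mem_cj.2 hy, mem_centralizer_singleton_iff.2 (comm_of_conj (e2 ▸ e).symm).symm⟩))
  have h7 : 0 < Nat.card ↥((TT A B p ⊓ centralizer {w}) ⊓ (cj t (TT A B p) ⊓ centralizer {w})) := Nat.card_pos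
  nlinarith [Nat.mul_le_mul h3 h4]

/-- CC3 -/
theorem Pd.cc (h : Pd L E F A B t σ ρ φ p) (hX : ∀ M : Subgroup (normalClosure (L : Set G)), M.index ≠ 2)
    (hS : IsSylowIn 2 S (normalClosure (L : Set G))) (le : SS A B t p ≤ S) (nt : Nm t S)
    (sw : ∀ n ∈ S, Sw n A B ∧ Sw n (cj t A) (cj t B)) (hv : v ∈ S) (vv : v * v = 1) (vt : Commute v t)
    (nv : ∀ g, g * v * g⁻¹ ∉ SS A B t p) (hw : w ∈ S) (a : cj w A = A) (c : cj w (cj t A) = cj t B) : False := by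
  have pos : ∀ g, g * v * g⁻¹ ∈ S → cj (g * v * g⁻¹) A = A → cj (g * v * g⁻¹) (cj t A) ≠ cj t A :=
    fun g n1 n3 n4 => nv g (h.s00 hS.pgroup le n1 (nm_iff_cj.2 n3) (nm_iff_cj.2 ((sw _ n1).1.pos h.tri.ne n3))
      (nm_iff_cj.2 n4) (nm_iff_cj.2 ((sw _ n1).2.pos h.triPT2.ne n4)))
  have sq : ∀ g, g * v * g⁻¹ * (g * v * g⁻¹) = 1 := fun g => by rw [conj_mul, vv]; group
  obtain ⟨g, -, g1, g2, -⟩ := thom hX hS (fun n => cj n A = A)
    (fun x hx y hy => (sw x hx).1.par h.tri.ne (sw y hy).1) (nt w hw) (by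
      rw [cj_mul, cj_mul, h.ti, c, cj_cj_sq h.tt]
      exact h.tri.ne.symm) (hS.le hv) vv (R := ⊥) IsPGroup.of_bot bot_le bot_le
  obtain ⟨g3, g4⟩ := (sw _ g1).2.neg (pos g g1 g2)
  obtain ⟨k, -, k1, k2, k3, k4⟩ := h.big hS.pgroup le g1 (sq g) g2 ((sw _ g1).1.pos h.tri.ne g2) g3 g4
  rw [show k * (g * v * g⁻¹) * k⁻¹ = k * g * v * (k * g)⁻¹ by group] at k1 k2 k3 k4
  generalize k * g = m at k1 k2 k3 k4
  obtain ⟨n, -, n1, n2, n3⟩ := thom hX hS (fun n => cj n A = A ↔ cj n (cj t A) = cj t A)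
    (fun x hx y hy => by
      rw [(sw x hx).1.par h.tri.ne (sw y hy).1, (sw x hx).2.par h.triPT2.ne (sw y hy).2]
      tauto) k1 (fun e => pos m k1 k2 (e.1 k2)) (hS.le k1) (sq m) (R := S ⊓ centralizer {m * v * m⁻¹})
    (hS.pgroup.to_le inf_le_left) (inf_le_left.trans hS.le) inf_le_right
  have n4 := card_le_of_le (le_inf n3 ((cj_mono n inf_le_right).trans (cj_centralizer_singleton n _).le))
  rw [show n * (m * v * m⁻¹) * n⁻¹ = n * m * v * (n * m)⁻¹ by group] at n1 n2 n4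
  have n5 : cj (n * m * v * (n * m)⁻¹) A ≠ A := fun e => pos _ n1 e (n2.1 e)
  have n6 := h.small hS.pgroup le sw n1 (sq _) ((sw _ n1).1.neg n5).1 ((sw _ n1).2.neg fun e => n5 (n2.2 e)).1
  rw [card_cj] at n4
  omega

end CfsgLib.StdL
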