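import Mathlib
import Cfsg.Agent.Lib.StdL.Bor
import Cfsg.Agent.Lib.Fgs.AutBound
import Cfsg.Agent.Lib.Fgs.ConjCount

/-!
# Standard subgroups of type `M22`: the double of `E`
-/

set_option autoImplicit false
set_option linter.unusedSectionVars false
set_option linter.style.haveILetI false

namespace CfsgLib.StdL

open Subgroup Cfsg CfsgLib.Tech
open CfsgLib.StdInt hiding cj mem_cj

variable {G : Type*} [Group G] [Finite G] {L E F : Subgroup G} {t σ ρ φ : G}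

namespace Dbl

theorem relIndex_dvd {A : Subgroup G} (e : El E) (c : Nat.card E = 16) (n : ∀ a ∈ A, Nm a E) :
    (centralizer (E : Set G)).relIndex A ∣ 20160 := by
  have hA : A ≤ normalizer (E : Set G) := fun a ha => nm_iff.1 (n a ha)
  have h1 : (E.normalizerMonoidHom.comp (inclusion hA)).ker = (centralizer (E : Set G)).subgroupOf A := by
    rw [← MonoidHom.comap_ker, normalizerMonoidHom_ker]
    rfl
  haveI : IsMulCommutative E := ⟨⟨fun x y => Subtype.ext (e.comm x.2 y.2).eq⟩⟩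
  have h2 := Fgs.card_mulAut_dvd_of_elementary (V := E) (p := 2) (r := 4)
    (fun x => Subtype.ext (by rw [sq]; exact e x x.2)) c
  rw [relIndex, ← h1, index_ker]
  exact (card_subgroup_dvd_card _).trans h2

theorem tau_mul (tt : t * t = 1) {g k : G} (a : Cm g E) (b : k * t * k⁻¹ * t ∈ E) :
    g * k * t * (g * k)⁻¹ * t = k * t * k⁻¹ * t * (g * t * g⁻¹ * t) := by
  calc g * k * t * (g * k)⁻¹ * t = g * (k * t * k⁻¹ * (t * t)) * g⁻¹ * t := by rw [tt]; group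
    _ = g * (k * t * k⁻¹ * t) * (t * g⁻¹ * t) := by group
    _ = _ := by rw [(a _ b).eq]; group

theorem tau_inv (tt : t * t = 1) (e : El E) {g : G} (a : Cm g E) (b : g * t * g⁻¹ * t ∈ E) :
    g⁻¹ * t * g⁻¹⁻¹ * t = g * t * g⁻¹ * t := by
  have h1 := e _ b
  have h2 := (a.inv _ b).eq
  calc g⁻¹ * t * g⁻¹⁻¹ * t = g⁻¹ * (g * t * g⁻¹ * t * (g * t * g⁻¹ * t)) * t * g * t := by rw [h1]; group
    _ = g * t * g⁻¹ * t * (g⁻¹ * (g * t * g⁻¹ * (t * t)) * g * t) := by rw [← mul_assoc g⁻¹, h2]; group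
    _ = g * t * g⁻¹ * t * (t * t) := by nth_rw 1 [tt]; group
    _ = _ := by rw [tt, mul_one]

theorem tau_conj {g s : G} (c : Commute s t) :
    s * g * s⁻¹ * t * (s * g * s⁻¹)⁻¹ * t = s * (g * t * g⁻¹ * t) * s⁻¹ := by
  calc s * g * s⁻¹ * t * (s * g * s⁻¹)⁻¹ * t = s * g * (s⁻¹ * t) * s * g⁻¹ * (s⁻¹ * t) := by group
    _ = _ := by rw [c.inv_left.eq]; group

theorem tau_one (tt : t * t = 1) {g : G} : g * t * g⁻¹ * t = 1 ↔ Commute g t := by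
  rw [mul_eq_one_iff_eq_inv, inv_eq_of_mul_eq_one_right tt, mul_inv_eq_iff_eq_mul]
  rfl

variable (h : Fr0 L E F t σ ρ φ)
include h

theorem cE : Cm t E := h.cL.mono h.EL

theorem memE {x : G} : x ∈ zpowers t ⊔ E ↔ x ∈ E ∨ t * x ∈ E := WD.mem_sup_t h.tt (nm_iff.1 (cE h).nm)

theorem zp {x : G} (hx : x ∈ zpowers t) : x = 1 ∨ x = t := by
  obtain ⟨k, rfl⟩ := hx
  rcases Int.even_or_odd' k with ⟨m, rfl | rfl⟩
  · exact Or.inl (by simp [zpow_mul, sq, h.tt])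
  · exact Or.inr (by simp [zpow_add, zpow_mul, sq, h.tt])

theorem card_t : Nat.card (zpowers t) = 2 := by
  rw [Nat.card_zpowers]
  exact orderOf_eq_prime (by rw [sq, h.tt]) h.t1

theorem card_sup {X : Subgroup G} (hX : X ≤ L) : Nat.card ↥(zpowers t ⊔ X) = 2 * Nat.card X := by
  have h1 := card_sup_comm (H := zpowers t) (K := X) fun x hx y hy => by
    rcases zp h hx with rfl | rfl
    exacts [Commute.one_left _, h.cL y (hX hy)]
  have h2 : zpowers t ⊓ X = ⊥ := eq_bot_iff.2 fun x hx => by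
    rcases zp h hx.1 with e | e
    · exact mem_bot.2 e
    · exact absurd (hX (e ▸ hx.2)) h.tL
  rwa [h2, card_bot, mul_one, card_t h] at h1

theorem elE : El (zpowers t ⊔ E) := by
  refine El.sup (fun x hx => ?_) h.elE fun x hx y hy => ?_ <;> rcases zp h hx with rfl | rfl
  exacts [one_mul _, h.tt, Commute.one_left _, cE h y hy]

theorem nm_hat {g : G} (c : Commute g t) (n : Nm g E) : Nm g (zpowers t ⊔ E) :=
  Nm.sup (fun x hx => by
    rcases zp h hx with rfl | rfl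
    · simp
    · rw [c.eq, mul_inv_cancel_right]; exact mem_zpowers _) n

theorem nm_of_hat {g : G} (n : Nm g (zpowers t ⊔ E)) : Nm g E := fun e he => by
  refine ((memE h).1 (n e (mem_sup_right he))).resolve_right fun h1 => ?_
  obtain ⟨c, hc⟩ := isConj_iff.1 (h.fus _ (h.EL h1) (h.elE _ h1))
  refine h.notL (g⁻¹ * c) ?_
  have : g⁻¹ * c * t * (g⁻¹ * c)⁻¹ = e := by
    calc g⁻¹ * c * t * (g⁻¹ * c)⁻¹ = g⁻¹ * (c * t * c⁻¹) * g := by group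
      _ = g⁻¹ * (t * t * (g * e * g⁻¹)) * g := by rw [hc, mul_assoc t t]
      _ = e := by rw [h.tt]; group
  rw [this]
  exact h.EL he

theorem t_of_hat {g : G} (n : Nm g (zpowers t ⊔ E)) : t * (g * t * g⁻¹) ∈ E :=
  ((memE h).1 (n t (mem_sup_left (mem_zpowers t)))).resolve_left fun h1 => h.notL g (h.EL h1)

end Dbl

open Dbl

/-- DBL1: the normaliser of `⟨t⟩ E` moves `t` -/
theorem Fr0.moves (h : Fr0 L E F t σ ρ φ) : ∃ g, Nm g (zpowers t ⊔ E) ∧ ¬Commute g t := by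
  obtain ⟨z, hz, z1⟩ := h.toTri.exZ
  obtain ⟨g, hg⟩ := isConj_iff.1 (h.fus z (h.EL hz.1) (h.elE z hz.1))
  have htz : t * z ∈ zpowers t ⊔ E := mul_mem (mem_sup_left (mem_zpowers t)) (mem_sup_right hz.1)
  have c32 : Nat.card ↥(zpowers t ⊔ E) = 32 := by rw [card_sup h h.EL, h.cE]
  have eY : El (cj g⁻¹ (zpowers t ⊔ E)) := (elE h).cj _
  obtain ⟨-, h16, hY⟩ := h.five eY (mem_cj.2 (by rwa [inv_inv, hg])) (by rw [card_cj, c32])
  obtain ⟨l, hl, hD⟩ := h.toBor.el16 inf_le_right (eY.mono inf_le_left) h16.ge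
  have hlt := (h.cL l hl).eq
  have key : ∀ D : Subgroup G, cj l (cj g⁻¹ (zpowers t ⊔ E) ⊓ L) = D → ∀ x ∈ zpowers t ⊔ E,
      l * g⁻¹ * x * (l * g⁻¹)⁻¹ ∈ D ∨ t * (l * g⁻¹ * x * (l * g⁻¹)⁻¹) ∈ D := by
    rintro D rfl x hx
    have h1 : g⁻¹ * x * g⁻¹⁻¹ ∈ cj g⁻¹ (zpowers t ⊔ E) := conj_mem_cj.2 hx
    have ht : t ∈ cj g⁻¹ (zpowers t ⊔ E) := mem_cj.2 (by rwa [inv_inv, hg])
    rcases hY _ h1 with h2 | h2
    · exact Or.inl (mem_cj.2 ⟨by simpa [mul_assoc] using h1, by simpa [mul_assoc] using h2⟩)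
    · have e : l⁻¹ * (t * (l * g⁻¹ * x * (l * g⁻¹)⁻¹)) * l = t * (g⁻¹ * x * g⁻¹⁻¹) := by
        calc _ = l⁻¹ * (t * l) * (g⁻¹ * x * g) := by group
          _ = _ := by rw [hlt]; group
      exact Or.inr (mem_cj.2 (e ▸ ⟨mul_mem ht h1, h2⟩))
  have hk : ¬Commute (l * g⁻¹) t := fun c => z1 (by
    have h1 : g⁻¹ * t = t * g⁻¹ := by
      have := c.eq
      rw [mul_assoc, ← mul_assoc t, hlt, mul_assoc] at this
      exact mul_left_cancel this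
    have h2 : g * t * g⁻¹ = t := by rw [mul_assoc, ← h1, mul_inv_cancel_left]
    rw [h2] at hg
    simpa using hg)
  rcases hD with hD | hD
  · exact ⟨_, fun x hx => (memE h).2 (key E hD x hx), hk⟩
  by_contra hn
  push Not at hn
  have h1 : cj (l * g⁻¹) (zpowers t ⊔ E) = zpowers t ⊔ F :=
    eq_of_le_of_card_ge (cj_le_iff.2 fun x hx => (memE h.symm).2 (key F hD x hx))
      (by rw [card_cj, c32, card_sup h h.FL, h.cF])
  generalize l * g⁻¹ = k at h1 hk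
  have cρ : Commute ρ t := (h.cL ρ h.ρL).symm
  have h2 := (nm_hat h.symm cρ h.ρF).conj k⁻¹
  rw [← h1, cj_inv_cj] at h2
  have h3 : Commute ρ (k * t * k⁻¹) := comm_conj.2 (by simpa using hn _ h2)
  have h4 : t * (k * t * k⁻¹) ∈ F :=
    ((memE h.symm).1 (h1 ▸ conj_mem_cj.2 (mem_sup_left (mem_zpowers t)))).resolve_left
      fun h5 => h.notL k (h.FL h5)
  have h5 := h.fρ _ h4 (cρ.mul_right h3)
  rw [mul_eq_one_iff_eq_inv', h.ti, mul_inv_eq_iff_eq_mul] at h5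
  exact hk h5

/-- DBL2: all translations occur -/
theorem Fr0.transl (h : Fr0 L E F t σ ρ φ) : ∀ e ∈ E, ∃ g, Cm g E ∧ g * t * g⁻¹ * t = e := by
  have tr : ∀ o ∈ E, o ≠ 1 → ∀ e ∈ E, e ≠ 1 → ∃ a, Commute a t ∧ Nm a E ∧ a * o * a⁻¹ = e := by
    intro o ho o1 e he e1
    obtain ⟨a, ha, ea⟩ := h.pE.tr o ho o1 e he e1
    exact ⟨a, (h.cL a (h.toTor.PP_nmE ha).1).symm, (h.toTor.PP_nmE ha).2, ea⟩
  suffices H : ∃ g, Cm g E ∧ Nm g (zpowers t ⊔ E) ∧ ¬Commute g t by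
    obtain ⟨g, cg, ng, hg⟩ := H
    intro e he
    by_cases e1 : e = 1
    · exact ⟨1, fun _ _ => Commute.one_left _, by simp [e1, h.tt]⟩
    have h1 : g * t * g⁻¹ * t ∈ E := by
      have := (cE h).nm _ (t_of_hat h ng)
      rwa [← mul_assoc, h.tt, one_mul, h.ti] at this
    obtain ⟨a, ca, na, ea⟩ := tr _ h1 (fun e => hg ((tau_one h.tt).1 e)) e he e1
    exact ⟨a * g * a⁻¹, cg.conj_nm na, by rw [tau_conj ca, ea]⟩
  by_contra hn
  push Not at hn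
  set N := normalizer ((zpowers t ⊔ E : Subgroup G) : Set G) with hN
  obtain ⟨g, ng, hg⟩ := h.moves
  have h1 : {y : G | ∃ n ∈ N, y = n * t * n⁻¹} = (t * ·) '' (E : Set G) := by
    ext y
    constructor
    · rintro ⟨n, hn, rfl⟩
      exact ⟨_, t_of_hat h (nm_iff.2 hn), by simp [← mul_assoc, h.tt]⟩
    · rintro ⟨e, he, rfl⟩
      by_cases e1 : e = 1
      · exact ⟨1, one_mem _, by simp [e1]⟩
      obtain ⟨a, ca, na, ea⟩ := tr _ (t_of_hat h ng) (fun e => hg (by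
        rw [mul_eq_one_iff_eq_inv', h.ti, mul_inv_eq_iff_eq_mul] at e
        exact e)) e he e1
      refine ⟨a * g, nm_iff.1 ((nm_hat h ca na).mul ng), ?_⟩
      rw [← ea]
      calc t * (a * (t * (g * t * g⁻¹)) * a⁻¹) = t * (a * t) * (g * t * g⁻¹) * a⁻¹ := by group
        _ = t * t * (a * g * t * (a * g)⁻¹) := by rw [ca.eq]; group
        _ = _ := by rw [h.tt, one_mul]
  have h2 := Fgs.ncard_conj_by_subgroup N t
  rw [h1, Set.ncard_image_of_injective _ (mul_right_injective t), ← Nat.card_coe_set_eq,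
    SetLike.coe_sort_coe, h.cE] at h2
  have h3 : 256 ∣ Nat.card ↥(centralizer {t} ⊓ N) := by
    have := card_dvd_of_le (H := zpowers t ⊔ TT E F φ) (K := centralizer {t} ⊓ N) (sup_le
      (zpowers_le.2 ⟨mem_centralizer_singleton_iff.2 rfl, le_normalizer (mem_sup_left (mem_zpowers t))⟩)
      fun x hx => by
        have c := (h.cL x (h.toTor.TL hx)).symm
        exact ⟨mem_centralizer_singleton_iff.2 c.eq, nm_iff.1 (nm_hat h c (h.toTor.triP.nm hx).1)⟩)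
    rwa [card_sup h h.toTor.TL, h.toTor.triP.card_TT] at this
  have h4 := Core.card_inf_mul_relIndex (centralizer {t}) N
  have h5 := Core.card_inf_mul_relIndex (centralizer (E : Set G)) N
  obtain ⟨m, hm⟩ := relIndex_dvd (A := N) h.elE h.cE fun a ha => nm_of_hat h (nm_iff.2 ha)
  obtain ⟨Q, hQ⟩ := exists_isSylowIn 2 (centralizer (E : Set G) ⊓ N)
  have h6 : Nat.card Q ∣ 32 := by
    have := card_dvd_of_le (H := Q) (K := zpowers t ⊔ E) fun x hx => by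
      have c := cm_iff.2 (hQ.le hx).1
      exact (memE h).2 (h.twoE (hn x c (nm_iff.2 (hQ.le hx).2)) (two_of_mem hQ.pgroup hx) c)
    rwa [card_sup h h.EL, h.cE] at this
  have h7 := card_mul_relIndex' hQ.le
  obtain ⟨a, ha⟩ := h3
  obtain ⟨b, hb⟩ := h6
  have h8 : 2 ^ 12 ∣ Q.relIndex (centralizer (E : Set G) ⊓ N) * (32 * 20160) := by
    refine ⟨a * b * m, ?_⟩
    calc _ = Nat.card Q * Q.relIndex (centralizer (E : Set G) ⊓ N) * (centralizer (E : Set G)).relIndex N *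
          (b * m) := by rw [hb, hm]; ring
      _ = _ := by rw [h7, h5, ← h4, ← h2, ha]; ring
  have h9 := (Nat.Coprime.pow_left 12 ((Nat.Prime.coprime_iff_not_dvd Nat.prime_two).2 hQ.not_dvd)).dvd_of_dvd_mul_left h8
  omega

/-- DBL3 -/
theorem Fr0.exists_pre (h : Fr0 L E F t σ ρ φ) : ∃ W, Pre L E W t σ := by
  have tt := h.tt
  obtain ⟨Θ, hΘ⟩ := h.th_sub
  let N : Subgroup G :=
    { carrier := {g | Cm g E ∧ g * t * g⁻¹ * t ∈ E}
      one_mem' := ⟨fun _ _ => Commute.one_left _, by simp [tt]⟩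
      mul_mem' := fun {a b} ha hb => ⟨ha.1.mul hb.1, by rw [tau_mul tt ha.1 hb.2]; exact mul_mem hb.2 ha.2⟩
      inv_mem' := fun {a} ha => ⟨ha.1.inv, by rw [tau_inv tt h.elE ha.1 ha.2]; exact ha.2⟩ }
  have cσ : Commute σ t := (h.cL σ h.σL).symm
  have hker : ∀ {g}, Cm g E → Commute g t → g ∈ N := fun c1 c2 =>
    ⟨c1, by rw [(tau_one tt).2 c2]; exact one_mem _⟩
  have ΘN : ∀ θ ∈ Θ, θ ∈ N := fun θ hθ => hker (((hΘ θ).1 hθ).2.2.mono h.EL) ((hΘ θ).1 hθ).1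
  have hi : ∀ {g}, g ∈ N → g⁻¹ * t * g⁻¹⁻¹ * t = g * t * g⁻¹ * t := fun hg => tau_inv tt h.elE hg.1 hg.2
  have nΘ : ∀ w ∈ N, Nm w Θ := fun w hw θ hθ => by
    have h1 := (hΘ θ).1 hθ
    have h2 := mul_mem (mul_mem hw (ΘN θ hθ)) (inv_mem hw)
    refine (hΘ _).2 (h.oddE ((tau_one tt).1 ?_) (odd_conj w h1.2.1) h2.1)
    rw [tau_mul tt (mul_mem hw (ΘN θ hθ)).1 (inv_mem hw).2, tau_mul tt hw.1 (ΘN θ hθ).2, hi hw,
      (tau_one tt).2 h1.1, one_mul, h.elE _ hw.2]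
  have σN : ∀ w ∈ N, σ * w * σ⁻¹ ∈ N := fun w hw =>
    ⟨hw.1.conj_nm h.σE, by rw [tau_conj cσ]; exact h.σE _ hw.2⟩
  have σΘ : Cm σ Θ := fun θ hθ => (((hΘ θ).1 hθ).2.2 σ h.σL).symm
  set C := N ⊓ centralizer (Θ : Set G) with hC
  have ontoC : ∀ e ∈ E, ∃ c ∈ C, c * t * c⁻¹ * t = e := fun e he => by
    obtain ⟨y, hy, ey⟩ := h.fσ.onto h.elE h.σE he
    obtain ⟨w, cw, ew⟩ := h.transl y hy
    have hw : w ∈ N := ⟨cw, ew ▸ hy⟩
    refine ⟨σ * w * σ⁻¹ * w⁻¹, mem_inf.2 ⟨mul_mem (σN w hw) (inv_mem hw), cm_iff.1 ?_⟩, ?_⟩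
    · have := σΘ.mul (σΘ.inv.conj_nm (nΘ w hw))
      simpa only [mul_assoc] using this
    · rw [tau_mul tt (σN w hw).1 (inv_mem hw).2, hi hw, tau_conj cσ, ew, ← ey]
      exact (h.elE.comm hy (h.σE y hy)).eq
  have c4 : ∀ c ∈ C, c ^ 4 ∈ Θ := fun c hc => by
    have h1 : Commute (c * c) t := (tau_one tt).1 (by rw [tau_mul tt hc.1.1 hc.1.2, h.elE _ hc.1.2])
    obtain ⟨θ, hθ, e, he, h2⟩ := h.cenE h1 (hc.1.1.mul hc.1.1)
    have h3 : ∀ u, Commute θ u → u * u = 1 → c * c = θ * u → c ^ 4 ∈ Θ := fun u c1 c2 c3 => by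
      rw [show c ^ 4 = (c * c) ^ 2 by rw [← sq, ← pow_mul], c3, c1.mul_pow, sq u, c2, mul_one]
      exact pow_mem ((hΘ θ).2 hθ) 2
    have c1 := hθ.2.2 e (h.EL he)
    rcases h2 with h2 | h2
    · exact h3 e c1 (h.elE e he) h2
    · refine h3 (e * t) (c1.mul_right hθ.1) ?_ (by rw [h2, mul_assoc])
      rw [← sq, (cE h e he).symm.mul_pow, sq, sq, h.elE e he, tt, one_mul]
  obtain ⟨R, hR⟩ := exists_isSylowIn 2 C
  have cRΘ : ∀ x ∈ C, ∀ y ∈ Θ, Commute x y := fun x hx => cm_iff.2 hx.2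
  have decC : ∀ c ∈ C, ∃ r ∈ R, ∃ θ ∈ Θ ⊓ C, c = r * θ := fun c hc => by
    refine (mem_sup_comm (H := R) (K := Θ ⊓ C) fun x hx y hy => cRΘ x (hR.le hx) y hy.1).1 ?_
    refine (relIndex_eq_one.1 ?_ : C ≤ R ⊔ Θ ⊓ C) hc
    haveI : ((Θ ⊓ C).subgroupOf C).Normal := ⟨fun n hn g => mem_subgroupOf.2 (by
      have h1 := mem_subgroupOf.1 hn
      rwa [Subgroup.coe_mul, Subgroup.coe_mul, (cRΘ g g.2 n h1.1).eq, Subgroup.coe_inv, mul_inv_cancel_right])⟩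
    have h1 : IsPGroup 2 (C ⧸ (Θ ⊓ C).subgroupOf C) := fun x => by
      obtain ⟨y, rfl⟩ := QuotientGroup.mk_surjective x
      exact ⟨2, (QuotientGroup.eq_one_iff (y ^ 4)).2 (mem_subgroupOf.2 ⟨c4 y y.2, (y ^ 4).2⟩)⟩
    obtain ⟨n, hn⟩ := IsPGroup.iff_card.1 h1
    have h2 : (R ⊔ Θ ⊓ C).relIndex C ∣ 2 ^ n := hn ▸ relIndex_dvd_of_le_left C le_sup_right
    have h3 : ¬2 ∣ (R ⊔ Θ ⊓ C).relIndex C := fun e => hR.not_dvd (e.trans (relIndex_dvd_of_le_left C le_sup_left))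
    exact Nat.Coprime.eq_one_of_dvd
      (Nat.Coprime.pow_right n ((Nat.Prime.coprime_iff_not_dvd Nat.prime_two).2 h3).symm) h2
  have twoC : ∀ c ∈ C, Two c → c ∈ R := fun c hc c2 => by
    obtain ⟨r, hr, θ, hθ, rfl⟩ := decC c hc
    have c1 := cRΘ r (hR.le hr) θ hθ.1
    have h1 := StdW.two_mul' (((Commute.refl r).mul_right c1).inv_left) (Two.inv (two_of_mem hR.pgroup hr)) c2
    rw [inv_mul_cancel_left] at h1
    rwa [eq_one_of_odd_two ((hΘ θ).1 hθ.1).2.1 h1, mul_one]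
  have ontoR : ∀ e ∈ E, ∃ r ∈ R, r * t * r⁻¹ * t = e := fun e he => by
    obtain ⟨c, hc, ec⟩ := ontoC e he
    obtain ⟨r, hr, θ, hθ, rfl⟩ := decC c hc
    rw [tau_mul tt (hR.le hr).1.1 hθ.2.1.2, (tau_one tt).2 ((hΘ θ).1 hθ.1).1, one_mul] at ec
    exact ⟨r, hr, ec⟩
  have tR : t ∈ R := twoC t ⟨hker (cE h) (Commute.refl t), cm_iff.1 fun θ hθ => ((hΘ θ).1 hθ).1.symm⟩
    (WD.two_of_sq tt)
  have ER : ∀ e ∈ E, e ∈ R := fun e he => twoC e ⟨hker (fun x hx => h.elE.comm he hx) (cE h e he).symm,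
    cm_iff.1 fun θ hθ => (((hΘ θ).1 hθ).2.2 e (h.EL he)).symm⟩ (WD.two_of_sq (h.elE e he))
  have hat : ∀ {x}, x ∈ E ∨ t * x ∈ E → x ∈ R := fun hx =>
    hx.elim (ER _) fun h1 => (mul_mem_cancel_left tR).1 (ER _ h1)
  have memR : ∀ x, Rr E t x ↔ x ∈ R := fun x => by
    refine ⟨fun hx => ?_, fun hx => ⟨two_of_mem hR.pgroup hx, (hR.le hx).1⟩⟩
    have xN : x ∈ N := hx.2
    obtain ⟨r, hr, er⟩ := ontoR _ hx.2.2
    have rN : r ∈ N := (hR.le hr).1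
    have nR : Nm x R := fun y hy => twoC _ (mem_inf.2 ⟨mul_mem (mul_mem xN (hR.le hy).1) (inv_mem xN),
      cm_iff.1 ((cm_iff.2 (hR.le hy).2).conj_nm (nΘ x xN))⟩) (two_conj x (two_of_mem hR.pgroup hy))
    refine (mul_mem_cancel_right (inv_mem hr)).1 (hat (h.twoE ((tau_one tt).1 ?_)
      (Two.mul_nm hx.1 hR.pgroup nR (inv_mem hr)) (mul_mem xN (inv_mem rN)).1))
    rw [tau_mul tt xN.1 (inv_mem rN).2, hi rN, er, h.elE _ hx.2.2]
  have cR : ∀ x ∈ R, Cm x E := fun x hx => (hR.le hx).1.1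
  have τR : ∀ x ∈ R, x * t * x⁻¹ * t ∈ E := fun x hx => (hR.le hx).1.2
  have kerR : ∀ x ∈ R, Commute x t → x ∈ E ∨ t * x ∈ E := fun x hx c =>
    h.twoE c (two_of_mem hR.pgroup hx) (cR x hx)
  have tE : t ∉ E := fun e => h.tL (h.EL e)
  have sqR : ∀ x ∈ R, x * x ∈ E := fun x hx => by
    refine (kerR _ (mul_mem hx hx) ((tau_one tt).1 (by
      rw [tau_mul tt (cR x hx) (τR x hx), h.elE _ (τR x hx)]))).resolve_right fun h1 => ?_
    have h2 : Commute x t := by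
      have := (cR x hx _ h1).mul_right ((Commute.refl x).mul_right (Commute.refl x)).inv_right
      rwa [mul_inv_cancel_right] at this
    rw [elE h x ((memE h).2 (kerR x hx h2)), mul_one] at h1
    exact tE h1
  have sw : ∀ a ∈ R, ∀ b ∈ R, ∃ e ∈ E, a * b = e * (b * a) := fun a ha b hb => by
    refine ⟨a * b * (b * a)⁻¹, ?_, by group⟩
    have h3 := mul_mem (mul_mem (sqR _ (mul_mem ha hb)) ((cR _ (inv_mem hb)).nm _ (inv_mem (sqR a ha))))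
      (inv_mem (sqR b hb))
    convert h3 using 1
    group
  have six : ∀ {a1 a2 a3 b1 b2 b3}, a1 ∈ R → a2 ∈ R → a3 ∈ R → b1 ∈ R → b2 ∈ R →
      ∃ e ∈ E, a1 * b1 * (a2 * b2) * (a3 * b3) = e * (a1 * a2 * a3 * (b1 * b2 * b3)) := by
    intro a1 a2 a3 b1 b2 b3 h1 h2 h3 h4 h5
    obtain ⟨e1, he1, e⟩ := sw b1 h4 a2 h2
    obtain ⟨e2, he2, e'⟩ := sw _ (mul_mem h4 h5) a3 h3
    refine ⟨e1 * e2, mul_mem he1 he2, ?_⟩
    calc _ = a1 * (b1 * a2) * b2 * a3 * b3 := by group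
      _ = a1 * e1 * a2 * (b1 * b2 * a3) * b3 := by rw [e]; group
      _ = e1 * (a1 * a2 * e2) * (a3 * (b1 * b2 * b3)) := by rw [e', (cR a1 h1 e1 he1).eq]; group
      _ = _ := by rw [(cR _ (mul_mem h1 h2) e2 he2).eq]; group
  have σR : Nm σ R := fun x hx => (memR _).1 ⟨two_conj σ (two_of_mem hR.pgroup hx), σN x (hR.le hx).1⟩
  have σR2 := σR.pow 2
  have nmul : ∀ x ∈ R, ∀ y ∈ R, ∃ e ∈ E, x * y * (σ * (x * y) * σ⁻¹) * (σ ^ 2 * (x * y) * (σ ^ 2)⁻¹) =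
      e * (x * (σ * x * σ⁻¹) * (σ ^ 2 * x * (σ ^ 2)⁻¹) * (y * (σ * y * σ⁻¹) * (σ ^ 2 * y * (σ ^ 2)⁻¹))) := by
    intro x hx y hy
    rw [← conj_mul (b := σ), ← conj_mul (b := σ ^ 2)]
    exact six hx (σR x hx) (σR2 x hx) hy (σR y hy)
  have nt : t * (σ * t * σ⁻¹) * (σ ^ 2 * t * (σ ^ 2)⁻¹) = t := by
    rw [cσ.eq, (cσ.pow_left 2).eq, mul_inv_cancel_right, mul_inv_cancel_right, tt, one_mul]
  have nE : ∀ e ∈ E, e * (σ * e * σ⁻¹) * (σ ^ 2 * e * (σ ^ 2)⁻¹) ∈ E := fun e he =>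
    mul_mem (mul_mem he (h.σE e he)) (h.σE.pow 2 e he)
  have wmul : ∀ x y, x ∈ R ∧ x * (σ * x * σ⁻¹) * (σ ^ 2 * x * (σ ^ 2)⁻¹) ∈ E →
      y ∈ R ∧ y * (σ * y * σ⁻¹) * (σ ^ 2 * y * (σ ^ 2)⁻¹) ∈ E →
      x * y ∈ R ∧ x * y * (σ * (x * y) * σ⁻¹) * (σ ^ 2 * (x * y) * (σ ^ 2)⁻¹) ∈ E := fun x y hx hy => by
    obtain ⟨e, he, e1⟩ := nmul x hx.1 y hy.1
    exact ⟨mul_mem hx.1 hy.1, e1 ▸ mul_mem he (mul_mem hx.2 hy.2)⟩
  let W : Subgroup G :=
    { carrier := {x | x ∈ R ∧ x * (σ * x * σ⁻¹) * (σ ^ 2 * x * (σ ^ 2)⁻¹) ∈ E}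
      one_mem' := ⟨one_mem _, nE 1 (one_mem _)⟩
      mul_mem' := fun {x y} hx hy => wmul x y hx hy
      inv_mem' := fun {x} hx => by
        have h1 := inv_mem (sqR x hx.1)
        have := wmul x _ hx ⟨ER _ h1, nE _ h1⟩
        rwa [show x * (x * x)⁻¹ = x⁻¹ by group] at this }
  have half : ∀ x ∈ R, x ∈ W ∨ t * x ∈ W := fun x hx => by
    have h1 := σR x hx
    have h2 := σR2 x hx
    refine (kerR _ (mul_mem (mul_mem hx h1) h2) ((tau_one tt).1 ?_)).imp (fun h3 => ⟨hx, h3⟩) fun h3 => ?_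
    · rw [tau_mul tt (cR _ (mul_mem hx h1)) (τR _ h2), tau_mul tt (cR _ hx) (τR _ h1), tau_conj cσ,
        tau_conj (cσ.pow_left 2), ← h.fσ.norm h.elE h.σE (h.σ3.mono h.EL) (τR x hx)]
      have h4 := τR x hx
      rw [(h.elE.comm (h.σE _ h4) h4).eq]
      exact (h.elE.comm (h.σE.pow 2 _ h4) (mul_mem h4 (h.σE _ h4))).eq
    · obtain ⟨e, he, e1⟩ := nmul t tR x hx
      exact ⟨mul_mem tR hx, by rw [e1, nt]; exact mul_mem he h3⟩
  have EW : E ≤ W := fun e he => ⟨ER e he, nE e he⟩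
  refine ⟨W, EW, fun x => by rw [memR]; rfl, fun x hx => half x ((memR x).1 hx), fun e he => ?_,
    fun w hw c => ?_, fun w hw => sqR w hw.1, fun θ hθ w hw => (cRΘ w (hR.le hw.1) θ ((hΘ θ).2 hθ)).symm⟩
  · obtain ⟨r, hr, er⟩ := ontoR e he
    rcases half r hr with h1 | h1
    · exact ⟨r, h1, er⟩
    · exact ⟨t * r, h1, by rw [tau_mul tt (cE h) (τR r hr), (tau_one tt).2 (Commute.refl t), mul_one, er]⟩
  · refine (kerR w hw.1 c).resolve_right fun h1 => tE ?_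
    have h2 : t ∈ W := (mul_mem_cancel_right hw).1 (EW h1)
    exact nt ▸ h2.2

end CfsgLib.StdL
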