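import Mathlib
import Cfsg.Agent.Lib.StdL.Spb

/-!
# Standard subgroups of type `M22`: the action of `N_L(E)` on the double of `E`
-/

set_option autoImplicit false
set_option linter.unusedSectionVars false

namespace CfsgLib.StdL

open Subgroup Cfsg CfsgLib.Tech
open CfsgLib.StdInt hiding cj mem_cj

variable {G : Type*} [Group G] [Finite G] {L E F A B : Subgroup G} {t σ ρ φ a γ x y : G}

namespace Sp

variable (h : Sp L E F A B t σ ρ φ)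
include h

theorem ct (ha : a ∈ L) : Commute a t := (h.cL a ha).symm

theorem tau_cj (ha : a ∈ L) (x : G) :
    a * (x * (t * x * t⁻¹)) * a⁻¹ = a * x * a⁻¹ * (t * (a * x * a⁻¹) * t⁻¹) := by
  have e := (h.ct ha).eq
  calc a * (x * (t * x * t⁻¹)) * a⁻¹ = a * x * a⁻¹ * ((a * t) * x * (a * t)⁻¹) := by group
    _ = _ := by rw [e]; group

theorem tau_mem (hx : x ∈ A) : x * (t * x * t⁻¹) ∈ E := (h.dE _).2 ⟨x, hx, rfl⟩

theorem tau_ne (hx : x ∈ A) (x1 : x ≠ 1) : x * (t * x * t⁻¹) ≠ 1 := fun e =>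
  x1 (h.dis x (mem_sup_left hx) (eq_inv_of_mul_eq_one_right e ▸ inv_mem (mem_sup_left hx)))

theorem tau_inj (hx : x ∈ A) (hy : y ∈ A) (e : x * (t * x * t⁻¹) = y * (t * y * t⁻¹)) : x = y :=
  (h.uniq (mem_sup_left hx) (mem_sup_left hx) (mem_sup_left hy) (mem_sup_left hy) e).1

theorem tau_eq (hx : x ∈ A ⊔ cj t A) (hy : y ∈ A ⊔ cj t A) (e : x * (t * x * t⁻¹) = y * (t * y * t⁻¹)) :
    x * y ∈ E := by
  have hx' := h.t_nm x hx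
  have hy' := h.t_nm y hy
  refine h.fixV (mul_mem hx hy) (mul_inv_eq_iff_eq_mul.1 (?_ : t * (x * y) * t⁻¹ = x * y)).symm
  rw [← conj_mul]
  calc t * x * t⁻¹ * (t * y * t⁻¹) = x * x * (t * x * t⁻¹) * (t * y * t⁻¹) := by rw [h.elV x hx, one_mul]
    _ = x * y * (t * y * t⁻¹ * (t * y * t⁻¹)) := by rw [mul_assoc x x, e]; group
    _ = x * y := by rw [h.elV _ hy', mul_one]

theorem T_nm (hx : x ∈ TT E F φ) : Nm x (A ⊔ B) := by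
  have k : ∀ u ∈ E ⊔ F, Nm u (A ⊔ B) := fun u hu => (h.nmV (h.UUU hu)).1.sup (h.nmV (h.UUU hu)).2.1
  rcases h.toTor.triP.mem.1 hx with h1 | h1
  · exact k x h1
  · simpa using (k _ h1).mul (h.φA.sup h.φB).inv

/-- a central involution `z` of `T` and its first component -/
theorem exists_z : ∃ z1 ∈ A ⊓ B, z1 ≠ 1 ∧ ∀ γ ∈ L, Nm γ E → Commute γ (z1 * (t * z1 * t⁻¹)) → Commute γ z1 := by
  obtain ⟨z, hz, z0, cz, -, uz, -⟩ := h.toTor.triP.fix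
  obtain ⟨z1, hz1, ez⟩ := h.dZ.1 hz
  have hV : z1 ∈ A ⊔ cj t A := mem_sup_left hz1.1
  have cT : Cm z1 (TT E F φ) := fun x hx =>
    (h.fix_of (h.ct (h.toTor.TL hx)) (h.T_nm hx) (mem_sup_left hz1.1) (ez ▸ (cz x hx).symm)).symm
  let Γ : Subgroup G := L ⊓ normalizer (E : Set G) ⊓ centralizer {z}
  have mΓ : ∀ {γ}, γ ∈ Γ ↔ γ ∈ L ∧ Nm γ E ∧ Commute γ z := by
    intro γ
    rw [mem_inf, mem_inf, mem_centralizer_singleton_iff, nm_iff, and_assoc]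
    rfl
  have TΓ : TT E F φ ≤ Γ := fun x hx => mΓ.2 ⟨h.toTor.TL hx, (h.toTor.triP.nm hx).1, (cz x hx).symm⟩
  obtain ⟨η, hη, cη⟩ := avg (V := E) (Γ := Γ) (y := z1) h.elE (fun γ hγ => (mΓ.1 hγ).2.1)
    (fun e he => h.elV.comm hV (h.EV he)) (fun γ hγ => by
      obtain ⟨h1, h2, h3⟩ := mΓ.1 hγ
      rw [h.elV.inv hV]
      refine h.tau_eq (h.nE γ (h.ct h1) h2 _ hV) hV ?_
      rw [← h.tau_cj h1, ← ez, h3.eq, mul_inv_cancel_right])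
    h.toTor.triP.two_TT TΓ fun R hR h1 h2 => by
      rw [h.toBor.sylow.eq_of_le hR h1 fun x hx => (mΓ.1 (h2 hx)).1]
      exact cT
  refine ⟨z1, hz1, fun e => z0 (by simp [ez, e]), fun γ h1 h2 h3 => ?_⟩
  rw [← ez] at h3
  have h4 := (cη γ (mΓ.2 ⟨h1, h2, h3⟩)).symm
  have h5 : Cm η (TT E F φ) := by simpa using cT.inv.mul (cη.mono TΓ)
  rcases uz η (mem_sup_left (mem_sup_left hη)) h5 with rfl | rfl
  · rwa [mul_one] at h4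
  · simpa using h4.mul_right h3.inv_right

theorem σ_ne (hx : x ∈ E) (x1 : x ≠ 1) : σ * x * σ⁻¹ ≠ 1 ∧ x ≠ σ * x * σ⁻¹ ∧
    x * (σ * x * σ⁻¹) = σ ^ 2 * x * (σ ^ 2)⁻¹ :=
  ⟨by simpa using x1, fun e => x1 (h.fσ x hx (mul_inv_eq_iff_eq_mul.1 e.symm)), by
    rw [eq_inv_of_mul_eq_one_left (h.fσ.norm h.elE h.σE (h.σ3.mono h.EL) hx), h.elE.inv (h.σE.pow 2 x hx)]⟩

theorem σ_orb {K : Subgroup G} (c : Nat.card K = 4) (hK : K ≤ E) (n : Nm σ K) (hx : x ∈ K) (x1 : x ≠ 1) (hy : y ∈ K)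
    (y1 : y ≠ 1) : ∃ i : ℕ, y = σ ^ i * x * (σ ^ i)⁻¹ := by
  obtain ⟨h1, h2, h3⟩ := h.σ_ne (hK hx) x1
  rcases klein c (h.elE.mono hK) hx (n x hx) x1 h1 h2 y hy with e | e | e | e
  exacts [absurd e y1, ⟨0, by simpa using e⟩, ⟨1, by simpa using e⟩, ⟨2, e.trans h3⟩]

theorem card_K : Nat.card ↥(E ⊓ centralizer {ρ}) = 4 := by
  have h1 := card_sup_comm (H := E ⊓ centralizer {ρ}) (K := E ⊓ F) fun x hx y hy => h.elE.comm hx.1 hy.1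
  have h2 : E ⊓ centralizer {ρ} ⊓ (E ⊓ F) = ⊥ := eq_bot_iff.2 fun x hx =>
    mem_bot.2 (h.fρ x hx.2.2 (mem_centralizer_singleton_iff.1 hx.1.2).symm)
  have h3 : E ⊓ centralizer {ρ} ⊔ E ⊓ F = E := le_antisymm (sup_le inf_le_left inf_le_left) fun e he => by
    obtain ⟨a, ha, c, z, hz, rfl⟩ := h.toTor.decE he
    exact mul_mem (mem_sup_left ⟨ha, mem_centralizer_singleton_iff.2 c.symm.eq⟩) (mem_sup_right hz)
  rw [h2, h3, card_bot, h.cE, h.cZ] at h1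
  omega

theorem σK : Nm σ (E ⊓ centralizer {ρ}) := fun x hx => ⟨h.σE x hx.1, mem_centralizer_singleton_iff.2 (by
  have h1 := (h.σρ _ (h.EL (h.σE x hx.1))).inv_left.eq
  have h2 := mem_centralizer_singleton_iff.1 hx.2
  refine (mul_inv_eq_iff_eq_mul.1 ?_).symm
  calc ρ * (σ * x * σ⁻¹) * ρ⁻¹ = (σ * ρ * σ⁻¹ * ρ⁻¹)⁻¹ * (σ * (ρ * x * ρ⁻¹) * σ⁻¹) * (σ * ρ * σ⁻¹ * ρ⁻¹) := by group
    _ = _ := by rw [← h2, mul_inv_cancel_right, h1]; group)⟩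

theorem φK : Nm φ (E ⊓ centralizer {ρ}) := fun x hx => ⟨h.φE x hx.1, mem_centralizer_singleton_iff.2 (by
  have h1 := (h.φρ _ (h.EL hx.1)).eq
  have h2 := mem_centralizer_singleton_iff.1 hx.2
  have h3 : φ⁻¹ = φ := inv_eq_of_mul_eq_one_right h.φφ
  refine (mul_inv_eq_iff_eq_mul.1 ?_).symm
  calc ρ * (φ * x * φ⁻¹) * ρ⁻¹ = φ⁻¹ * (φ * ρ * φ * ρ * (ρ⁻¹ * (x * ρ)) * (φ * ρ * φ * ρ)⁻¹) * φ := by group
    _ = _ := by rw [h2, inv_mul_cancel_left, h1, mul_inv_cancel_right, h3])⟩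

theorem φ_not (hx : x ∈ E) (c : Commute φ x) (c' : Commute φ (σ * x * σ⁻¹)) : x = 1 := by
  have h1 := (h.φσ _ (h.EL hx)).eq
  have h2 := (h.σ3 _ (h.EL hx)).eq
  have h3 : σ * (σ * x * σ⁻¹) * σ⁻¹ = x := by
    calc σ * (σ * x * σ⁻¹) * σ⁻¹ = φ⁻¹ * (φ * σ * (φ * (σ * x * σ⁻¹) * φ⁻¹) * σ⁻¹) := by
          rw [c'.eq]; group
      _ = φ⁻¹ * (φ * σ * φ * σ * x * (φ * σ * φ * σ)⁻¹ * φ) := by group
      _ = x := by rw [h1, mul_inv_cancel_right, ← c.eq, inv_mul_cancel_left]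
  refine h.fσ x hx (mul_inv_eq_iff_eq_mul.1 ?_)
  calc σ * x * σ⁻¹ = σ * (σ * (σ * x * σ⁻¹) * σ⁻¹) * σ⁻¹ := by rw [h3]
    _ = σ ^ 3 * x * (σ ^ 3)⁻¹ := by rw [pow_three]; group
    _ = x := by rw [h2, mul_inv_cancel_right]

theorem exists_e : ∃ e ∈ E ⊓ centralizer {ρ}, e ≠ 1 ∧ Commute φ e ∧
    ∀ w ∈ E ⊓ centralizer {ρ}, Commute φ w → w = 1 ∨ w = e := by
  obtain ⟨e, he, e1, c⟩ := exists_fix (P := zpowers φ) (Z := E ⊓ centralizer {ρ})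
    (WD.Two.pgroup (WD.two_of_sq h.φφ)) (h.elE.mono inf_le_left).two
    (fun g hg => nm_iff.2 ((zpowers_le.2 (nm_iff.1 h.φK) : zpowers φ ≤ _) hg))
    (fun e => by have := h.card_K; rw [e, card_bot] at this; omega)
  have c1 := (c φ (mem_zpowers φ)).symm
  refine ⟨e, he, e1, c1, fun w hw cw => ?_⟩
  obtain ⟨h1, h2, -⟩ := h.σ_ne he.1 e1
  rcases klein h.card_K (h.elE.mono inf_le_left) he (h.σK e he) e1 h1 h2 w hw with e' | e' | rfl | rfl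
  · exact Or.inl e'
  · exact Or.inr e'
  · exact absurd (h.φ_not he.1 c1 cw) e1
  · exact absurd (h.φ_not he.1 c1 (by simpa using c1.inv_right.mul_right cw)) e1

/-- INV1 -/
theorem nA (ha : a ∈ L) (n : Nm a E) : Nm a A := by
  obtain ⟨z1, hz1, z0, cz⟩ := h.exists_z
  set z := z1 * (t * z1 * t⁻¹) with ez
  have hz : z ∈ E ⊓ F := h.dZ.2 ⟨z1, hz1, rfl⟩
  have zn : z ≠ 1 := h.tau_ne hz1.1 z0
  let S : G → G → Prop := fun e v => ∃ b ∈ L, Nm b E ∧ b * z * b⁻¹ = e ∧ b * z1 * b⁻¹ = v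
  have Sf : ∀ {e v v'}, S e v → S e v' → v = v' := by
    rintro _ _ _ ⟨b, hb, nb, rfl, rfl⟩ ⟨c, hc, nc, e, rfl⟩
    have := (cz (b⁻¹ * c) (mul_mem (inv_mem hb) hc) (nb.inv.mul nc) (mul_inv_eq_iff_eq_mul.1 (by
      calc b⁻¹ * c * z * (b⁻¹ * c)⁻¹ = b⁻¹ * (c * z * c⁻¹) * b := by group
        _ = z := by rw [e]; group))).eq
    calc b * z1 * b⁻¹ = b * (z1 * (b⁻¹ * c)) * c⁻¹ := by group
      _ = _ := by rw [← this]; group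
  have St : ∀ e ∈ E, e ≠ 1 → ∃ v, S e v := fun e he e1 => by
    obtain ⟨b, hb, eb⟩ := h.pE.tr z hz.1 zn e he e1
    exact ⟨_, b, (h.toTor.PP_nmE hb).1, (h.toTor.PP_nmE hb).2, eb, rfl⟩
  have Sc : ∀ {e v c}, S e v → c ∈ L → Nm c E → S (c * e * c⁻¹) (c * v * c⁻¹) := by
    rintro _ _ c ⟨b, hb, nb, rfl, rfl⟩ hc nc
    exact ⟨c * b, mul_mem hc hb, nc.mul nb, by group, by group⟩
  have SV : ∀ {e v}, S e v → v ∈ A ⊔ cj t A ∧ v * (t * v * t⁻¹) = e := by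
    rintro _ _ ⟨b, hb, nb, rfl, rfl⟩
    exact ⟨h.nE b (h.ct hb) nb _ (mem_sup_left hz1.1), (h.tau_cj hb z1).symm⟩
  have Sz : S z z1 := ⟨1, one_mem _, Nm.of_mem (one_mem E), by simp, by simp⟩
  have σL : ∀ i : ℕ, σ ^ i ∈ L := fun i => pow_mem h.σL i
  have gZ : ∀ e ∈ E ⊓ F, ∀ v, S e v → v ∈ A := fun e he v hv => by
    obtain ⟨i, rfl⟩ := h.σ_orb h.cZ inf_le_left (h.σE.inf h.σF) hz zn he (by
      obtain ⟨b, -, -, rfl, -⟩ := hv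
      simpa using zn)
    rw [Sf hv (Sc Sz (σL i) (h.σE.pow i))]
    exact h.σA.pow i _ hz1.1
  obtain ⟨e0, he0, e01, ce0, ue0⟩ := h.exists_e
  have KF : ∀ e ∈ E ⊓ centralizer {ρ}, e ≠ 1 → e ∉ F := fun e he e1 hF =>
    e1 (h.fρ e hF (mem_centralizer_singleton_iff.1 he.2).symm)
  obtain ⟨s0, hs0⟩ := St e0 he0.1 e01
  have tr : ∀ X : Subgroup G, Nm σ X → (∀ f ∈ F, Nm f X) → s0 ∈ X → ∀ e ∈ E, e ∉ F → ∀ v, S e v → v ∈ X := by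
    intro X h1 h2 h3 e he hF v hv
    obtain ⟨b, hb, cb, ζ, hζ, rfl⟩ := h.toTor.decE he
    have hK : b ∈ E ⊓ centralizer {ρ} := ⟨hb, mem_centralizer_singleton_iff.2 cb.symm.eq⟩
    have b1 : b ≠ 1 := fun e => hF (by rw [e, one_mul]; exact hζ.2)
    obtain ⟨f, hf, ef⟩ := h.toTri.onto hb (KF b hK b1) hζ
    have e1 : b * ζ = f * b * f⁻¹ := by
      rw [← ef, h.elE.inv hb, ← mul_assoc, ← mul_assoc, ← mul_assoc, h.elE b hb, one_mul]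
    obtain ⟨i, rfl⟩ := h.σ_orb h.card_K inf_le_left h.σK he0 e01 hK b1
    rw [e1] at hv
    rw [Sf hv (Sc (Sc hs0 (σL i) (h.σE.pow i)) (h.FL hf) (h.toTri.nmE (mem_sup_right hf)))]
    exact h2 f hf _ (h1.pow i _ h3)
  obtain ⟨x0, hx0, ex0⟩ := (h.dE e0).1 he0.1
  have fx : ∀ g ∈ L, Nm g E → Nm g (A ⊔ B) → Commute g e0 → Commute g (s0 * x0) := fun g h1 h2 h3 h4 => by
    have h5 := Sc hs0 h1 h2
    rw [h4.eq, mul_inv_cancel_right] at h5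
    exact Commute.mul_right (mul_inv_eq_iff_eq_mul.1 (Sf h5 hs0))
      (h.fix_of (h.ct h1) h3 (mem_sup_left hx0) (ex0 ▸ h4))
  have hw := ue0 (s0 * x0) ⟨h.tau_eq (SV hs0).1 (mem_sup_left hx0) ((SV hs0).2.trans ex0),
    mem_centralizer_singleton_iff.2 (fx ρ h.ρL h.ρE (h.ρA.sup h.ρB)
      (mem_centralizer_singleton_iff.1 he0.2).symm).symm.eq⟩ (fx φ h.φL h.φE (h.φA.sup h.φB) ce0)
  rcases hw with hw | hw
  · have good : ∀ e ∈ E, ∀ v, S e v → v ∈ A := fun e he v hv => by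
      by_cases hF : e ∈ F
      · exact gZ e ⟨he, hF⟩ v hv
      · exact tr A h.σA (fun f hf => (h.nmV (h.UUU (mem_sup_right hf))).1)
          (eq_inv_of_mul_eq_one_left hw ▸ inv_mem hx0) e he hF v hv
    intro x hx
    by_cases x1 : x = 1
    · simp [x1]
    obtain ⟨v, hv⟩ := St _ (h.tau_mem hx) (h.tau_ne hx x1)
    obtain rfl := h.tau_inj (good _ (h.tau_mem hx) v hv) hx (SV hv).2
    exact good _ (n _ (h.tau_mem hx)) _ (Sc hv ha n)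
  exfalso
  have bad := tr (cj t A) (h.σA.cj (h.ct h.σL)) (fun f hf => (h.nmV (h.UUU (mem_sup_right hf))).2.2.1) (by
    have h1 : t * x0 * t⁻¹ ∈ cj t A := conj_mem_cj.2 hx0
    rw [ex0, (h.elV.comm (mem_sup_left hx0) (mem_sup_right h1)).eq] at hw
    rwa [mul_right_cancel hw])
  have Sm : ∀ {e v e' v'}, e ∈ E → e' ∈ E → e ∉ F → e' ∉ F → e * e' ∉ F → S e v → S e' v' →
      S (e * e') (v * v') := by
    intro e v e' v' h1 h2 h3 h4 h5 h6 h7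
    obtain ⟨w, hw⟩ := St _ (mul_mem h1 h2) fun e => h5 (e ▸ one_mem F)
    have k1 := bad _ h1 h3 _ h6
    have k2 := bad _ h2 h4 _ h7
    have k3 := bad _ (mul_mem h1 h2) h5 _ hw
    rwa [← h.flip.tau_inj k3 (mul_mem k1 k2) (by
      rw [(SV hw).2, ← (SV h6).2, ← (SV h7).2, ← conj_mul]
      exact (h.elV.comm (h.t_nm _ (mem_sup_right k1)) (mem_sup_right k2)).mul_mul_mul_comm _ _)]
  obtain ⟨b, hb, eb⟩ := h.pE.tr e0 he0.1 e01 z hz.1 zn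
  obtain ⟨bL, nb⟩ := h.toTor.PP_nmE hb
  have key : ∀ e ∈ E, e ∉ F → e0 * e ∉ F → b * e * b⁻¹ ∈ F := fun e h1 h2 h3 => by
    by_contra h4
    obtain ⟨v, hv⟩ := St e h1 fun e => h2 (e ▸ one_mem F)
    have h5 := Sc (Sm he0.1 h1 (KF e0 he0 e01) h2 h3 hs0 hv) bL nb
    have h6 := Sc hs0 bL nb
    rw [← conj_mul, ← conj_mul (b := b) (a := s0), eb] at h5
    rw [eb] at h6
    rw [Sf h6 Sz] at h5
    have h7 := bad _ (mul_mem hz.1 (nb e h1)) (by rwa [mul_mem_cancel_left (mem_inf.1 hz).2]) _ h5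
    rw [mul_mem_cancel_right (bad _ (nb e h1) h4 _ (Sc hv bL nb))] at h7
    exact z0 (h.tw2.dis z1 (mem_sup_left hz1.1) (mem_sup_left h7))
  obtain ⟨h1, h2, -⟩ := h.σ_ne he0.1 e01
  have h3 := h.σK e0 he0
  have h4 := KF _ h3 h1
  have h5 := KF _ (mul_mem he0 h3) fun e => h2 ((eq_inv_of_mul_eq_one_left e).trans (h.elE.inv h3.1))
  have h6 : Nm b (E ⊓ F) := fun ζ hζ => ⟨nb ζ hζ.1, by
    have := key _ (mul_mem h3.1 hζ.1) (by rwa [mul_mem_cancel_right (mem_inf.1 hζ).2])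
      (by rwa [← mul_assoc, mul_mem_cancel_right (mem_inf.1 hζ).2])
    rwa [← conj_mul, mul_mem_cancel_left (key _ h3.1 h4 h5)] at this⟩
  have h7 := (h6.inv z hz).2
  rw [← eb] at h7
  exact KF e0 he0 e01 (by simpa [mul_assoc] using h7)

theorem PP_nmA (hγ : γ ∈ PP L E (A ⊔ B)) : Nm γ A ∧ Cm γ (cj t A) ∧ γ ∈ normalClosure (L : Set G) :=
  ⟨PP_nm (fun _ ha n => h.nA ha n) (fun _ hx => h.tri.nmE hx) hγ,
    PP_cm (fun _ ha n => (h.nA ha n).cj (h.ct ha)) (fun x hx y hy => h.tw2.com x hx y (mem_sup_left hy)) hγ,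
    PP_le_ncl h.le_X hγ⟩

/-- INV2 -/
theorem cover (ha : a ∈ PP L E (E ⊔ F)) : ∃ γ ∈ PP L E (A ⊔ B), ∀ x ∈ A, γ * x * γ⁻¹ = a * x * a⁻¹ := by
  have nm : ∀ {a}, a ∈ PP L E (E ⊔ F) → Nm a A := fun ha => h.nA (h.toTor.PP_nmE ha).1 (h.toTor.PP_nmE ha).2
  induction ha using closure_induction with
  | mem a ha =>
    obtain ⟨n, hn, nn, u, hu, rfl⟩ := ha
    obtain ⟨u1, hu1, rfl⟩ := h.dU.1 hu
    refine ⟨n * u1 * n⁻¹, subset_closure ⟨n, hn, nn, u1, hu1, rfl⟩, fun x hx => ?_⟩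
    have e := (h.com' _ (mem_sup_left ((h.nA hn nn).inv x hx)) u1 hu1).eq
    calc n * u1 * n⁻¹ * x * (n * u1 * n⁻¹)⁻¹ =
        n * u1 * (n⁻¹ * x * n⁻¹⁻¹ * (t * u1 * t⁻¹)) * (t * u1 * t⁻¹)⁻¹ * u1⁻¹ * n⁻¹ := by group
      _ = _ := by rw [e]; group
  | one => exact ⟨1, one_mem _, fun _ _ => rfl⟩
  | mul a b _ hb ih1 ih2 =>
    obtain ⟨γ, hγ, e1⟩ := ih1
    obtain ⟨δ, hδ, e2⟩ := ih2
    refine ⟨γ * δ, mul_mem hγ hδ, fun x hx => ?_⟩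
    calc γ * δ * x * (γ * δ)⁻¹ = γ * (δ * x * δ⁻¹) * γ⁻¹ := by group
      _ = _ := by rw [e2 x hx, e1 _ (nm hb x hx)]; group
  | inv a ha ih =>
    obtain ⟨γ, hγ, e⟩ := ih
    refine ⟨γ⁻¹, inv_mem hγ, fun x hx => ?_⟩
    calc γ⁻¹ * x * γ⁻¹⁻¹ = γ⁻¹ * (a * (a⁻¹ * x * a⁻¹⁻¹) * a⁻¹) * γ := by group
      _ = _ := by rw [← e _ ((nm ha).inv x hx)]; group

theorem trA (hx : x ∈ A) (x1 : x ≠ 1) (hy : y ∈ A) (y1 : y ≠ 1) : ∃ γ ∈ PP L E (A ⊔ B), γ * x * γ⁻¹ = y := by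
  obtain ⟨a, ha, e⟩ := h.pE.tr _ (h.tau_mem hx) (h.tau_ne hx x1) _ (h.tau_mem hy) (h.tau_ne hy y1)
  obtain ⟨aL, na⟩ := h.toTor.PP_nmE ha
  obtain ⟨γ, hγ, e'⟩ := h.cover ha
  rw [h.tau_cj aL] at e
  exact ⟨γ, hγ, (e' x hx).trans (h.tau_inj (h.nA aL na x hx) hy e)⟩

theorem mixV (hx : x ∈ A) (x1 : x ≠ 1) (hy : y ∈ A) (y1 : y ≠ 1) :
    ∃ c ∈ normalClosure (L : Set G), c * (x * (t * y * t⁻¹)) * c⁻¹ ∈ E := by
  obtain ⟨γ, hγ, e⟩ := h.trA hx x1 hy y1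
  obtain ⟨-, c, hX⟩ := h.PP_nmA hγ
  refine ⟨γ, hX, ?_⟩
  rw [← conj_mul, e, (c _ (conj_mem_cj.2 hy)).eq, mul_inv_cancel_right]
  exact h.tau_mem hy

/-- the element `d` of `Par.del` -/
theorem del : ∃ d ∈ PP L E (E ⊔ F), Nm d A ∧ Nm d B ∧ Fpf d A ∧ Fpf d B := by
  obtain ⟨d, hd, -, nF, fE, fF⟩ := h.pE.del
  obtain ⟨dL, nE⟩ := h.toTor.PP_nmE hd
  have c := h.ct dL
  refine ⟨d, hd, h.nA dL nE, h.symm.nA dL nF, fun x hx e => ?_, fun x hx e => ?_⟩ <;> by_contra x1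
  · exact h.tau_ne hx x1 (fE _ (h.tau_mem hx) (e.mul_right ((c.mul_right e).mul_right c.inv_right)))
  · exact h.symm.tau_ne hx x1 (fF _ (h.symm.tau_mem hx) (e.mul_right ((c.mul_right e).mul_right c.inv_right)))

end Sp

end CfsgLib.StdL
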