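import Mathlib
import Cfsg.Agent.Lib.StdL.Inv

/-!
# Standard subgroups of type `M22`: the double of the Sylow 2-subgroup
-/

set_option autoImplicit false
set_option linter.unusedSectionVars false

namespace CfsgLib.StdL

open Subgroup Cfsg CfsgLib.Tech
open CfsgLib.StdInt hiding cj mem_cj
open scoped commutatorElement

variable {G : Type*} [Group G] [Finite G] {L E F A B : Subgroup G} {t σ ρ φ p y : G}

namespace Gam

theorem cm_U2 {γ : G} (e : Pe L E F A B t) (hγ : γ ∈ PP L E (A ⊔ B)) {X : Subgroup G} (hX : X ≤ PP L E (A ⊔ B)) :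
    Cm γ (cj t X) := by
  rintro _ ⟨x, hx, rfl⟩
  exact e.com γ hγ x (hX hx)

theorem cmt_mul (γ δ y : G) :
    γ * δ * y * (γ * δ)⁻¹ * y⁻¹ = γ * (δ * y * δ⁻¹ * y⁻¹) * γ⁻¹ * (γ * y * γ⁻¹ * y⁻¹) := by group

theorem cmt_inv (γ y : G) : γ⁻¹ * y * γ⁻¹⁻¹ * y⁻¹ = γ⁻¹ * (γ * y * γ⁻¹ * y⁻¹)⁻¹ * γ⁻¹⁻¹ := by group

/-- the elements of `Γ` with `[γ, y] ∈ D` -/
def sub (Γ D : Subgroup G) (y : G) (n : ∀ γ ∈ Γ, Nm γ D) : Subgroup G where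
  carrier := {γ | γ ∈ Γ ∧ γ * y * γ⁻¹ * y⁻¹ ∈ D}
  one_mem' := ⟨one_mem _, by simp⟩
  mul_mem' {a b} ha hb := ⟨mul_mem ha.1 hb.1, by rw [cmt_mul]; exact mul_mem (n a ha.1 _ hb.2) ha.2⟩
  inv_mem' {a} ha := ⟨inv_mem ha.1, by rw [cmt_inv]; exact n _ (inv_mem ha.1) _ (inv_mem ha.2)⟩

theorem not_sw (h : Sp L E F A B t σ ρ φ) (c : Cm y (A ⊔ B)) (s : Sw (t * y) A B) : False := by
  obtain ⟨z, hz, z1⟩ := h.tri.exZ
  have h1 : z ∈ A ⊔ B := mem_sup_left hz.1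
  have h2 := s.nm_sup z h1
  rw [mul_assoc t, (c z h1).eq] at h2
  exact z1 (h.dis z h1 (by simpa [mul_assoc] using h2))

theorem cmt_A (h : Js L E F A B t σ ρ φ) (e : Pe L E F A B t) (n : Nm y (cj t A ⊔ cj t B)) (c : Cm y A) {γ : G}
    (hγ : γ ∈ PP L E (A ⊔ B)) : γ * y * γ⁻¹ * y⁻¹ ∈ A := by
  have hA : ∀ γ ∈ PP L E (A ⊔ B), Nm γ A := fun γ hγ => (h.toSp.PP_nmA hγ).1
  have hU : ∀ γ ∈ PP L E (A ⊔ B), Cm γ (cj t A ⊔ cj t B) := fun γ hγ => cj_sup t A B ▸ cm_U2 e hγ le_PP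
  have ZU : cj t A ⊓ cj t B ≤ cj t A ⊔ cj t B := inf_le_left.trans le_sup_left
  have cAZ : ∀ x ∈ A, ∀ z ∈ cj t A ⊓ cj t B, Commute x z := fun x hx z hz =>
    h.tw2.com x (mem_sup_left hx) z (ZU hz)
  have h1 : PP L E (A ⊔ B) ≤ sub (PP L E (A ⊔ B)) (A ⊔ cj t A ⊓ cj t B) y
      (fun γ hγ => (hA γ hγ).sup ((hU γ hγ).mono ZU).nm) := (closure_le _).2 fun γ hγ' => by
    have hγ : γ ∈ PP L E (A ⊔ B) := subset_closure hγ'
    refine ⟨hγ, ?_⟩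
    have g2 : Two γ := by
      obtain ⟨a, -, -, u, hu, rfl⟩ := hγ'
      exact two_conj a (two_of_mem h.tri.two hu)
    have k2 : Cm (γ * y * γ⁻¹ * y⁻¹) (cj t A ⊔ cj t B) := by
      simpa only [mul_assoc] using (hU γ hγ).mul ((hU γ hγ).inv.conj_nm n)
    obtain ⟨v, hv, o, ho, co, ek⟩ := e.cV _ (((c.conj_nm (hA γ hγ)).mul c.inv).sup (k2.mono le_sup_left))
    have h2 : Two (γ⁻¹ * v) := Two.mul_nm (Two.inv g2) h.elV.two
      ((hA γ hγ).sup ((hU γ hγ).mono le_sup_left).nm).inv hv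
    have h3 : Commute (γ⁻¹ * v) o := (e.odd γ hγ o ho co).inv_left.mul_left
      (co v (h.UU_eq ▸ mem_sup_left hv)).symm
    have h4 : γ⁻¹ * v * o = y * γ⁻¹ * y⁻¹ := by rw [mul_assoc, ← ek]; group
    have h5 := StdW.two_mul' (((Commute.refl _).mul_right h3).inv_left) (Two.inv h2)
      (h4 ▸ two_conj y (Two.inv g2))
    rw [inv_mul_cancel_left] at h5
    rw [eq_one_of_odd_two ho h5, mul_one] at ek
    rw [ek] at k2 ⊢
    obtain ⟨a, ha, b, hb, rfl⟩ := (mem_sup_comm fun x hx y hy =>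
      h.tw2.com x (mem_sup_left hx) y (mem_sup_left hy)).1 hv
    refine mul_mem (mem_sup_left ha) (mem_sup_right (h.tw2.r.centU (mem_sup_left hb) ?_))
    simpa using Cm.mul (Cm.inv fun x hx => h.tw2.com a (mem_sup_left ha) x hx) k2
  have h2 : ∀ γ ∈ PP L E (A ⊔ B), ∀ δ ∈ PP L E (A ⊔ B), ∀ z ∈ cj t A ⊓ cj t B, ∀ w ∈ cj t A ⊓ cj t B,
      γ * y * γ⁻¹ * y⁻¹ * z ∈ A → δ * y * δ⁻¹ * y⁻¹ * w ∈ A → γ * δ * y * (γ * δ)⁻¹ * y⁻¹ * (z * w) ∈ A := by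
    intro γ hγ δ _ z _ w hw h3 h4
    have h5 := hA γ hγ _ h4
    rw [← conj_mul, (hU γ hγ w (ZU hw)).eq, mul_inv_cancel_right] at h5
    have h6 := mul_mem h5 h3
    rw [mul_assoc _ w, ← (cAZ _ h3 w hw).eq] at h6
    rw [cmt_mul]
    simpa only [mul_assoc] using h6
  have h3 : ∀ γ ∈ PP L E (A ⊔ B), ∃ z ∈ cj t A ⊓ cj t B, γ * y * γ⁻¹ * y⁻¹ * z ∈ A := fun γ hγ => by
    obtain ⟨a, ha, z, hz, e⟩ := (mem_sup_comm cAZ).1 (h1 hγ).2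
    exact ⟨z⁻¹, inv_mem hz, by rwa [e, mul_inv_cancel_right]⟩
  refine ((e.perf.trans (commutator_le.2 fun γ hγ δ hδ => ?_) :
    _ ≤ sub (PP L E (A ⊔ B)) A y hA) hγ).2
  have hκ : ⁅γ, δ⁆ ∈ PP L E (A ⊔ B) := mul_mem (mul_mem (mul_mem hγ hδ) (inv_mem hγ)) (inv_mem hδ)
  refine ⟨hκ, ?_⟩
  obtain ⟨z, hz, h4⟩ := h3 γ hγ
  obtain ⟨w, hw, h5⟩ := h3 δ hδ
  obtain ⟨u, hu, h6⟩ := h3 _ hκ
  have h7 := h2 γ hγ δ hδ z hz w hw h4 h5
  have h8 := h2 _ hκ _ (mul_mem hδ hγ) u hu _ (mul_mem hw hz) h6 (h2 δ hδ γ hγ w hw z hz h5 h4)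
  rw [show ⁅γ, δ⁆ * (δ * γ) = γ * δ by rw [commutatorElement_def]; group] at h8
  have h9 := mul_mem (inv_mem h7) h8
  have h10 : (z * w)⁻¹ * (u * (w * z)) ∈ A := by simpa only [mul_inv_rev, mul_assoc, inv_mul_cancel_left, inv_inv,
    mul_inv_cancel_left] using h9
  have h11 := h.tw2.dis _ (mem_sup_left h10) (ZU (mul_mem (inv_mem (mul_mem hz hw)) (mul_mem hu (mul_mem hw hz))))
  rw [inv_mul_eq_one, (h.tw2.r.elZ.comm hz hw).eq, eq_comm, mul_eq_right] at h11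
  rwa [h11, mul_one] at h6

end Gam

open Gam

/-- GAM1 -/
theorem Js.gam1 (h : Js L E F A B t σ ρ φ) (e : Pe L E F A B t) (tp : TriP A B p) (c2 : Cm p (cj t A ⊔ cj t B))
    (n : Nm y (UU A B t)) (h2 : Two y) (c : Cm y (TT A B p)) :
    ∃ η ∈ A ⊓ B, Cm η (TT A B p) ∧ Cm (y * η) (PP L E (A ⊔ B)) := by
  have UT : A ⊔ B ≤ TT A B p := le_sup_left
  have pT : p ∈ TT A B p := mem_sup_right (mem_zpowers p)
  have n2 : Nm y (cj t A ⊔ cj t B) :=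
    ((h.perm y n).resolve_right fun s => not_sw h.toSp (c.mono UT) s.1).2.nm_sup
  have cA : Cm y A := c.mono (le_sup_left.trans UT)
  let Γ := sub (normalizer (A : Set G) ⊓ centralizer ((cj t A ⊔ cj t B : Subgroup G) : Set G)) A y
    fun γ hγ => nm_iff.2 hγ.1
  have TU : ∀ x ∈ TT A B p, Cm x (cj t A ⊔ cj t B) := fun x hx => by
    rcases tp.mem.1 hx with h1 | h1
    · exact h.tw2.com x h1
    · simpa using Cm.mul (h.tw2.com _ h1) c2.inv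
  have TΓ : TT A B p ≤ Γ := fun x hx => ⟨⟨nm_iff.1 (tp.nm hx).1, cm_iff.1 (TU x hx)⟩, by
    rw [← (c x hx).eq]; simp⟩
  obtain ⟨η, hη, cη⟩ := avg (V := A) (Γ := Γ) (y := y) h.tri.elE (fun γ hγ => nm_iff.2 hγ.1.1) cA
    (fun γ hγ => hγ.2) tp.two_TT TΓ fun R hR h1 h3 => by
      have qA : ∀ q ∈ R, Nm q A := fun q hq => nm_iff.2 (h3 hq).1.1
      have qU : ∀ q ∈ R, Cm q (cj t A ⊔ cj t B) := fun q hq => cm_iff.2 (h3 hq).1.2
      have qB : ∀ q ∈ R, Nm q B := fun q hq => by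
        have h4 := h.two_le _ (two_sup_nm h.tw2.r.two hR fun x hx => (qU x hx).nm)
          (sup_le ((UT.trans h1).trans le_sup_right) le_sup_left) q (mem_sup_right hq)
        rcases ((h.perm q h4).resolve_right fun s => not_sw h.toSp.flip (qU q hq) s.2).1 with s | s
        · exact nm_iff_cj.2 s.2
        · exact absurd ((nm_iff_cj.1 (qA q hq)).symm.trans s.1) h.tri.ne
      have key : ∀ q ∈ R, Cm q (A ⊓ B) → Commute y q := fun q hq cq => by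
        obtain ⟨x, hx, u, hu, rfl⟩ := (mem_sup_comm h.tw2.com).1 (h.ker q (two_of_mem hR hq) (qA q hq) (qB q hq)
          ((qU q hq).mono le_sup_left).nm ((qU q hq).mono le_sup_right).nm cq
          ((qU q hq).mono (inf_le_left.trans le_sup_left)))
        have h4 : u * y * u⁻¹ * y⁻¹ ∈ cj t A ⊔ cj t B := by
          simpa only [mul_assoc] using mul_mem hu (n2 _ (inv_mem hu))
        have h5 := (h3 hq).2
        rw [cmt_mul, (h.tw2.com x hx _ h4).eq, mul_inv_cancel_right, ← (c x (UT hx)).eq, mul_inv_cancel_right,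
          mul_inv_cancel, mul_one] at h5
        have h6 := h.tw2.dis _ (mem_sup_left h5) h4
        rw [mul_inv_eq_one, mul_inv_eq_iff_eq_mul] at h6
        exact (c x (UT hx)).mul_right (show Commute u y from h6).symm
      intro q hq
      by_cases cq : Cm q (A ⊓ B)
      · exact key q hq cq
      · simpa using (key _ (mul_mem hq (h1 pT)) (two_act h.tri.cZ h.tri.elZ hR
          (fun g hg => (qA g hg).inf (qB g hg)) hq (h1 pT) cq tp.nZ)).mul_right (c p pT).inv_right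
  have h1 : Cm η (TT A B p) := by simpa using c.inv.mul (cη.mono TΓ)
  exact ⟨η, h.tri.centU (mem_sup_left hη) (h1.mono UT), h1, cη.mono fun γ hγ =>
    ⟨⟨nm_iff.1 (h.toSp.PP_nmA hγ).1, cm_iff.1 (cj_sup t A B ▸ cm_U2 e hγ le_PP)⟩, cmt_A h e n2 cA hγ⟩⟩

/-- GAM2 -/
theorem Js.exists_pd (h : Js L E F A B t σ ρ φ) (e : Pe L E F A B t) (f : Pe L F E B A t)
    (phi : ∃ a ∈ PP L E (E ⊔ F), a * φ * a⁻¹ ∈ F) : ∃ p, Pd L E F A B t σ ρ φ p := by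
  obtain ⟨a, ha, hφ⟩ := phi
  obtain ⟨f1, hf1, ef⟩ := (h.dF _).1 hφ
  obtain ⟨γ, hγ, ea⟩ := e.dec a ha
  have UΓ : A ⊔ B ≤ PP L E (A ⊔ B) := le_PP
  obtain ⟨p, ep⟩ : ∃ p, p = γ⁻¹ * f1 * γ := ⟨_, rfl⟩
  have pΓ : p ∈ PP L E (A ⊔ B) := ep ▸ mul_mem (mul_mem (inv_mem hγ) (UΓ (mem_sup_right hf1))) hγ
  have ep' : γ * p * γ⁻¹ = f1 := by rw [ep]; group
  have ep'' : a * p * a⁻¹ = f1 := by
    rw [ea, mul_assoc γ, ← (e.com p pΓ γ hγ).eq, ← ep']; group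
  have eq : φ = p * (t * p * t⁻¹) := by
    have h1 := h.toSp.tau_cj (h.toTor.PP_nmE ha).1 p
    rw [ep'', ← ef] at h1
    exact (mul_left_cancel (mul_right_cancel h1)).symm
  have pp : p * p = 1 := by
    calc p * p = γ⁻¹ * (f1 * f1) * γ := by rw [ep]; group
      _ = 1 := by rw [h.tri.elF f1 hf1]; group
  have cp : Cm (t * p * t⁻¹) (A ⊔ B) := fun x hx => (e.com x (UΓ hx) p pΓ).symm
  have pB : Nm p B := by simpa [eq, mul_assoc] using h.φB.mul (cp.mono le_sup_right).inv.nm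
  have tp : TriP A B p := ⟨h.tri, pp, (h.toSp.PP_nmA pΓ).1, pB, fun c => h.toSp.triPA.nZ
    (eq ▸ c.mul (cp.mono (inf_le_left.trans le_sup_left)))⟩
  have TΓ : TT A B p ≤ PP L E (A ⊔ B) := sup_le UΓ (zpowers_le.2 pΓ)
  have ΓX : ∀ {γ}, γ ∈ PP L E (A ⊔ B) → γ ∈ normalClosure (L : Set G) := fun hγ => (h.toSp.PP_nmA hγ).2.2
  have ΓX' : ∀ {γ}, γ ∈ PP L F (B ⊔ A) → γ ∈ normalClosure (L : Set G) := fun hγ => (h.toSp.symm.PP_nmA hγ).2.2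
  obtain ⟨z, hz, z1, cz, -, uz, -⟩ := tp.fix
  have mv : ∀ x ∈ TT A B p, x * x = 1 → ∃ c ∈ PP L E (A ⊔ B), c * x * c⁻¹ ∈ B := fun x hx xx => by
    rcases tp.invol_TT hx xx with h1 | h1 | ⟨v, hv, rfl⟩
    · by_cases x1 : x = 1
      · exact ⟨1, one_mem _, by simp [x1]⟩
      · obtain ⟨c, hc, e⟩ := h.toSp.trA h1 x1 hz.1 z1
        exact ⟨c, hc, e ▸ hz.2⟩
    · exact ⟨1, one_mem _, by simpa using h1⟩
    · refine ⟨γ * v⁻¹, mul_mem hγ (inv_mem (UΓ hv)), ?_⟩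
      rwa [show γ * v⁻¹ * (v * p * v⁻¹) * (γ * v⁻¹)⁻¹ = γ * p * γ⁻¹ by group, ep']
  have c2 : Cm p (cj t A ⊔ cj t B) := cj_sup t A B ▸ cm_U2 e pΓ UΓ
  refine ⟨p, h, pp, eq, tp.φE, pB, fun x hx => ΓX (TΓ hx), fun x hx y hy => e.com x (TΓ hx) y (TΓ hy),
    fun x hx xx x1 y hy yy y1 => ?_, fun x hx xx x1 y hy yy y1 => ?_, fun x hx xx => ?_, ?_,
    fun y n h2 c w hw ww => ?_⟩
  · obtain ⟨c, hc, h1⟩ := mv x hx xx
    obtain ⟨d, hd, h2⟩ := mv y hy yy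
    obtain ⟨δ, hδ, h3⟩ := h.toSp.symm.trA h1 (by simpa using x1) h2 (by simpa using y1)
    refine ⟨d⁻¹ * δ * c, mul_mem (mul_mem (inv_mem (ΓX hd)) (ΓX' hδ)) (ΓX hc), ?_⟩
    calc _ = d⁻¹ * (δ * (c * x * c⁻¹) * δ⁻¹) * d := by group
      _ = y := by rw [h3]; group
  · obtain ⟨c, hc, h1⟩ := mv x hx xx
    obtain ⟨d, hd, h2⟩ := mv y hy yy
    obtain ⟨δ, hδ, h3⟩ := h.toSp.symm.mixV h1 (by simpa using x1) h2 (by simpa using y1)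
    refine ⟨δ * (t * d * t⁻¹) * c, mul_mem (mul_mem hδ (Normal.conj_mem inferInstance _ (ΓX hd) t)) (ΓX hc), ?_⟩
    have e1 := (e.com c hc y (TΓ hy)).eq
    have e2 := (e.com _ (UΓ (mem_sup_right h1)) d hd).eq
    convert h.FL h3 using 1
    calc _ = δ * (t * d * t⁻¹) * (c * x * c⁻¹) * (c * (t * y * t⁻¹)) * c⁻¹ * (t * d * t⁻¹)⁻¹ * δ⁻¹ := by group
      _ = _ := by rw [e1, mul_assoc δ, ← e2]; group
  · obtain ⟨c, hc, h1⟩ := mv x hx xx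
    exact ⟨c, ΓX hc, cm_U2 e hc TΓ, h1⟩
  · exact TΓ.trans (e.perf.trans (commutator_le.2 fun γ hγ δ hδ => WD.comm_mem_sqc
      ⟨ΓX hγ, cm_iff.1 (cm_U2 e hγ TΓ)⟩ ⟨ΓX hδ, cm_iff.1 (cm_U2 e hδ TΓ)⟩))
  obtain ⟨η, hη, cη, cy⟩ := h.gam1 e tp c2 n h2 c
  have ZT : A ⊓ B ≤ TT A B p := (inf_le_left.trans le_sup_left).trans le_sup_left
  have hw' : η * w ∈ TT A B p := mul_mem (ZT hη) hw
  have e1 : y * w = y * η * (η * w) := by rw [mul_assoc, ← mul_assoc η, h.tri.elZ η hη, one_mul]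
  have e2 : y * η * (y * η) * (η * w * (η * w)) = 1 := by
    rw [← ww, e1]
    exact ((cy _ (TΓ hw')).symm.mul_mul_mul_comm _ _).symm
  have e3 : y * η * (y * η) = 1 := by
    have h3 : y * η * (y * η) ∈ TT A B p := eq_inv_of_mul_eq_one_left e2 ▸ inv_mem (mul_mem hw' hw')
    refine (uz _ h3 ((cy.mul cy).mono TΓ)).resolve_right fun h4 => ?_
    obtain ⟨x, hx, xB⟩ := h.tri.exE
    obtain ⟨δ, hδ, h5⟩ := h.toSp.trA hz.1 z1 hx fun e => xB (e ▸ one_mem B)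
    rw [← (h4 ▸ cy.mul cy δ hδ : Commute z δ).eq, mul_inv_cancel_right] at h5
    exact xB (h5 ▸ hz.2)
  rw [e3, one_mul] at e2
  obtain ⟨c1, hc1, h3⟩ := mv _ hw' e2
  obtain ⟨ζ, hζ, cζ, cy'⟩ := h.symm.gam1 f tp.symm (sup_comm (cj t A) _ ▸ c2)
    (UU_comm (A := A) ▸ n.mul (Nm.of_mem (mem_sup_left (mem_sup_left hη.1)))) (WD.two_of_sq e3)
    (TT_comm (A := A) ▸ cy.mono TΓ)
  rw [← TT_comm] at cζ
  have hζ' : ζ ∈ A ⊓ B := ⟨hζ.2, hζ.1⟩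
  have e4 : c1 * (y * w) * c1⁻¹ = y * η * ζ * (ζ * (c1 * (η * w) * c1⁻¹)) := by
    rw [e1, ← conj_mul, ← (cy c1 hc1).eq, mul_inv_cancel_right, mul_assoc (y * η) ζ, ← mul_assoc ζ,
      h.tri.elZ ζ hζ', one_mul]
  by_cases h4 : ζ * (c1 * (η * w) * c1⁻¹) = 1
  · exact ⟨c1, ΓX hc1, η * ζ, mul_mem hη hζ', by rw [e4, h4, mul_one, mul_assoc], cη.mul cζ⟩
  · obtain ⟨δ, hδ, h5⟩ := h.toSp.symm.trA (mul_mem hζ.1 h3) h4 hz.2 z1
    refine ⟨δ * c1, mul_mem (ΓX' hδ) (ΓX hc1), η * ζ * z, mul_mem (mul_mem hη hζ') hz, ?_, (cη.mul cζ).mul cz⟩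
    calc _ = δ * (c1 * (y * w) * c1⁻¹) * δ⁻¹ := by group
      _ = _ := by rw [e4, ← conj_mul, h5, ← (cy' δ hδ).eq]; group

end CfsgLib.StdL
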