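import Mathlib
import Cfsg.Agent.Lib.StdL.Spb

/-!
# Standard subgroups of type `M22`: the normaliser of `U₁ × U₂`
-/

set_option autoImplicit false
set_option linter.unusedSectionVars false

namespace CfsgLib.StdL

open Subgroup Cfsg CfsgLib.Tech
open CfsgLib.StdInt hiding cj mem_cj

variable {G : Type*} [Group G] [Finite G] {L E F A B A' B' : Subgroup G} {t σ ρ φ n : G}

namespace Tw2

variable {C D C' D' X Y : Subgroup G} {g x y x' y' u v z : G} (h : Tw2 A B A' B')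
include h

theorem js_symmr : Tw2 A B B' A' := h.flip.symml.flip

theorem js_pair (hX : X ≤ A ⊔ B) (hY : Y ≤ A' ⊔ B') : g ∈ X ⊔ Y ↔ ∃ x ∈ X, ∃ y ∈ Y, g = x * y :=
  mem_sup_comm fun x hx y hy => h.com x (hX hx) y (hY hy)

theorem js_mem : g ∈ (A ⊔ B) ⊔ (A' ⊔ B') ↔ ∃ x ∈ A ⊔ B, ∃ y ∈ A' ⊔ B', g = x * y := h.js_pair le_rfl le_rfl

theorem js_uniq (hx : x ∈ A ⊔ B) (hy : y ∈ A' ⊔ B') (hx' : x' ∈ A ⊔ B) (hy' : y' ∈ A' ⊔ B')
    (e : x * y = x' * y') : x = x' ∧ y = y' := by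
  have e1 : x'⁻¹ * x = y' * y⁻¹ := by
    calc _ = x'⁻¹ * (x * y) * y⁻¹ := by group
      _ = _ := by rw [e]; group
  have e2 := h.dis _ (mul_mem (inv_mem hx') hx) (by rw [e1]; exact mul_mem hy' (inv_mem hy))
  have e3 := e1
  rw [e2, eq_comm, mul_inv_eq_one] at e3
  exact ⟨(inv_mul_eq_one.1 e2).symm, e3.symm⟩

theorem js_card (hX : X ≤ A ⊔ B) (hY : Y ≤ A' ⊔ B') : Nat.card ↥(X ⊔ Y) = Nat.card X * Nat.card Y := by
  have := card_sup_comm fun x hx y hy => h.com x (hX hx) y (hY hy)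
  have e : X ⊓ Y = ⊥ := (eq_bot_iff_forall _).2 fun x hx => h.dis x (hX hx.1) (hY hx.2)
  rwa [e, card_bot, mul_one] at this

theorem js_conj (g : G) : Tw2 (cj g A) (cj g B) (cj g A') (cj g B') := by
  refine ⟨h.l.conj g, h.r.conj g, fun x hx y hy => ?_, fun x hx hy => ?_⟩
  · rw [← cj_sup, mem_cj] at hx hy
    have := (h.com _ hx _ hy).eq
    calc x * y = g * (g⁻¹ * x * g * (g⁻¹ * y * g)) * g⁻¹ := by group
      _ = y * x := by rw [this]; group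
  · rw [← cj_sup, mem_cj] at hx hy
    calc x = g * (g⁻¹ * x * g) * g⁻¹ := by group
      _ = 1 := by rw [h.dis _ hx hy]; group

theorem js_zl : A ⊓ B ≤ A ⊔ B := inf_le_left.trans le_sup_left

theorem js_zr : A' ⊓ B' ≤ A' ⊔ B' := inf_le_left.trans le_sup_left

/-- commutators are computed in the factors -/
theorem js_cmt (hx : x ∈ A ⊔ B) (hy : y ∈ A' ⊔ B') (hx' : x' ∈ A ⊔ B) (hy' : y' ∈ A' ⊔ B') :
    x * y * (x' * y') * (x * y)⁻¹ * (x' * y')⁻¹ = x * x' * x⁻¹ * x'⁻¹ * (y * y' * y⁻¹ * y'⁻¹) := by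
  have c1 := (h.com x' hx' y hy).eq
  have c2 := (h.com x hx y' hy').eq
  have c3 := (h.com _ (inv_mem (mul_mem hx' hx)) _
    (mul_mem (mul_mem (mul_mem hy hy') (inv_mem hy)) (inv_mem hy'))).eq
  calc _ = x * (y * x') * y' * y⁻¹ * (y' * x)⁻¹ * x'⁻¹ := by group
    _ = x * x' * (y * y' * y⁻¹ * y'⁻¹ * (x' * x)⁻¹) := by rw [← c1, ← c2]; group
    _ = _ := by rw [← c3]; group

theorem js_sq (hx : x ∈ A ⊔ B) (hy : y ∈ A' ⊔ B') (e : x * y * (x * y) = 1) : x * x = 1 ∧ y * y = 1 := by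
  refine h.js_uniq (mul_mem hx hx) (mul_mem hy hy) (one_mem _) (one_mem _) ?_
  calc _ = x * (x * y) * y := by group
    _ = x * (y * x) * y := by rw [(h.com x hx y hy).eq]
    _ = x * y * (x * y) := by group
    _ = _ := by rw [e, one_mul]

theorem js_cen (hz : z ∈ A ⊓ B) : Cm z ((A ⊔ B) ⊔ (A' ⊔ B')) :=
  (h.l.cenZ hz).sup fun y hy => h.com z (mem_sup_left hz.1) y hy

/-- `Z₁ Z₂` is central -/
theorem js_cen' (hz : z ∈ A ⊓ B ⊔ A' ⊓ B') : Cm z ((A ⊔ B) ⊔ (A' ⊔ B')) := by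
  obtain ⟨a, ha, b, hb, rfl⟩ := (h.js_pair h.js_zl h.js_zr).1 hz
  refine (h.js_cen ha).mul ?_
  rw [sup_comm]
  exact h.flip.js_cen hb

theorem js_comm (hx : x ∈ (A ⊔ B) ⊔ A' ⊓ B') (hv : v ∈ (A ⊔ B) ⊔ (A' ⊔ B')) : x * v * x⁻¹ * v⁻¹ ∈ A ⊓ B := by
  obtain ⟨a, ha, z, hz, rfl⟩ := (h.js_pair le_rfl h.js_zr).1 hx
  obtain ⟨b, hb, w, hw, rfl⟩ := h.js_mem.1 hv
  rw [h.js_cmt ha (h.js_zr hz) hb hw, (h.r.cenZ hz w hw).eq, mul_inv_cancel_right, mul_inv_cancel, mul_one]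
  exact h.l.comm_mem ha hb

/-- the converse of `js_comm` -/
theorem js_comm' (hx : x ∈ (A ⊔ B) ⊔ (A' ⊔ B')) (c : ∀ v ∈ A' ⊔ B', x * v * x⁻¹ * v⁻¹ ∈ A ⊓ B) :
    x ∈ (A ⊔ B) ⊔ A' ⊓ B' := by
  obtain ⟨a, ha, w, hw, rfl⟩ := h.js_mem.1 hx
  refine mul_mem_sup ha (h.r.centU hw fun v hv => ?_)
  have e := h.js_cmt ha hw (one_mem _) hv
  simp only [one_mul, mul_one, mul_inv_cancel, inv_one] at e
  have := c v hv
  rw [e] at this
  have e1 := h.dis _ (h.js_zl this) (mul_mem (mul_mem (mul_mem hw hv) (inv_mem hw)) (inv_mem hv))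
  calc w * v = w * v * w⁻¹ * v⁻¹ * (v * w) := by group
    _ = v * w := by rw [e1, one_mul]

theorem js_neZ : A ⊓ B ≠ A' ⊓ B' := fun e => by
  obtain ⟨z, hz, z1⟩ := h.l.exZ
  exact z1 (h.dis z (h.js_zl hz) (h.js_zr (by rw [← e]; exact hz)))

theorem js_neA : ¬A ≤ B ⊔ (A' ⊔ B') := fun e => by
  obtain ⟨a, ha, a1⟩ := h.l.exE
  obtain ⟨b, hb, w, hw, e1⟩ := (h.js_pair le_sup_right le_rfl).1 (e ha)
  refine a1 ?_
  rw [(h.js_uniq (mem_sup_left ha) (one_mem _) (mem_sup_right hb) hw (by rw [mul_one, e1])).1]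
  exact hb

theorem js_neA' : A ⊔ A' ⊓ B' ≠ B ⊔ A' ⊓ B' := fun e =>
  h.js_neA (le_sup_left.trans (e.le.trans (sup_le_sup_left h.js_zr _)))

theorem js_c64 : Nat.card ↥(A ⊔ A' ⊓ B') = 64 := by rw [h.js_card le_sup_left h.js_zr, h.l.cE, h.r.cZ]

/-- two decompositions of the same group: the centres of the factors -/
theorem js_z (k : Tw2 C D C' D') (e : (C ⊔ D) ⊔ (C' ⊔ D') = (A ⊔ B) ⊔ (A' ⊔ B')) :
    C ⊓ D = A ⊓ B ∨ C ⊓ D = A' ⊓ B' := by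
  obtain ⟨c, hc, c1⟩ := k.l.exE
  have hu : c ∈ (A ⊔ B) ⊔ (A' ⊔ B') := by rw [← e]; exact mem_sup_left (mem_sup_left hc)
  obtain ⟨x, hx, y, hy, e1⟩ := h.js_mem.1 hu
  by_cases hz : x ∈ A ⊓ B
  · refine Or.inr (eq_of_le_of_card_ge (fun z hz' => ?_) (by rw [k.l.cZ, h.r.cZ]))
    obtain ⟨f, hf, rfl⟩ := k.l.onto hc c1 hz'
    refine h.flip.js_comm ?_ ?_
    · rw [e1, sup_comm]
      exact mul_mem_sup hz hy
    · rw [sup_comm, ← e]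
      exact mem_sup_left (mem_sup_right hf)
  · refine Or.inl (eq_of_le_of_card_ge (fun z hz' => ?_) (by rw [k.l.cZ, h.l.cZ])).symm
    obtain ⟨v, hv, rfl⟩ := h.l.onto' hx hz hz'
    have e2 := h.js_cmt hx hy hv (one_mem _)
    simp only [mul_one, mul_inv_cancel, inv_one] at e2
    rw [← e2, ← e1]
    exact k.js_comm (mem_sup_left (mem_sup_left hc)) (by rw [e]; exact mem_sup_left hv)

theorem js_side (k : Tw2 C D C' D') (e : (C ⊔ D) ⊔ (C' ⊔ D') = (A ⊔ B) ⊔ (A' ⊔ B')) (z : C ⊓ D = A ⊓ B) :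
    C ⊔ C' ⊓ D' = A ⊔ A' ⊓ B' ∨ C ⊔ C' ⊓ D' = B ⊔ A' ⊓ B' := by
  have el : El (C ⊔ C' ⊓ D') := k.l.elE.sup k.r.elZ fun x hx y hy => k.com x (mem_sup_left hx) y (k.js_zr hy)
  have key : ∀ u ∈ C ⊔ C' ⊓ D', u ∈ A ⊔ A' ⊓ B' ∨ u ∈ B ⊔ A' ⊓ B' := fun u hu => by
    have h1 : u ∈ (A ⊔ B) ⊔ A' ⊓ B' := by
      refine h.js_comm' (by rw [← e]; exact sup_le_sup le_sup_left k.js_zr hu) fun v hv => ?_
      rw [← z]
      exact k.js_comm ((sup_le_sup_right (le_sup_left : C ≤ C ⊔ D) (C' ⊓ D') :) hu) (by rw [e]; exact mem_sup_right hv)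
    obtain ⟨x, hx, y, hy, rfl⟩ := (h.js_pair le_rfl h.js_zr).1 h1
    exact (h.l.invol hx (h.js_sq hx (h.js_zr hy) (el _ hu)).1).imp (fun a => mul_mem_sup a hy)
      fun a => mul_mem_sup a hy
  exact (le_or_le key).imp (fun a => eq_of_le_of_card_ge a (by rw [k.js_c64, h.js_c64]))
    fun a => eq_of_le_of_card_ge a (by rw [k.js_c64, h.symml.js_c64])

theorem js_side2 (k : Tw2 C D C' D') (e : (C ⊔ D) ⊔ (C' ⊔ D') = (A ⊔ B) ⊔ (A' ⊔ B')) (z : C ⊓ D = A ⊓ B) :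
    C ⊔ C' ⊓ D' = A ⊔ A' ⊓ B' ∧ D ⊔ C' ⊓ D' = B ⊔ A' ⊓ B' ∨
      C ⊔ C' ⊓ D' = B ⊔ A' ⊓ B' ∧ D ⊔ C' ⊓ D' = A ⊔ A' ⊓ B' := by
  have ne := k.js_neA'
  rcases h.js_side k e z with a | a <;>
    rcases h.js_side k.symml (by rw [sup_comm D, e]) (by rw [inf_comm, z]) with b | b
  · exact (ne (a.trans b.symm)).elim
  · exact Or.inl ⟨a, b⟩
  · exact Or.inr ⟨a, b⟩
  · exact (ne (a.trans b.symm)).elim

end Tw2

/-- JSA1 -/
theorem Tw2.perm (h : Tw2 A B A' B') (hn : Nm n ((A ⊔ B) ⊔ (A' ⊔ B'))) :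
    P0 n A B A' B' ∨ (cj n (A ⊓ B) = A' ⊓ B' ∧ cj n (A' ⊓ B') = A ⊓ B ∧
      (cj n (A ⊔ A' ⊓ B') = A' ⊔ A ⊓ B ∧ cj n (B ⊔ A' ⊓ B') = B' ⊔ A ⊓ B ∨
        cj n (A ⊔ A' ⊓ B') = B' ⊔ A ⊓ B ∧ cj n (B ⊔ A' ⊓ B') = A' ⊔ A ⊓ B)) := by
  have k := h.js_conj n
  have e : (cj n A ⊔ cj n B) ⊔ (cj n A' ⊔ cj n B') = (A ⊔ B) ⊔ (A' ⊔ B') := by
    rw [← cj_sup, ← cj_sup, ← cj_sup]
    exact nm_iff_cj.1 hn
  have e' : (cj n A' ⊔ cj n B') ⊔ (cj n A ⊔ cj n B) = (A ⊔ B) ⊔ (A' ⊔ B') := by rw [sup_comm, e]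
  have ne := k.js_neZ
  rcases h.js_z k e with a | a <;> rcases h.js_z k.flip e' with b | b
  · exact (ne (a.trans b.symm)).elim
  · refine Or.inl ⟨?_, ?_, by rw [cj_inf, a], by rw [cj_inf, b]⟩
    · simpa only [Sw, cj_sup, cj_inf] using h.js_side2 k e a
    · simpa only [Sw, cj_sup, cj_inf] using h.flip.js_side2 k.flip (by rw [e', sup_comm]) b
  · refine Or.inr ⟨by rw [cj_inf, a], by rw [cj_inf, b], ?_⟩
    simpa only [cj_sup, cj_inf] using h.flip.js_side2 k (by rw [e, sup_comm]) a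
  · exact (ne (a.trans b.symm)).elim

theorem Sp0.js_tnm (h : Sp0 L E F A B t σ ρ φ) : Nm t (UU A B t) := by
  rw [h.UU_eq']
  exact h.t_nm

theorem Sp0.perm0 (h : Sp0 L E F A B t σ ρ φ) (hn : Nm n (UU A B t)) :
    P0 n A B (cj t A) (cj t B) ∨ P0 (t * n) A B (cj t A) (cj t B) := by
  rcases h.tw2.perm hn with a | ⟨a, -⟩
  · exact Or.inl a
  rcases h.tw2.perm (h.js_tnm.mul hn) with b | ⟨b, -⟩
  · exact Or.inr b
  rw [cj_mul, a, ← cj_inf, cj_cj_sq h.tt, cj_inf] at b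
  exact (h.tw2.js_neZ b).elim

/-- JSA2 -/
theorem Sp0.ker0 (h : Sp0 L E F A B t σ ρ φ) (h2 : Two n) (a : Nm n (A ⊔ cj t A)) (b : Nm n (B ⊔ cj t B))
    (c : Cm n (A ⊓ B)) (d : Cm n (cj t A ⊓ cj t B)) : n ∈ UU A B t := by
  obtain ⟨K, hK⟩ : ∃ K : Subgroup G, ∀ x, x ∈ K ↔
      (Nm x (A ⊔ cj t A) ∧ Nm x (B ⊔ cj t B)) ∧ Cm x (A ⊓ B) ∧ Cm x (cj t A ⊓ cj t B) :=
    ⟨(normalizer (A ⊔ cj t A : Subgroup G) ⊓ normalizer (B ⊔ cj t B : Subgroup G)) ⊓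
      (centralizer (A ⊓ B : Subgroup G) ⊓ centralizer (cj t A ⊓ cj t B : Subgroup G)), fun x => by
      rw [mem_inf, mem_inf, mem_inf, nm_iff, nm_iff, cm_iff, cm_iff]⟩
  have q := cj_cj_sq h.tt
  have UK : UU A B t ≤ K := fun u hu => by
    obtain ⟨a1, a2, a3, a4⟩ := h.nmV hu
    refine (hK u).2 ⟨⟨a1.sup a3, a2.sup a4⟩, fun z hz => (h.tw2.js_cen hz u hu).symm, fun z hz => ?_⟩
    exact (h.tw2.js_cen' (mem_sup_right hz) u hu).symm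
  have KU : ∀ x ∈ K, Nm x (UU A B t) := fun x hx => by
    rw [h.UU_eq]
    exact ((hK x).1 hx).1.1.sup ((hK x).1 hx).1.2
  have tK : Nm t K := fun x hx => by
    obtain ⟨⟨a1, a2⟩, a3, a4⟩ := (hK x).1 hx
    refine (hK _).2 ⟨⟨?_, ?_⟩, ?_, ?_⟩
    · simpa only [nm_iff_cj.1 h.t_nm] using a1.conj t
    · simpa only [nm_iff_cj.1 h.t_nm] using a2.conj t
    · simpa only [cj_inf, q] using a4.conj t
    · simpa only [cj_inf] using a3.conj t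
  have ntK : t ∉ K := fun ht => by
    obtain ⟨z, hz, z1⟩ := h.tri.exZ
    refine z1 (h.dis z (mem_sup_left hz.1) ?_)
    rw [conj_of_comm (((hK t).1 ht).2.1 z hz)]
    exact mem_sup_left hz.1
  have t2 : IsPGroup 2 (zpowers t) := isPGroup_zpowers_of_pow (k := 1) (by rw [pow_one, pow_two, h.tt])
  have p2 : IsPGroup 2 ↥(UU A B t ⊔ zpowers t) := two_sup_nm h.two_UU t2 fun x hx => by
    rcases spb_zp h.tt hx with rfl | rfl
    · exact Nm.of_mem (one_mem _)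
    · exact h.js_tnm
  obtain ⟨R, hR, UR⟩ := exists_isSylowIn_ge (H := normalizer (K : Set G)) p2
    (sup_le (UK.trans le_normalizer) (zpowers_le.2 (nm_iff.1 tK)))
  have hQ := hR.inf_of_le_normalizer (N := K) le_rfl
  rw [inf_eq_right.2 (le_normalizer (H := K))] at hQ
  have UQ : UU A B t ≤ R ⊓ K := le_inf (le_sup_left.trans UR) UK
  by_cases hle : R ⊓ K ≤ UU A B t
  · rw [le_antisymm hle UQ] at hQ
    have nK := (hK n).2 ⟨⟨a, b⟩, c, d⟩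
    obtain ⟨k, hk⟩ := h2
    exact hQ.le_of_normalizes (isPGroup_zpowers_of_pow hk) (zpowers_le.2 nK) (zpowers_le.2 (nm_iff.1 (KU n nK)))
      (mem_zpowers n)
  exfalso
  have tn := h.t_not
  rw [h.UU_eq'] at hle UQ tn
  obtain ⟨x, hx, xn, xt⟩ := climb h.tt h.com' h.dis tn hQ.pgroup
    ((Nm.of_mem (UR (mem_sup_right (mem_zpowers t)))).inf tK) UQ hle
  rw [← h.UU_eq'] at xn
  obtain ⟨⟨a1, a2⟩, a3, a4⟩ := (hK x).1 hx.2
  have ct : ∀ e ∈ L, Commute (x * e * x⁻¹) t := fun e he => (xt.mul_left (h.cL e he).symm).mul_left xt.inv_left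
  rcases h.twoU xt (two_of_mem hQ.pgroup hx) (fun e he => h.fixV (a1 e (h.EV he)) (ct e (h.EL he)))
    (fun e he => h.symm.fixV (a2 e (h.symm.EV he)) (ct e (h.FL he))) (fun z hz => by
      obtain ⟨y, hy, rfl⟩ := h.dZ.1 hz
      exact (a3 y hy).mul_right (a4 _ ⟨conj_mem_cj.2 hy.1, conj_mem_cj.2 hy.2⟩)) with u | u
  · exact xn (h.UUU u)
  · exact ntK ((K.mul_mem_cancel_right hx.2).1 (UK (h.UUU u)))

end CfsgLib.StdL
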