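import Mathlib
import Cfsg.Agent.Lib.StdL.JsA

/-!
# Standard subgroups of type `M22`: the large elementary abelian subgroups of `N(U₁ × U₂)`
-/

set_option autoImplicit false
set_option linter.unusedSectionVars false

namespace CfsgLib.StdL

open Subgroup Cfsg CfsgLib.Tech
open CfsgLib.StdInt hiding cj mem_cj

variable {G : Type*} [Group G] [Finite G] {A B A' B' Y Ya Yb Yc : Subgroup G}

/-- the stabiliser of the first factor -/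
def St (A B A' B' : Subgroup G) : Subgroup G :=
  normalizer (A ⊔ A' ⊓ B' : Subgroup G) ⊓ centralizer (A ⊓ B : Subgroup G)

section aux

variable {H K D X : Subgroup G} {s y u x w : G}

theorem mem_St : y ∈ St A B A' B' ↔ Nm y (A ⊔ A' ⊓ B') ∧ Cm y (A ⊓ B) := by rw [St, mem_inf, nm_iff, cm_iff]

theorem jsb_card (H K : Subgroup G) : Nat.card H = Nat.card ↥(H ⊓ K) * K.relIndex H := by
  rw [← inf_relIndex_left, card_mul_relIndex' inf_le_left]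

theorem jsb_two (h : ∀ x ∈ H, ∀ y ∈ H, x ∉ K → y ∉ K → x * y ∈ K) : K.relIndex H ≤ 2 := by
  have a := card_le_two_mul h
  have p : 0 < Nat.card ↥(H ⊓ K) := Nat.card_pos
  rw [jsb_card H K, mul_comm 2] at a
  exact Nat.le_of_mul_le_mul_left a p

theorem jsb_idx {m : ℕ} (h : H ≤ K) (d : D ≤ K) (c : Nat.card K ≤ Nat.card D * m) : D.relIndex H ≤ m := by
  have p : 0 < Nat.card D := Nat.card_pos
  rw [← card_mul_relIndex' d] at c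
  exact (relIndex_le_of_le_right h FiniteIndex.index_ne_zero).trans (Nat.le_of_mul_le_mul_left c p)

theorem jsb_half (h : H ≤ K) (n : ¬K ≤ H) : 2 * Nat.card H ≤ Nat.card K := by
  obtain ⟨x, hx, x1⟩ := SetLike.not_le_iff_exists.1 n
  exact spb_lt le_rfl h hx x1

theorem P0.js_symml (p : P0 y A B A' B') : P0 y B A A' B' :=
  ⟨p.l.symm, by rw [inf_comm]; exact p.r, by rw [inf_comm]; exact p.zl, p.zr⟩

theorem P0.js_symmr (p : P0 y A B A' B') : P0 y A B B' A' := p.flip.js_symml.flip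

namespace Tw2

variable (h : Tw2 A B A' B')
include h

theorem jsb_nm (p : P0 y A B A' B') (a : Nm y (A ⊔ A' ⊓ B')) : Nm y (B ⊔ A' ⊓ B') := by
  rcases p.l with b | b
  · exact nm_iff_cj.2 b.2
  · exact (h.js_neA' ((nm_iff_cj.1 a).symm.trans b.1)).elim

theorem jsb_sw (p : P0 y A B A' B') (a : ¬Nm y (A ⊔ A' ⊓ B')) :
    cj y (A ⊔ A' ⊓ B') = B ⊔ A' ⊓ B' ∧ cj y (B ⊔ A' ⊓ B') = A ⊔ A' ⊓ B' :=
  p.l.resolve_left fun b => a (nm_iff_cj.2 b.1)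

/-- the second component is moved inside `Z₁ U₂` -/
theorem jsb_snd (p : P0 y A B A' B') (hw : w ∈ A' ⊔ B') : ∃ z ∈ A ⊓ B, ∃ v ∈ A' ⊔ B', y * w * y⁻¹ = z * v := by
  have a := p.r.nm_sup w ((sup_le_sup (le_sup_left : A' ≤ A' ⊔ A ⊓ B) (le_sup_left : B' ≤ B' ⊔ A ⊓ B) :) hw)
  have b : (A' ⊔ A ⊓ B) ⊔ (B' ⊔ A ⊓ B) ≤ A ⊓ B ⊔ (A' ⊔ B') :=
    sup_le (sup_le (le_sup_left.trans le_sup_right) le_sup_left)
      (sup_le (le_sup_right.trans le_sup_right) le_sup_left)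
  exact (h.js_pair h.js_zl le_rfl).1 (b a)

/-- the first component of a fixed element -/
theorem jsb_fst (p : P0 y A B A' B') (hx : x ∈ A ⊔ B) (hw : w ∈ A' ⊔ B') (c : Commute y (x * w)) (hX : X ≤ A ⊔ B)
    (a : y * x * y⁻¹ ∈ X ⊔ A' ⊓ B') : ∃ b ∈ X, ∃ z ∈ A ⊓ B, ∃ z' ∈ A' ⊓ B', y * x * y⁻¹ = b * z' ∧ x = b * z := by
  obtain ⟨b, hb, z', hz', e⟩ := (h.js_pair hX h.js_zr).1 a
  obtain ⟨z, hz, v, hv, e'⟩ := h.jsb_snd p hw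
  refine ⟨b, hb, z, hz, z', hz', e, (h.js_uniq hx hw (mul_mem (hX hb) (h.js_zl hz)) (mul_mem (h.js_zr hz') hv) ?_).1⟩
  calc x * w = y * x * y⁻¹ * (y * w * y⁻¹) := by rw [← conj_of_comm c]; group
    _ = b * (z' * z) * v := by rw [e, e']; group
    _ = _ := by rw [← (h.com z (h.js_zl hz) z' (h.js_zr hz')).eq]; group

theorem jsb_split (e : El Y) (hb : Yb ≤ Y ⊓ ((A ⊔ B) ⊔ (A' ⊔ B'))) : Yb ≤ A ⊔ (A' ⊔ B') ∨ Yb ≤ B ⊔ (A' ⊔ B') := by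
  refine le_or_le fun u hu => ?_
  obtain ⟨x, hx, w, hw, rfl⟩ := h.js_mem.1 (hb hu).2
  exact (h.l.invol hx (h.js_sq hx hw (e _ (hb hu).1)).1).imp (fun a => mul_mem_sup a hw) fun a => mul_mem_sup a hw

theorem jsb_b {m : ℕ} (hX : X ≤ A ⊔ B) (hZ : A ⊓ B ≤ X) (hb : Yb ≤ X ⊔ (A' ⊔ B')) (c : Nat.card X ≤ 4 * m) :
    (A ⊓ B ⊔ (A' ⊔ B')).relIndex Yb ≤ m := by
  refine jsb_idx hb (sup_le_sup_right hZ _) ?_
  rw [h.js_card hX le_rfl, h.js_card h.js_zl le_rfl, h.l.cZ, h.r.card]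
  omega

theorem jsb_b4 (e : El Y) (hb : Yb ≤ Y ⊓ ((A ⊔ B) ⊔ (A' ⊔ B'))) : (A ⊓ B ⊔ (A' ⊔ B')).relIndex Yb ≤ 4 := by
  rcases h.jsb_split e hb with a | a
  · exact h.jsb_b le_sup_left inf_le_left a (by rw [h.l.cE])
  · exact h.jsb_b le_sup_right inf_le_right a (by rw [h.l.cF])

theorem jsb_b1' (p : P0 y A B A' B') (a : cj y (A ⊔ A' ⊓ B') = B ⊔ A' ⊓ B') (c : Cm y Yb)
    (hb : Yb ≤ A ⊔ (A' ⊔ B')) : Yb ≤ A ⊓ B ⊔ (A' ⊔ B') := fun u hu => by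
  obtain ⟨x, hx, w, hw, rfl⟩ := (h.js_pair le_sup_left le_rfl).1 (hb hu)
  obtain ⟨b, hb', z, hz, -, -, -, e⟩ := h.jsb_fst p (mem_sup_left hx) hw (c _ hu) le_sup_right
    (by rw [← a]; exact conj_mem_cj.2 (mem_sup_left hx))
  exact mul_mem_sup ⟨hx, by rw [e]; exact mul_mem hb' hz.2⟩ hw

theorem jsb_b1 (e : El Y) (hy : y ∈ Y) (p : P0 y A B A' B') (a : ¬Nm y (A ⊔ A' ⊓ B'))
    (hb : Yb ≤ Y ⊓ ((A ⊔ B) ⊔ (A' ⊔ B'))) : (A ⊓ B ⊔ (A' ⊔ B')).relIndex Yb = 1 := by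
  have c : Cm y Yb := fun u hu => e.comm hy (hb hu).1
  obtain ⟨a1, a2⟩ := h.jsb_sw p a
  rw [relIndex_eq_one]
  rcases h.jsb_split e hb with b | b
  · exact h.jsb_b1' p a1 c b
  · rw [inf_comm]
    exact h.symml.jsb_b1' p.js_symml a2 c b

/-- an involution trivial on `A` modulo the centre centralises `Z₁` -/
theorem jsb_triv (yy : y * y = 1) (p : P0 y A B A' B') (b : Nm y (B ⊔ A' ⊓ B'))
    (a : ∀ x ∈ A, y * x * y⁻¹ * x⁻¹ ∈ A ⊓ B ⊔ A' ⊓ B') : Cm y (A ⊓ B) := by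
  obtain ⟨f, hf, f1, hz⟩ : ∃ f ∈ B, f ∉ A ∧ y * f * y⁻¹ * f⁻¹ ∈ A ⊓ B ⊔ A' ⊓ B' := by
    obtain ⟨f, hf, f1⟩ := h.l.symm.exE
    obtain ⟨f', hf', z, hz, e⟩ := (h.js_pair le_sup_right h.js_zr).1 (b f (mem_sup_left hf))
    have cz : ∀ x ∈ B, z * x = x * z := fun x hx => (h.com x (mem_sup_right hx) z (h.js_zr hz)).eq.symm
    by_cases q : f * f' ∈ A
    · refine ⟨f, hf, f1, ?_⟩
      have : y * f * y⁻¹ * f⁻¹ = f * f' * z := by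
        rw [e, h.l.elF.inv hf, mul_assoc, cz f hf, ← mul_assoc, (h.l.elF.comm hf hf').eq]
      rw [this]
      exact mul_mem_sup ⟨q, mul_mem hf hf'⟩ hz
    · refine ⟨f * f', mul_mem hf hf', q, mem_sup_right ?_⟩
      have e1 : y * f' * y⁻¹ = f * (y * z * y⁻¹)⁻¹ := by
        calc _ = y * (f' * z) * y⁻¹ * (y * z * y⁻¹)⁻¹ := by group
          _ = y * y * f * (y * y)⁻¹ * (y * z * y⁻¹)⁻¹ := by rw [← e]; group
          _ = _ := by rw [yy]; group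
      have hz' : (y * z * y⁻¹)⁻¹ ∈ A' ⊓ B' := inv_mem (nm_iff_cj.2 p.zr z hz)
      have e2 : y * (f * f') * y⁻¹ = z * (y * z * y⁻¹)⁻¹ * (f * f') := by
        calc _ = y * f * y⁻¹ * (y * f' * y⁻¹) := by group
          _ = f' * z * f * (y * z * y⁻¹)⁻¹ := by rw [e, e1]; group
          _ = z * (f * f' * (y * z * y⁻¹)⁻¹) := by rw [← cz f' hf', (h.l.elF.comm hf hf').eq]; group
          _ = _ := by rw [(h.com _ (mem_sup_right (mul_mem hf hf')) _ (h.js_zr hz')).eq]; group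
      rw [e2, mul_inv_cancel_right]
      exact mul_mem hz hz'
  intro z hz'
  obtain ⟨x, hx, rfl⟩ := h.l.symm.onto hf f1 ⟨hz'.2, hz'.1⟩
  refine comm_of_conj ?_
  have uf : f ∈ (A ⊔ B) ⊔ (A' ⊔ B') := mem_sup_left (mem_sup_right hf)
  have ux : x ∈ (A ⊔ B) ⊔ (A' ⊔ B') := mem_sup_left (mem_sup_left hx)
  generalize hζ : y * f * y⁻¹ * f⁻¹ = ζ at hz
  have hx' := a x hx
  generalize hη : y * x * y⁻¹ * x⁻¹ = η at hx'
  have c1 := (h.js_cen' hx' f uf).eq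
  have c2 := (h.js_cen' hz _ (mul_mem (mul_mem uf ux) (inv_mem uf))).eq
  have c3 := (h.js_cen' hx' _ (mul_mem (mul_mem (mul_mem uf ux) (inv_mem uf)) (inv_mem ux))).eq
  have c4 : ζ * η = η * ζ := (h.js_cen' hz η ((sup_le_sup h.js_zl h.js_zr :) hx')).eq
  calc _ = ζ * (f * η) * x * f⁻¹ * ζ⁻¹ * x⁻¹ * η⁻¹ := by rw [← hζ, ← hη]; group
    _ = ζ * η * (f * x * f⁻¹) * ζ⁻¹ * x⁻¹ * η⁻¹ := by rw [← c1]; group
    _ = η * (ζ * (f * x * f⁻¹)) * ζ⁻¹ * x⁻¹ * η⁻¹ := by rw [c4]; group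
    _ = η * (f * x * f⁻¹ * x⁻¹) * η⁻¹ := by rw [c2]; group
    _ = _ := by rw [c3]; group

theorem jsb_b2' (yy : y * y = 1) (p : P0 y A B A' B') (a : Nm y (A ⊔ A' ⊓ B')) (n : ¬Cm y (A ⊓ B)) (c : Cm y Yb)
    (hb : Yb ≤ A ⊔ (A' ⊔ B')) : (A ⊓ B ⊔ (A' ⊔ B')).relIndex Yb ≤ 2 := by
  obtain ⟨X, hX⟩ : ∃ X : Subgroup G, ∀ x, x ∈ X ↔ x ∈ A ∧ y * x * y⁻¹ * x⁻¹ ∈ A ⊓ B ⊔ A' ⊓ B' := by
    refine ⟨{ carrier := {x | x ∈ A ∧ y * x * y⁻¹ * x⁻¹ ∈ A ⊓ B ⊔ A' ⊓ B'}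
              mul_mem' := fun {x x'} hx hx' => ⟨mul_mem hx.1 hx'.1, ?_⟩
              one_mem' := ⟨one_mem _, by simp⟩
              inv_mem' := fun {x} hx => by rw [h.l.elE.inv hx.1]; exact hx }, fun _ => Iff.rfl⟩
    have c1 := (h.js_cen' hx'.2 x (mem_sup_left (mem_sup_left hx.1))).eq
    have : y * (x * x') * y⁻¹ * (x * x')⁻¹ = y * x * y⁻¹ * x⁻¹ * (y * x' * y⁻¹ * x'⁻¹) := by
      calc _ = y * x * y⁻¹ * x⁻¹ * (x * (y * x' * y⁻¹ * x'⁻¹)) * x⁻¹ := by group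
        _ = _ := by rw [← c1]; group
    rw [this]
    exact mul_mem hx.2 hx'.2
  have XA : X ≤ A := fun x hx => ((hX x).1 hx).1
  refine h.jsb_b (XA.trans le_sup_left) (fun z hz => (hX z).2 ⟨hz.1, mem_sup_left ?_⟩) (fun u hu => ?_) ?_
  · exact mul_mem (nm_iff_cj.2 p.zl z hz) (inv_mem hz)
  · obtain ⟨x, hx, w, hw, rfl⟩ := (h.js_pair le_sup_left le_rfl).1 (hb hu)
    obtain ⟨b, hb', z, hz, z', hz', e, e'⟩ := h.jsb_fst p (mem_sup_left hx) hw (c _ hu) le_sup_left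
      (a x (mem_sup_left hx))
    refine mul_mem_sup ((hX x).2 ⟨hx, ?_⟩) hw
    have : y * x * y⁻¹ * x⁻¹ = z⁻¹ * z' := by
      calc _ = b * (z' * x⁻¹) := by rw [e]; group
        _ = b * (b * z)⁻¹ * z' := by
          rw [← (h.com _ (mem_sup_left (inv_mem hx)) _ (h.js_zr hz')).eq, ← e']; group
        _ = _ := by rw [(h.l.elE.comm hb' hz.1).eq]; group
    rw [this]
    exact mul_mem_sup (inv_mem hz) hz'
  · have := jsb_half XA fun q => n (h.jsb_triv yy p (h.jsb_nm p a) fun x hx => ((hX x).1 (q hx)).2)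
    rw [h.l.cE] at this
    omega

theorem jsb_b2 (e : El Y) (hy : y ∈ Y) (p : P0 y A B A' B') (a : Nm y (A ⊔ A' ⊓ B')) (n : ¬Cm y (A ⊓ B))
    (hb : Yb ≤ Y ⊓ ((A ⊔ B) ⊔ (A' ⊔ B'))) : (A ⊓ B ⊔ (A' ⊔ B')).relIndex Yb ≤ 2 := by
  have c : Cm y Yb := fun u hu => e.comm hy (hb hu).1
  rcases h.jsb_split e hb with b | b
  · exact h.jsb_b2' (e y hy) p a n c b
  · rw [inf_comm] at n ⊢
    exact h.symml.jsb_b2' (e y hy) p.js_symml (h.jsb_nm p a) n c b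

theorem jsb_a {m : ℕ} (hX : X ≤ A ⊓ B) (ha : Ya ≤ X ⊔ A' ⊓ B') (c : Nat.card X ≤ m) : (A' ⊓ B').relIndex Ya ≤ m := by
  refine jsb_idx ha le_sup_right ?_
  rw [h.js_card (hX.trans h.js_zl) h.js_zr, h.r.cZ]
  omega

theorem jsb_a2 (e : El Y) (hy : y ∈ Y) (p : P0 y A B A' B') (n : ¬Cm y (A ⊓ B))
    (ha : Ya ≤ Y ⊓ (A ⊓ B ⊔ A' ⊓ B')) : (A' ⊓ B').relIndex Ya ≤ 2 := by
  refine h.jsb_a (X := A ⊓ B ⊓ centralizer {y}) inf_le_left (fun u hu => ?_) ?_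
  · obtain ⟨z, hz, z', hz', rfl⟩ := (h.js_pair h.js_zl h.js_zr).1 (ha hu).2
    refine mul_mem_sup ⟨hz, mem_centralizer_singleton_iff.2 (comm_of_conj ?_).eq.symm⟩ hz'
    refine (h.js_uniq (h.js_zl (nm_iff_cj.2 p.zl z hz)) (h.js_zr (nm_iff_cj.2 p.zr z' hz')) (h.js_zl hz)
      (h.js_zr hz') ?_).1
    rw [← conj_of_comm (e.comm hy (ha hu).1)]
    group
  · have := jsb_half (inf_le_left : A ⊓ B ⊓ centralizer {y} ≤ _) fun q =>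
      n fun z hz => (mem_centralizer_singleton_iff.1 (q hz).2).symm
    rw [h.l.cZ] at this
    omega

end Tw2

end aux

/-- JSB1: the contribution of the first factor -/
theorem Tw2.loc (h : Tw2 A B A' B') (e : El Y) (p : ∀ y ∈ Y, P0 y A B A' B') (ha : Ya ≤ Y ⊓ (A ⊓ B ⊔ A' ⊓ B'))
    (hb : Yb ≤ Y ⊓ ((A ⊔ B) ⊔ (A' ⊔ B'))) (hc : Yc ≤ Y) :
    (St A B A' B').relIndex Yc * (A ⊓ B ⊔ (A' ⊔ B')).relIndex Yb * (A' ⊓ B').relIndex Ya ≤ 16 ∧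
      (¬Y ≤ St A B A' B' →
        (St A B A' B').relIndex Yc * (A ⊓ B ⊔ (A' ⊔ B')).relIndex Yb * (A' ⊓ B').relIndex Ya ≤ 8) := by
  have c0 : (St A B A' B').relIndex Yc ≤ _ * _ := relIndex_inf_le
  have c1 : (normalizer (A ⊔ A' ⊓ B' : Subgroup G)).relIndex Yc ≤ 2 := jsb_two fun x hx y hy a b => by
    rw [← nm_iff] at a b ⊢
    rw [nm_iff_cj, cj_mul, (h.jsb_sw (p y (hc hy)) b).1, (h.jsb_sw (p x (hc hx)) a).2]
  have c2 : (centralizer (A ⊓ B : Subgroup G)).relIndex Yc ≤ 2 := jsb_two fun x hx y hy a b => by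
    rw [← cm_iff] at a b ⊢
    exact two_act h.l.cZ h.l.elZ e.two (fun g hg => nm_iff_cj.2 (p g hg).zl) (hc hx) (hc hy) a b
  have b4 := h.jsb_b4 e hb
  have a4 := h.jsb_a le_rfl (ha.trans inf_le_right) h.l.cZ.le
  have key : ∀ {c b a k l m : ℕ}, c ≤ k → b ≤ l → a ≤ m → c * b * a ≤ k * l * m := fun h1 h2 h3 =>
    Nat.mul_le_mul (Nat.mul_le_mul h1 h2) h3
  by_cases s : ∀ y ∈ Y, Nm y (A ⊔ A' ⊓ B') <;> by_cases z : ∀ y ∈ Y, Cm y (A ⊓ B)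
  · have q : Y ≤ St A B A' B' := fun y hy => mem_St.2 ⟨s y hy, z y hy⟩
    exact ⟨key (relIndex_eq_one.2 (hc.trans q)).le b4 a4, fun n => (n q).elim⟩
  · push Not at z
    obtain ⟨y, hy, n⟩ := z
    rw [relIndex_eq_one.2 fun y hy => nm_iff.1 (s y (hc hy)), one_mul] at c0
    have := key (c0.trans c2) (h.jsb_b2 e hy (p y hy) (s y hy) n hb) (h.jsb_a2 e hy (p y hy) n ha)
    exact ⟨this.trans (by norm_num), fun _ => this⟩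
  · push Not at s
    obtain ⟨y, hy, n⟩ := s
    rw [relIndex_eq_one.2 fun y hy => cm_iff.1 (z y (hc hy)), mul_one] at c0
    have := key (c0.trans c1) (h.jsb_b1 e hy (p y hy) n hb).le a4
    exact ⟨this.trans (by norm_num), fun _ => this⟩
  · push Not at s z
    obtain ⟨y, hy, n⟩ := s
    obtain ⟨y', hy', n'⟩ := z
    have := key (c0.trans (Nat.mul_le_mul c1 c2)) (h.jsb_b1 e hy (p y hy) n hb).le (h.jsb_a2 e hy' (p y' hy') n' ha)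
    exact ⟨this.trans (by norm_num), fun _ => this⟩

theorem Tw2.jsb_ker (h : Tw2 A B A' B')
    (ker : ∀ n, Two n → Nm n (A ⊔ A') → Nm n (B ⊔ B') → Cm n (A ⊓ B) → Cm n (A' ⊓ B') → n ∈ (A ⊔ B) ⊔ (A' ⊔ B'))
    {y : G} (yy : y * y = 1) (p : P0 y A B A' B') (a : y ∈ St A B A' B') (b : y ∈ St A' B' A B) :
    y ∈ (A ⊔ B) ⊔ (A' ⊔ B') := by
  rw [mem_St] at a b
  have e1 : A ⊔ A' = (A ⊔ A' ⊓ B') ⊔ (A' ⊔ A ⊓ B) :=
    le_antisymm (sup_le_sup le_sup_left le_sup_left) (sup_le (sup_le_sup_left inf_le_left _)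
      (sup_le le_sup_right (inf_le_left.trans le_sup_left)))
  have e2 : B ⊔ B' = (B ⊔ A' ⊓ B') ⊔ (B' ⊔ A ⊓ B) :=
    le_antisymm (sup_le_sup le_sup_left le_sup_left) (sup_le (sup_le_sup_left inf_le_right _)
      (sup_le le_sup_right (inf_le_right.trans le_sup_left)))
  refine ker y ⟨1, by rw [pow_one, pow_two, yy]⟩ ?_ ?_ a.2 b.2
  · rw [e1]
    exact a.1.sup b.1
  · rw [e2]
    exact (h.jsb_nm p a.1).sup (h.flip.jsb_nm p.flip b.1)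

theorem Tw2.jsb_chain (h : Tw2 A B A' B')
    (ker : ∀ n, Two n → Nm n (A ⊔ A') → Nm n (B ⊔ B') → Cm n (A ⊓ B) → Cm n (A' ⊓ B') → n ∈ (A ⊔ B) ⊔ (A' ⊔ B'))
    (e : El Y) (p : ∀ y ∈ Y, P0 y A B A' B') :
    ∃ m k, Nat.card Y = m * k ∧ m ≤ 16 ∧ k ≤ 16 ∧ (¬Y ≤ St A B A' B' → m ≤ 8) ∧ (¬Y ≤ St A' B' A B → k ≤ 8) ∧
      (Y ⊓ St A B A' B' ≤ St A' B' A B → Y ⊓ (A ⊓ B ⊔ (A' ⊔ B')) ≤ A' ⊓ B' ⊔ (A ⊔ B) → Y ⊓ (A' ⊓ B') ≤ A ⊓ B →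
        k = 1) := by
  obtain ⟨Y1, h1⟩ : ∃ Y1, Y1 = Y ⊓ St A B A' B' := ⟨_, rfl⟩
  obtain ⟨Y0, h0⟩ : ∃ Y0, Y0 = Y1 ⊓ St A' B' A B := ⟨_, rfl⟩
  obtain ⟨Y2, h2⟩ : ∃ Y2, Y2 = Y0 ⊓ (A ⊓ B ⊔ (A' ⊔ B')) := ⟨_, rfl⟩
  obtain ⟨Y3, h3⟩ : ∃ Y3, Y3 = Y2 ⊓ (A' ⊓ B' ⊔ (A ⊔ B)) := ⟨_, rfl⟩
  obtain ⟨Y4, h4⟩ : ∃ Y4, Y4 = Y3 ⊓ (A' ⊓ B') := ⟨_, rfl⟩
  have l1 : Y1 ≤ Y := h1.le.trans inf_le_left
  have l0 : Y0 ≤ Y1 := h0.le.trans inf_le_left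
  have l2 : Y2 ≤ Y0 := h2.le.trans inf_le_left
  have l3 : Y3 ≤ Y2 := h3.le.trans inf_le_left
  have l4 : Y4 ≤ Y3 := h4.le.trans inf_le_left
  have u0 : Y0 ≤ (A ⊔ B) ⊔ (A' ⊔ B') := fun y hy =>
    h.jsb_ker ker (e y (l1 (l0 hy))) (p y (l1 (l0 hy))) (h1.le (l0 hy)).2 (h0.le hy).2
  have z3 : Y3 ≤ A ⊓ B ⊔ A' ⊓ B' := fun y hy => by
    obtain ⟨z, hz, w, hw, e1⟩ := (h.js_pair h.js_zl le_rfl).1 (h2.le (l3 hy)).2
    have := (h3.le hy).2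
    rw [sup_comm] at this
    obtain ⟨x, hx, z', hz', e2⟩ := (h.js_pair le_rfl h.js_zr).1 this
    rw [e1, (h.js_uniq (h.js_zl hz) hw hx (h.js_zr hz') (e1.symm.trans e2)).2]
    exact mul_mem_sup hz hz'
  have b5 : Y4 ⊓ (A ⊓ B) = ⊥ := (eq_bot_iff_forall _).2 fun x hx => h.dis x (h.js_zl hx.2) (h.js_zr (h4.le hx.1).2)
  obtain ⟨m1, m2⟩ := h.loc e p (le_inf (l3.trans (l2.trans (l0.trans l1))) z3) (le_inf (l0.trans l1) u0) le_rfl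
  obtain ⟨k1, k2⟩ := h.flip.loc (Ya := Y4) (Yb := Y2) e (fun y hy => (p y hy).flip)
    (le_inf (l4.trans (l3.trans (l2.trans (l0.trans l1)))) ((h4.le.trans inf_le_right).trans le_sup_left))
    (le_inf (l2.trans (l0.trans l1)) (by rw [sup_comm]; exact l2.trans u0)) l1
  refine ⟨_, _, ?_, m1, k1, m2, k2, fun a b c => ?_⟩
  · rw [jsb_card Y (St A B A' B'), ← h1, jsb_card Y1 (St A' B' A B), ← h0, jsb_card Y0 (A ⊓ B ⊔ (A' ⊔ B')), ← h2,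
      jsb_card Y2 (A' ⊓ B' ⊔ (A ⊔ B)), ← h3, jsb_card Y3 (A' ⊓ B'), ← h4, jsb_card Y4 (A ⊓ B), b5, card_bot]
    ring
  · rw [relIndex_eq_one.2 (h1.le.trans a),
      relIndex_eq_one.2 ((le_inf (l2.trans (l0.trans l1)) (h2.le.trans inf_le_right)).trans b),
      relIndex_eq_one.2 ((le_inf (l4.trans (l3.trans (l2.trans (l0.trans l1)))) (h4.le.trans inf_le_right)).trans c)]

/-- JSB2 -/
theorem Tw2.jlem (h : Tw2 A B A' B')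
    (ker : ∀ n, Two n → Nm n (A ⊔ A') → Nm n (B ⊔ B') → Cm n (A ⊓ B) → Cm n (A' ⊓ B') → n ∈ (A ⊔ B) ⊔ (A' ⊔ B'))
    (e : El Y) (hn : ∀ y ∈ Y, Nm y ((A ⊔ B) ⊔ (A' ⊔ B'))) (c : 256 ≤ Nat.card Y) : Y ≤ (A ⊔ B) ⊔ (A' ⊔ B') := by
  by_cases p : ∀ y ∈ Y, P0 y A B A' B'
  · obtain ⟨m, k, e1, m1, k1, m2, k2, -⟩ := h.jsb_chain ker e p
    have a : Y ≤ St A B A' B' := by
      by_contra n
      have := Nat.mul_le_mul (m2 n) k1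
      omega
    have b : Y ≤ St A' B' A B := by
      by_contra n
      have := Nat.mul_le_mul m1 (k2 n)
      omega
    exact fun y hy => h.jsb_ker ker (e y hy) (p y hy) (a hy) (b hy)
  exfalso
  push Not at p
  obtain ⟨s, hs, ns⟩ := p
  obtain ⟨s1, s2, s3⟩ := (h.perm (hn s hs)).resolve_left ns
  obtain ⟨Y1, h1⟩ : ∃ Y1, Y1 = Y ⊓ normalizer (A ⊓ B : Subgroup G) := ⟨_, rfl⟩
  have l1 : Y1 ≤ Y := h1.le.trans inf_le_left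
  have p1 : ∀ y ∈ Y1, P0 y A B A' B' := fun y hy => (h.perm (hn y (l1 hy))).resolve_right fun q =>
    h.js_neZ ((mem_normalizer_iff_cj.1 (h1.le hy).2).symm.trans q.1)
  have c1 : Nat.card Y ≤ 2 * Nat.card Y1 := by
    rw [h1]
    refine card_le_two_mul fun x hx y hy a b => ?_
    rw [mem_normalizer_iff_cj] at a b ⊢
    rw [cj_mul, ((h.perm (hn y hy)).resolve_left fun q => b q.zl).1,
      ((h.perm (hn x hx)).resolve_left fun q => a q.zl).2.1]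
  have cs : ∀ y ∈ Y1, s * y * s⁻¹ = y := fun y hy => conj_of_comm (e.comm hs (l1 hy))
  obtain ⟨m, k, e1, m1, -, -, -, k1⟩ := h.jsb_chain ker (e.mono l1) p1
  rw [k1 (fun y hy => ?_) (fun y hy => ?_) (fun y hy => ?_)] at e1
  · omega
  · obtain ⟨a, b⟩ := mem_St.1 hy.2
    have a' := a.conj s
    have b' := b.conj s
    rw [cs y hy.1] at a' b'
    rw [s1] at b'
    refine mem_St.2 ⟨?_, b'⟩
    rcases s3 with q | q
    · rwa [q.1] at a'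
    · rw [q.1] at a'
      exact h.flip.symml.jsb_nm (p1 y hy.1).flip.js_symml a'
  · have e2 : cj s ((A ⊔ A' ⊓ B') ⊔ (B ⊔ A' ⊓ B')) = A ⊓ B ⊔ (A' ⊔ B') := by
      have : (A' ⊔ A ⊓ B) ⊔ (B' ⊔ A ⊓ B) = A ⊓ B ⊔ (A' ⊔ B') := by rw [← sup_sup_distrib_right, sup_comm]
      rcases s3 with q | q
      · rw [cj_sup, q.1, q.2, this]
      · rw [cj_sup, q.1, q.2, sup_comm, this]
    have := (mem_inf.1 hy).2
    rwa [← e2, ← cs y hy.1, conj_mem_cj, ← sup_sup_distrib_right, sup_comm] at this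
  · rw [← s2, ← cs y hy.1]
    exact conj_mem_cj.2 hy.2

end CfsgLib.StdL
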