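import Mathlib
import Cfsg.Agent.Lib.StdL.JsB
import Cfsg.Agent.Lib.StdL.Inv

/-!
# Standard subgroups of type `M22`: `U₁ × U₂` is weakly closed
-/

set_option autoImplicit false
set_option linter.unusedSectionVars false

namespace CfsgLib.StdL

open Subgroup Cfsg CfsgLib.Tech
open CfsgLib.StdInt hiding cj mem_cj

variable {G : Type*} [Group G] [Finite G] {L E F A B : Subgroup G} {t σ ρ φ : G}

section aux

variable {X P : Subgroup G} {g m x : G}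

/-- weak closure in the normaliser -/
theorem Sp0.jsc_wc (h : Sp0 L E F A B t σ ρ φ) (a : ∀ y ∈ cj g (UU A B t), Nm y (UU A B t)) :
    cj g (UU A B t) = UU A B t := by
  have ker := fun n h2 a b c d => h.ker0 (n := n) h2 a b c d
  refine nm_iff_cj.1 (cj_le_iff.1 ?_)
  rw [h.UU_eq, cj_sup] at a
  conv_lhs => rw [h.UU_eq, cj_sup]
  rw [← h.UU_eq] at a
  exact sup_le (h.tw2.jlem ker (h.elV.cj g) (fun y hy => a y (mem_sup_left hy)) (by rw [card_cj, h.cardV]))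
    (h.tw2.jlem ker (h.symm.elV.cj g) (fun y hy => a y (mem_sup_right hy)) (by rw [card_cj, h.symm.cardV]))

theorem Sp0.jsc_two (h : Sp0 L E F A B t σ ρ φ) (hP : IsPGroup 2 P) (hU : UU A B t ≤ P) :
    ∀ n ∈ P, Nm n (UU A B t) := by
  by_contra n
  have lt : P ⊓ normalizer (UU A B t : Set G) < P :=
    lt_of_le_of_ne inf_le_left fun e => n fun x hx => nm_iff.2 (e.ge hx).2
  obtain ⟨g, hg, g1, g2⟩ := exists_mem_normalizer_of_lt hP lt
  refine g1 ⟨hg, mem_normalizer_iff_cj.2 (h.jsc_wc fun y hy => nm_iff.2 ?_)⟩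
  have := cj_mono g (le_inf hU le_normalizer) hy
  rw [mem_normalizer_iff_cj.1 g2] at this
  exact this.2

theorem Sp.jsc_sep (h : Sp L E F A B t σ ρ φ) (hx : x ∈ A ⊔ B) (xx : x * x = 1) (x1 : x ≠ 1) (g : G) :
    g * x * g⁻¹ ∉ L := fun hg => by
  obtain ⟨z, hz, z1⟩ := h.tri.exZ
  obtain ⟨γ, hγ⟩ : ∃ γ, γ * z * γ⁻¹ = x := by
    rcases h.tri.invol hx xx with a | a
    · obtain ⟨γ, -, e⟩ := h.trA hz.1 z1 a x1
      exact ⟨γ, e⟩
    · obtain ⟨γ, -, e⟩ := h.symm.trA hz.2 z1 a x1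
      exact ⟨γ, e⟩
  have dz : z * (t * z * t⁻¹) ∈ E ⊓ F := h.dZ.2 ⟨z, hz, rfl⟩
  have nz : z * (t * z * t⁻¹) ∉ A ⊓ B := fun q =>
    z1 (h.dis z (mem_sup_left hz.1) (mem_sup_left ((A.mul_mem_cancel_left hz.1).1 q.1)))
  obtain ⟨l, -, e⟩ := h.one _ hg (by
      calc _ = g * (x * x) * g⁻¹ := by group
        _ = 1 := by rw [xx]; group) (fun q => x1 (by
      calc x = g⁻¹ * (g * x * g⁻¹) * g := by group
        _ = 1 := by rw [q]; group)) _ (h.EL dz.1) (h.elE _ dz.1) (fun q => nz (by rw [q]; exact one_mem _))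
  have e' : l * g * γ * z * (l * g * γ)⁻¹ = z * (t * z * t⁻¹) := by rw [← e, ← hγ]; group
  obtain ⟨T, hT, UT⟩ := exists_isSylowIn_ge (H := ⊤) h.two_UU le_top
  obtain ⟨k, -, k1, k2⟩ := WD.wc_conj hT UT
    (fun g _ a => h.jsc_wc fun y hy => h.jsc_two hT.pgroup UT y (a hy)) (d := z) (mem_top (l * g * γ))
    (fun u hu => (h.tw2.js_cen hz u hu).eq) (fun u hu => by
      rw [e']
      exact (h.tw2.js_cen' (mul_mem_sup hz ⟨conj_mem_cj.2 hz.1, conj_mem_cj.2 hz.2⟩) u hu).eq)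
  rw [e'] at k2
  rcases h.perm0 (nm_iff.2 k1) with p | p
  · exact nz (by rw [← k2]; exact nm_iff_cj.2 p.zl z hz)
  · have := nm_iff_cj.2 p.zl z hz
    rw [show t * k * z * (t * k)⁻¹ = t * (k * z * k⁻¹) * t⁻¹ by group, k2, conj_of_comm (h.cL _ (h.EL dz.1))] at this
    exact nz this

theorem Sp.jsc_up (h : Sp L E F A B t σ ρ φ) (hX : X ≤ A ⊔ B) (e : El X) (c : Nat.card X = 16)
    (a : cj m (X ⊔ cj t A ⊓ cj t B) = A ⊔ cj t A ⊓ cj t B) (z : cj m (cj t A ⊓ cj t B) = cj t A ⊓ cj t B) :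
    cj m X = A := by
  refine eq_of_le_of_card_ge (cj_le_iff.2 fun u hu => ?_) (by rw [card_cj, c, h.tri.cE])
  by_cases u1 : u = 1
  · rw [u1, mul_one, mul_inv_cancel]
    exact one_mem _
  have hm : m * u * m⁻¹ ∈ A ⊔ cj t A ⊓ cj t B := by rw [← a]; exact conj_mem_cj.2 (mem_sup_left hu)
  obtain ⟨x, hx, w, hw, e1⟩ := (h.tw2.js_pair le_sup_left h.tw2.js_zr).1 hm
  by_cases w1 : w = 1
  · rw [e1, w1, mul_one]
    exact hx
  exfalso
  by_cases x1 : x = 1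
  · rw [x1, one_mul] at e1
    rw [← e1, ← z, conj_mem_cj] at hw
    exact u1 (h.tw2.dis u (hX hu) (h.tw2.js_zr hw))
  obtain ⟨y, hy, rfl⟩ := h.mem_cj'.1 hw.1
  obtain ⟨k, -, hk⟩ := h.mixV hx x1 hy fun q => w1 (by rw [q]; group)
  refine h.jsc_sep (hX hu) (e u hu) u1 (k * m) ?_
  rw [show k * m * u * (k * m)⁻¹ = k * (m * u * m⁻¹) * k⁻¹ by group, e1]
  exact h.EL hk

theorem Sp.jsc_sw (h : Sp L E F A B t σ ρ φ) (p : P0 m A B (cj t A) (cj t B)) : Sw m A B := by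
  have z := p.zr
  have z' := z
  rw [inf_comm] at z'
  rcases p.l with a | a
  · refine Or.inl ⟨h.jsc_up le_sup_left h.tri.elE h.tri.cE a.1 z, ?_⟩
    exact h.symm.jsc_up le_sup_left h.tri.elF h.tri.cF (by rw [inf_comm]; exact a.2) z'
  · refine Or.inr ⟨?_, h.jsc_up le_sup_right h.tri.elF h.tri.cF a.2 z⟩
    exact h.symm.jsc_up le_sup_right h.tri.elE h.tri.cE (by rw [inf_comm]; exact a.1) z'

theorem Sp.jsc_sw2 (h : Sp L E F A B t σ ρ φ) (p : P0 m A B (cj t A) (cj t B)) :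
    Sw m A B ∧ Sw m (cj t A) (cj t B) :=
  ⟨h.jsc_sw p, h.flip.jsc_sw (by rw [cj_cj_sq h.tt, cj_cj_sq h.tt]; exact p.flip)⟩

end aux

/-- JSC -/
theorem Sp.js (h : Sp L E F A B t σ ρ φ) : Js L E F A B t σ ρ φ where
  toSp := h
  two_le _ hP hU := h.jsc_two hP hU
  ker _ h2 a b a' b' c d := h.ker0 h2 (a.sup a') (b.sup b') c d
  sep _ hx xx x1 := h.jsc_sep hx xx x1
  perm _ hn := (h.perm0 hn).imp h.jsc_sw2 h.jsc_sw2

end CfsgLib.StdL
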