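import Mathlib
import Cfsg.Agent.Lib.StdL.Cc
import Cfsg.Agent.Lib.PD.ToolsA

/-!
# Standard subgroups of type `M22`: the Sylow 2-subgroup of the socle
-/

set_option autoImplicit false
set_option linter.unusedSectionVars false

namespace CfsgLib.StdL

open Subgroup Cfsg CfsgLib.Tech
open CfsgLib.StdInt hiding cj mem_cj

variable {G : Type*} [Group G] [Finite G] {L E F A B S R : Subgroup G} {t σ ρ φ p n r v x y : G}

/-- Thompson's transfer lemma for a cyclic quotient of a Sylow subgroup of `X` -/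
theorem thomc {X S0 : Subgroup G} (hX : ∀ M : Subgroup X, M.index ≠ 2) (hS : IsSylowIn 2 S X) (le : S0 ≤ S)
    (hn : ∀ s ∈ S, Nm s S0) (hr : r ∈ S) (hc : S ≤ S0 ⊔ zpowers r) (hv : v ∈ X) (vv : v * v = 1) :
    ∃ g, g * v * g⁻¹ ∈ S0 := by
  by_cases v1 : v = 1
  · exact ⟨1, by simp [v1]⟩
  obtain ⟨g, hg⟩ := PD.ToolsA.thompson_cyclic hX (S := S.subgroupOf X) (S₀ := S0.subgroupOf X)
    (BG.isSylowOf_top Nat.prime_two hS.toSylow) ⟨fun x hx => le hx, fun s hs => nm_iff.1 fun x hx => hn s hs x hx⟩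
    (p := ⟨r, hS.le hr⟩) hr (fun x hx => by
      have := hc hx
      rwa [← inf_eq_left.2 (le.trans hS.le), ← subgroupOf_map_subtype,
        show zpowers r = (zpowers (⟨r, hS.le hr⟩ : X)).map X.subtype by rw [MonoidHom.map_zpowers]; rfl,
        ← Subgroup.map_sup, mem_map_iff_mem X.subtype_injective] at this)
    (u := ⟨v, hv⟩) (by rw [← Subgroup.orderOf_coe]; exact orderOf_two_of_mul_self vv v1)
  exact ⟨g, hg⟩

theorem Sw.inv (a : Sw x A B) : Sw x⁻¹ A B := by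
  rcases a with ⟨a, b⟩ | ⟨a, b⟩
  · exact Or.inl ⟨by conv_lhs => rw [← a, cj_inv_cj], by conv_lhs => rw [← b, cj_inv_cj]⟩
  · exact Or.inr ⟨by conv_lhs => rw [← b, cj_inv_cj], by conv_lhs => rw [← a, cj_inv_cj]⟩

/-- `n` does not interchange the factors -/
def Sw2 (A B : Subgroup G) (t n : G) : Prop := Sw n A B ∧ Sw n (cj t A) (cj t B)

theorem Sw2.mul (a : Sw2 A B t x) (b : Sw2 A B t y) : Sw2 A B t (x * y) := ⟨a.1.mul b.1, a.2.mul b.2⟩

theorem Sw2.inv (a : Sw2 A B t x) : Sw2 A B t x⁻¹ := ⟨a.1.inv, a.2.inv⟩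

theorem Sw2.conj (tt : t * t = 1) (a : Sw2 A B t x) : Sw2 A B t (t * x * t⁻¹) :=
  ⟨by simpa only [cj_cj_sq tt] using a.2.conj t, a.1.conj t⟩

theorem cj_conj_iff {H : Subgroup G} : cj (t * n * t⁻¹) (cj t H) = cj t H ↔ cj n H = H := by
  rw [← cj_mul, inv_mul_cancel_right, cj_mul]
  exact ⟨cj_injective t, congrArg _⟩

theorem cj_conj_iff' (tt : t * t = 1) {H : Subgroup G} : cj (t * n * t⁻¹) H = H ↔ cj n (cj t H) = cj t H := by
  rw [← cj_conj_iff (t := t) (H := cj t H), cj_cj_sq tt]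

theorem out_logic {a b c d u v : Prop} (k1 : c → ¬d) (k2 : (a ↔ c) → ¬(b ↔ d)) (k3 : (b ↔ c) → ¬(a ↔ d))
    (k4 : ((a ↔ b) ↔ c) → ¬((b ↔ a) ↔ d)) (k5 : a → b → u) (k6 : (a ↔ (d ↔ c)) → (b ↔ (c ↔ d)) → v) : u ∨ v := by
  by_cases a <;> by_cases b <;> by_cases c <;> by_cases d <;> simp_all

namespace Pd

variable (h : Pd L E F A B t σ ρ φ p)
include h

theorem tmt (x y : G) : t * (t * x) * t⁻¹ * (t * y) = x * y := by
  rw [← mul_assoc t t, h.tt]; group

theorem par2 (a : Nm x (UU A B t)) (b : Nm y (UU A B t)) :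
    Sw2 A B t (x * y) ↔ (Sw2 A B t x ↔ Sw2 A B t y) := by
  refine ⟨fun c => ⟨fun d => by simpa using d.inv.mul c, fun d => by simpa using c.mul d.inv⟩, fun c => ?_⟩
  by_cases d : Sw2 A B t x
  · exact d.mul (c.1 d)
  · exact h.tmt x y ▸ (Sw2.conj h.tt ((h.perm x a).resolve_left d)).mul
      ((h.perm y b).resolve_left fun e => d (c.2 e))

theorem t_not_X (hX : ∀ M : Subgroup (normalClosure (L : Set G)), M.index ≠ 2) :
    t ∉ normalClosure (L : Set G) := fun ht => by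
  obtain ⟨S, hS, le⟩ := exists_isSylowIn_ge (two_sup_nm h.two_SS (isPGroup_two_zpowers h.tt) (by
    rintro _ ⟨i, rfl⟩
    exact nm_iff.2 (zpow_mem (nm_iff.1 h.t_SS.2) i))) (sup_le h.SS_le (zpowers_le.2 ht))
  have nU := h.two_le S hS.pgroup (h.UU_le.trans (le_sup_left.trans le))
  obtain ⟨g, -, -, g2, -⟩ := thom hX hS (Sw2 A B t) (fun x hx y hy => h.par2 (nU x hx) (nU y hy))
    (le (mem_sup_right (mem_zpowers t))) (fun e => h.toJs.swp (IsConj.refl t) e.1) ht h.tt (R := ⊥)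
    IsPGroup.of_bot bot_le bot_le
  exact h.toJs.swp (isConj_iff.2 ⟨g, rfl⟩) g2.1

theorem outer (tX : t ∉ normalClosure (L : Set G)) (hR : IsPGroup 2 R) (le : SS A B t p ≤ R) (tR : t ∈ R)
    (hx : x ∈ R) (xX : x ∈ normalClosure (L : Set G)) (x0 : x ∉ SS A B t p) (c : Commute x t) :
    ∃ v ∈ R ⊓ normalClosure (L : Set G), v * v = 1 ∧ Commute v t ∧ ∀ g, g * v * g⁻¹ ∉ SS A B t p := by
  have LX : L ≤ normalClosure (L : Set G) := le_normalClosure
  have RL : R ⊓ L = TT E F φ :=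
    h.sylow.eq_of_le (hR.to_le inf_le_left) (le_inf (h.T_le.trans le) h.TL) inf_le_right
  have o : ¬In L x := fun i => (h.two x c (two_of_mem hR hx) i).elim (fun k => x0 (h.T_le (RL ▸ mem_inf.2 ⟨hx, k⟩)))
    fun k => tX ((mul_mem_cancel_right xX).1 (LX k))
  obtain ⟨l, hl, c1⟩ := h.lift x c o
  obtain ⟨_, ⟨j, rfl⟩, h2⟩ := exists_odd_two (x * l)
  have vt : Commute ((x * l) ^ (2 * j + 1)) t := (c.mul_left (h.cL l hl).symm).pow_left _
  have vX : (x * l) ^ (2 * j + 1) ∈ normalClosure (L : Set G) := pow_mem (mul_mem xX (LX hl)) _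
  have o' : ¬In L ((x * l) ^ (2 * j + 1)) := fun ⟨m, hm, c2⟩ => o ⟨l * m, mul_mem hl hm, by
    have := (c1.pow j).inv.mul c2
    rwa [← sq, ← pow_mul, pow_succ, mul_assoc, inv_mul_cancel_left, mul_assoc] at this⟩
  have c2 : Cm ((x * l) ^ (2 * j + 1) * (x * l) ^ (2 * j + 1)) L := by
    rw [← (Commute.refl _).mul_pow]
    exact c1.pow _
  generalize (x * l) ^ (2 * j + 1) = v at h2 vt vX o' c2
  have h3 : Two (v * v) := sq v ▸ Two.pow h2 2
  have vv : v * v = 1 := (h.two _ (vt.mul_left vt) h3 ⟨1, one_mem _, by rwa [mul_one]⟩).elim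
    (fun k => eq_one_of_odd_two (h.zodd _ k c2) h3) fun k =>
      absurd ((mul_mem_cancel_right (mul_mem vX vX)).1 (LX k)) tX
  obtain ⟨g, hg, g1⟩ := (h.sylC c (two_of_mem hR hx) o (RL ▸ (Nm.of_mem hx).inf (h.nL x c))).exists_conj_mem
    (mem_centralizer_singleton_iff.2 vt) (isPGroup_two_zpowers vv)
  replace hg : Commute g t := mem_centralizer_singleton_iff.1 hg
  refine ⟨g * v * g⁻¹, mem_inf.2 ⟨sup_le (sup_le (h.T_le.trans le) (zpowers_le.2 tR)) (zpowers_le.2 hx) g1,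
    normalClosure_normal.conj_mem v vX g⟩, by rw [conj_mul, vv]; group, (hg.mul_left vt).mul_left hg.inv_left,
    fun k => ?_⟩
  rw [show k * (g * v * g⁻¹) * k⁻¹ = k * g * v * (k * g)⁻¹ by group]
  exact h.nv vt vv o' _

theorem s00' (hR : IsPGroup 2 R) (le : SS A B t p ≤ R) (hn : n ∈ R) (s : Sw2 A B t n) (a : cj n A = A)
    (b : cj n (cj t A) = cj t A) : n ∈ SS A B t p :=
  h.s00 hR le hn (nm_iff_cj.2 a) (nm_iff_cj.2 (s.1.pos h.tri.ne a)) (nm_iff_cj.2 b)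
    (nm_iff_cj.2 (s.2.pos h.triPT2.ne b))

end Pd

/-- OUT -/
theorem Pd.out (h : Pd L E F A B t σ ρ φ p) (hX : ∀ M : Subgroup (normalClosure (L : Set G)), M.index ≠ 2) :
    IsSylowIn 2 (SS A B t p) (normalClosure (L : Set G)) := by
  have tX := h.t_not_X hX
  obtain ⟨R, hR⟩ := IsPGroup.exists_le_sylow (two_sup_nm h.two_SS (isPGroup_two_zpowers h.tt) (by
    rintro _ ⟨i, rfl⟩
    exact nm_iff.2 (zpow_mem (nm_iff.1 h.t_SS.2) i)))
  have hS := sylow_inf_normal R (normalClosure (L : Set G))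
  have R2 := R.isPGroup'
  have le : SS A B t p ≤ R := le_sup_left.trans hR
  have tR : t ∈ (R : Subgroup G) := hR (mem_sup_right (mem_zpowers t))
  generalize (R : Subgroup G) = R at hS R2 le tR
  have le' : SS A B t p ≤ R ⊓ normalClosure (L : Set G) := le_inf le h.SS_le
  have nt : Nm t (R ⊓ normalClosure (L : Set G)) :=
    (Nm.of_mem tR).inf fun x hx => normalClosure_normal.conj_mem x hx t
  by_cases e : R ⊓ normalClosure (L : Set G) ≤ SS A B t p
  · rwa [le_antisymm e le'] at hS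
  obtain ⟨x, hx, x0, c⟩ := climb h.tt h.comT (fun x => h.disT) h.t_SS.1 hS.pgroup nt le' e
  obtain ⟨v, hv, vv, vt, nv⟩ := h.outer tX R2 le tR (mem_inf.1 hx).1 (mem_inf.1 hx).2 x0 c
  have nU := h.two_le R R2 (h.UU_le.trans le)
  exfalso
  by_cases sw : ∀ n ∈ R ⊓ normalClosure (L : Set G), Sw2 A B t n
  · have k : ∀ n ∈ R ⊓ normalClosure (L : Set G), cj n A = A → n ∈ SS A B t p := fun n hn a =>
      h.s00' R2 le (mem_inf.1 hn).1 (sw n hn) a (by
        by_contra b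
        exact h.cc hX hS le' nt sw hv vv vt nv hn a ((sw n hn).2.neg b).1)
    obtain ⟨g, -, g1, g2, -⟩ := thom hX hS (fun n => cj n A = A)
      (fun x hx y hy => (sw x hx).1.par h.tri.ne (sw y hy).1) hx (fun a => x0 (k x hx a)) (hS.le hv) vv (R := ⊥)
      IsPGroup.of_bot bot_le bot_le
    exact nv g (k _ g1 g2)
  push Not at sw
  obtain ⟨r, hr, r1⟩ := sw
  have rR := (mem_inf.1 hr).1
  have r2 : Sw2 A B t (t * r) := (h.perm r (nU r rR)).resolve_left r1
  have pa : ∀ {x y}, Sw2 A B t x → Sw2 A B t y → (cj (x * y) A = A ↔ (cj x A = A ↔ cj y A = A)) ∧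
      (cj (x * y) (cj t A) = cj t A ↔ (cj x (cj t A) = cj t A ↔ cj y (cj t A) = cj t A)) := fun a b =>
    ⟨a.1.par h.tri.ne b.1, a.2.par h.triPT2.ne b.2⟩
  have key : ∀ n ∈ R ⊓ normalClosure (L : Set G), Sw2 A B t n → (cj n A = A ↔ cj (t * r) A = A) →
      ¬(cj n (cj t A) = cj t A ↔ cj (t * r) (cj t A) = cj t A) := fun n hn s a b => by
    have := h.SS_le (h.s00' R2 le (mul_mem (mem_inf.1 hn).1 (mul_mem tR rR)) (s.mul r2) ((pa s r2).1.2 a)
      ((pa s r2).2.2 b))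
    rw [mul_mem_cancel_left (mem_inf.1 hn).2, mul_mem_cancel_right (mem_inf.1 hr).2] at this
    exact tX this
  have k : ∀ n ∈ R ⊓ normalClosure (L : Set G), Sw2 A B t n → n ∈ SS A B t p ⊔ zpowers r := fun n hn s => by
    have s' := s.conj h.tt
    have r3 := r2.conj h.tt
    have k1 := key 1 (one_mem _) ⟨Or.inl ⟨cj_one _, cj_one _⟩, Or.inl ⟨cj_one _, cj_one _⟩⟩
    have k2 := key n hn s
    have k3 := key _ (nt n hn) s'
    have k4 := key _ (mul_mem hn (nt n hn)) (s.mul s')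
    have k5 := h.s00' R2 le (mem_inf.1 hn).1 s
    have k6 := h.s00' R2 le (mul_mem (mem_inf.1 hn).1 (mul_mem (Nm.of_mem tR _ (mul_mem tR rR)) (mul_mem tR rR)))
      (s.mul (r3.mul r2))
    rw [(pa s s').1, (pa s s').2] at k4
    rw [(pa s (r3.mul r2)).1, (pa s (r3.mul r2)).2, (pa r3 r2).1, (pa r3 r2).2, h.tmt] at k6
    rw [cj_conj_iff, cj_conj_iff' h.tt] at k3 k4 k6
    have k7 := out_logic (fun a b => k1 (iff_of_true (cj_one _) a) (iff_of_true (cj_one _) b)) k2 k3 k4 k5 k6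
    have hr' : r ∈ SS A B t p ⊔ zpowers r := mem_sup_right (mem_zpowers r)
    exact k7.elim mem_sup_left fun m => (mul_mem_cancel_right (mul_mem hr' hr')).1 (mem_sup_left m)
  obtain ⟨g, hg⟩ := thomc hX hS le' (fun s hs => by
    have sR := (mem_inf.1 hs).1
    rcases h.perm s (nU s sR) with a | a
    · exact h.nS R2 le sR a.1 a.2
    · simpa using h.t_SS.2.inv.mul (h.nS R2 le (mul_mem tR sR) a.1 a.2)) hr (fun n hn => by
    by_cases s : Sw2 A B t n
    · exact k n hn s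
    · exact (mul_mem_cancel_right (mem_sup_right (mem_zpowers r))).1 (k _ (mul_mem hn hr)
        ((h.par2 (nU n (mem_inf.1 hn).1) (nU r rR)).2 (iff_of_false s r1)))) (hS.le hv) vv
  exact nv g hg

end CfsgLib.StdL
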