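import Mathlib
import Cfsg.Agent.Lib.StdL.Inv
import Cfsg.Agent.Lib.Coprime.Generation
import Cfsg.Agent.Lib.W2.Tools

/-!
# Standard subgroups of type `M22`: the double of the parabolic
-/

set_option autoImplicit false
set_option linter.unusedSectionVars false

namespace CfsgLib.StdL

open Subgroup Cfsg CfsgLib.Tech
open CfsgLib.StdInt hiding cj mem_cj
open scoped commutatorElement

variable {G : Type*} [Group G] [Finite G] {L E F A B A' O M X : Subgroup G} {t σ ρ φ a g m x γ : G}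

theorem nm_odd {V : Subgroup G} (hO : ∀ o, o ∈ O ↔ Cm o V ∧ Odd (orderOf o)) (n : Nm g V) : Nm g O :=
  fun o ho => (hO _).2 ⟨((hO o).1 ho).1.conj_nm n, odd_conj g ((hO o).1 ho).2⟩

theorem Fpf.le (f : Fpf g A) (e : El A) (n : Nm g A) (k : ∀ y ∈ A, g * y * g⁻¹ * y⁻¹ ∈ M) : A ≤ M := fun x hx => by
  obtain ⟨y, hy, rfl⟩ := f.onto e n hx
  have := k y hy
  rwa [e.inv hy] at this

/-- PAR1 -/
theorem Sp.exists_odd (h : Sp L E F A B t σ ρ φ) : ∃ O : Subgroup G,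
    (∀ o, o ∈ O ↔ Cm o (A ⊔ cj t A) ∧ Odd (orderOf o)) ∧ (∀ x, Cm x (A ⊔ cj t A) → ∃ v ∈ A ⊔ cj t A, ∃ o ∈ O, x = v * o) ∧
      ∀ o ∈ O, Cm o (UU A B t) := by
  obtain ⟨O, hO, h2⟩ := WD.cs2 (X := centralizer ((A ⊔ cj t A : Subgroup G) : Set G)) (Z := A ⊔ cj t A)
    (fun x hx => cm_iff.1 fun y hy => h.elV.comm hx hy) h.elV.two (fun x hx z hz => cm_iff.2 hx z hz)
    fun x hx h2 => h.two_V h2 (cm_iff.2 hx)
  simp only [← cm_iff] at hO h2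
  refine ⟨O, hO, h2, ?_⟩
  have nU : ∀ g ∈ UU A B t, Nm g O := fun g hg => nm_odd hO ((h.nmV hg).1.sup (h.nmV hg).2.2.1)
  have nt : Nm t O := nm_odd hO h.t_nm
  have th : ∀ o ∈ O, Commute o t → Th L t o := fun o ho c => h.oddE c ((hO o).1 ho).2 (((hO o).1 ho).1.mono h.EV)
  have cF : ∀ f ∈ F, Cm f O := fun f hf o ho => by
    by_cases f1 : f = 1
    · simp [f1]
    obtain ⟨b, hb, e⟩ := (h.dF f).1 hf
    have bU : b ∈ A ⊔ B := mem_sup_right hb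
    refine (mem_centralizer_singleton_iff.1 (W2.le_of_four (D := O) (M := centralizer {f}) (by
      by_contra k
      obtain ⟨r, hr, r2, r1⟩ := exists_invol k
      exact r1 (eq_one_of_odd_sq ((hO r).1 hr).2 r2)) (orderOf_two_of_mul_self h.tt h.t1)
      (orderOf_two_of_mul_self (h.elF f hf) f1) (fun k => h.tL (k ▸ h.FL hf)) (h.cL f (h.FL hf)) (nm_iff.1 nt)
      (nm_iff.1 (nU f (h.UUU (mem_sup_right hf)))) (fun x hx => ?_) inf_le_right (fun x hx => ?_) ho)).symm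
    · exact mem_centralizer_singleton_iff.2 ((th x hx.1 (mem_centralizer_singleton_iff.1 hx.2)).2.2 f (h.FL hf))
    · have c : Commute x (b * t * b⁻¹) := by
        rw [h.toSp0.symm.conj_t hb, ← e]
        exact mem_centralizer_singleton_iff.1 hx.2
      have k := th _ ((nU b (mem_sup_left bU)).inv x hx.1) (by rw [inv_inv]; exact comm_conj.1 c)
      have e1 : b⁻¹ * x * b⁻¹⁻¹ = x := by
        rw [← conj_of_comm (h.th _ k b bU).symm]; group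
      exact mem_centralizer_singleton_iff.2 ((e1 ▸ k).2.2 f (h.FL hf))
  obtain ⟨d, hd, -, nB, -, fB⟩ := h.del
  have cd : Cm d O := PP_cm (fun a ha n => nm_odd hO (h.nE a (h.cL a ha).symm n)) (fun u hu o ho =>
    ((Cm.sup (((hO o).1 ho).1.mono h.EV) fun f hf => (cF f hf o ho).symm) u hu).symm) hd
  have cB : B ≤ centralizer (O : Set G) := fB.le h.tri.elF nB fun y hy => cm_iff.1 (by
    rw [show d * y * d⁻¹ * y⁻¹ = d * (y * d⁻¹ * y⁻¹) by group]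
    exact cd.mul (cd.inv.conj_nm (nU y (mem_sup_left (mem_sup_right hy)))))
  have cB' : ∀ o ∈ O, Cm o B := fun o ho b hb => (cm_iff.2 (cB hb) o ho).symm
  intro o ho
  rw [h.UU_eq]
  refine ((hO o).1 ho).1.sup ((cB' o ho).sup ?_)
  simpa [mul_assoc] using (cB' _ (nt.inv o ho)).conj t

/-- the elements normalising `A` and centralising `A'` and `O` -/
def Gm (A A' O : Subgroup G) : Subgroup G :=
  normalizer (A : Set G) ⊓ centralizer (A' : Set G) ⊓ centralizer (O : Set G)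

theorem mem_Gm : γ ∈ Gm A A' O ↔ Nm γ A ∧ Cm γ A' ∧ Cm γ O := by
  simp only [Gm, mem_inf, nm_iff, cm_iff, and_assoc]

theorem Gm_key (e : El A') (c : ∀ x ∈ A, ∀ y ∈ A', Commute x y) (cO : ∀ o ∈ O, Cm o A')
    (d : ∀ x, Cm x (A ⊔ A') → ∃ v ∈ A ⊔ A', ∃ o ∈ O, x = v * o) (hx : x ∈ Gm A' A O)
    (hm : m ∈ ⁅Gm A A' O, Gm A A' O⁆) : x * m * x⁻¹ * m⁻¹ ∈ A ⊔ O := by
  have nN : ∀ γ ∈ Gm A A' O, Nm γ (A ⊔ O) := fun γ hγ => (mem_Gm.1 hγ).1.sup (mem_Gm.1 hγ).2.2.nm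
  obtain ⟨x1, x2, -⟩ := mem_Gm.1 hx
  have k : ∀ γ ∈ Gm A A' O, ∃ n ∈ A ⊔ O, ∃ c ∈ A', Cm (n * γ) A' ∧ x * γ * x⁻¹ = n * γ * c := fun γ hγ => by
    obtain ⟨g1, g2, -⟩ := mem_Gm.1 hγ
    obtain ⟨v, hv, o, ho, e1⟩ := d (x * γ * x⁻¹ * γ⁻¹) (Cm.sup (by
      rw [show x * γ * x⁻¹ * γ⁻¹ = x * (γ * x⁻¹ * γ⁻¹) by group]
      exact x2.mul (x2.inv.conj_nm g1)) ((g2.conj_nm x1).mul g2.inv))
    obtain ⟨a, ha, b, hb, rfl⟩ := (mem_sup_comm c).1 hv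
    refine ⟨a * o, mul_mem_sup ha ho, b, hb, (Cm.mul (c a ha) (cO o ho)).mul g2, ?_⟩
    rw [mul_inv_eq_iff_eq_mul.1 e1, mul_assoc a b, ← (cO o ho b hb).eq, mul_assoc (a * o), (g2 b hb).eq]
    group
  let K : Subgroup G :=
    { carrier := {m | m ∈ Gm A A' O ∧ x * m * x⁻¹ * m⁻¹ ∈ A ⊔ O}
      mul_mem' := fun {a b} ha hb => ⟨mul_mem ha.1 hb.1, by
        rw [show x * (a * b) * x⁻¹ * (a * b)⁻¹ = x * a * x⁻¹ * a⁻¹ * (a * (x * b * x⁻¹ * b⁻¹) * a⁻¹) by group]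
        exact mul_mem ha.2 (nN a ha.1 _ hb.2)⟩
      one_mem' := ⟨one_mem _, by simp⟩
      inv_mem' := fun {a} ha => ⟨inv_mem ha.1, by
        rw [show x * a⁻¹ * x⁻¹ * a⁻¹⁻¹ = a⁻¹ * (x * a * x⁻¹ * a⁻¹)⁻¹ * a⁻¹⁻¹ by group]
        exact nN _ (inv_mem ha.1) _ (inv_mem ha.2)⟩ }
  refine (commutator_le.2 (fun γ hγ δ hδ => ?_) hm : m ∈ K).2
  have hk := mul_mem (mul_mem (mul_mem hγ hδ) (inv_mem hγ)) (inv_mem hδ)
  refine ⟨hk, ?_⟩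
  obtain ⟨n, hn, c, hc, c1, e1⟩ := k γ hγ
  obtain ⟨n', hn', c', hc', c2, e2⟩ := k δ hδ
  have e3 : x * ⁅γ, δ⁆ * x⁻¹ = n * γ * (n' * δ) * (n * γ)⁻¹ * (n' * δ)⁻¹ := by
    calc _ = x * γ * x⁻¹ * (x * δ * x⁻¹) * (x * γ * x⁻¹)⁻¹ * (x * δ * x⁻¹)⁻¹ := by
          rw [commutatorElement_def]; group
      _ = n * γ * (c * (n' * δ * c') * c⁻¹) * (n * γ)⁻¹ * (n' * δ * c')⁻¹ := by rw [e1, e2]; group
      _ = n * γ * (n' * δ) * (c' * (n * γ)⁻¹ * c'⁻¹) * (n' * δ)⁻¹ := by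
          rw [conj_of_comm ((c2 c hc).symm.mul_right (e.comm hc hc'))]; group
      _ = _ := by rw [conj_of_comm (c1 c' hc').symm.inv_right]
  rw [e3, commutatorElement_def, show n * γ * (n' * δ) * (n * γ)⁻¹ * (n' * δ)⁻¹ * (γ * δ * γ⁻¹ * δ⁻¹)⁻¹ =
    n * (γ * n' * γ⁻¹) * (γ * δ * γ⁻¹ * n⁻¹ * (γ * δ * γ⁻¹)⁻¹) *
      (γ * δ * γ⁻¹ * δ⁻¹ * n'⁻¹ * (γ * δ * γ⁻¹ * δ⁻¹)⁻¹) by group]
  exact mul_mem (mul_mem (mul_mem hn (nN γ hγ _ hn'))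
    (nN _ (mul_mem (mul_mem hγ hδ) (inv_mem hγ)) _ (inv_mem hn))) (nN _ hk _ (inv_mem hn'))

theorem Nm.comm (n : Nm a M) : Nm a ⁅M, M⁆ := by
  rw [nm_iff_cj] at n ⊢
  rw [cj_commutator, n]

theorem PP_le' (h1 : ∀ a ∈ L, Nm a E → Nm a M) (h2 : X ≤ M) : PP L E X ≤ M :=
  (closure_le _).2 (by
    rintro _ ⟨a, ha, n, u, hu, rfl⟩
    exact h1 a ha n u (h2 hu))

theorem Sp.pe_com (h : Sp L E F A B t σ ρ φ) : ∀ γ ∈ PP L E (A ⊔ B), ∀ δ ∈ PP L E (A ⊔ B),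
    Commute γ (t * δ * t⁻¹) := by
  obtain ⟨O, hO, dO, cO⟩ := h.exists_odd
  have cV : ∀ o ∈ O, Cm o (A ⊔ cj t A) := fun o ho => ((hO o).1 ho).1
  have c12 : ∀ x ∈ A ⊔ B, ∀ y ∈ cj t A, Commute x y := by
    rintro x hx _ ⟨y, hy, rfl⟩
    exact h.com' x hx y (mem_sup_left hy)
  have c12' : ∀ x ∈ A, ∀ y ∈ cj t A, Commute x y := fun x hx => c12 x (mem_sup_left hx)
  have k1 : ∀ {x m}, x ∈ Gm (cj t A) A O → m ∈ ⁅Gm A (cj t A) O, Gm A (cj t A) O⁆ → x * m * x⁻¹ * m⁻¹ ∈ A ⊔ O :=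
    Gm_key (h.tri.elE.cj t) c12' (fun o ho => (cV o ho).mono le_sup_right) dO
  have k2 : ∀ {x m}, x ∈ Gm A (cj t A) O → m ∈ ⁅Gm (cj t A) A O, Gm (cj t A) A O⁆ →
      x * m * x⁻¹ * m⁻¹ ∈ cj t A ⊔ O := Gm_key h.tri.elE (fun x hx y hy => (c12' y hy x hx).symm)
    (fun o ho => (cV o ho).mono le_sup_left) (by rwa [sup_comm])
  have tΓ : cj t (Gm A (cj t A) O) ≤ Gm (cj t A) A O := cj_le_iff.2 fun γ hγ => by
    obtain ⟨g1, g2, g3⟩ := mem_Gm.1 hγ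
    exact mem_Gm.2 ⟨g1.conj t, cj_cj_sq h.tt A ▸ g2.conj t, g3.conj_nm (nm_odd hO h.t_nm)⟩
  have dj : ∀ x ∈ A ⊔ O, x ∈ cj t A ⊔ O → x ∈ O := fun x h1 h2 => by
    obtain ⟨a, ha, o, ho, rfl⟩ := (mem_sup_comm fun x hx o ho => (cV o ho x (mem_sup_left hx)).symm).1 h1
    obtain ⟨_, ⟨b, hb, rfl⟩, o', ho', e⟩ := (mem_sup_comm fun x hx o ho => (cV o ho x (mem_sup_right hx)).symm).1 h2
    replace e : a * o = t * b * t⁻¹ * o' := e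
    have e1 : (t * b * t⁻¹)⁻¹ * a = o' * o⁻¹ := by rw [eq_mul_inv_of_mul_eq e]; group
    have e2 := eq_one_of_odd_sq (e1 ▸ ((hO _).1 (mul_mem ho' (inv_mem ho))).2)
      (h.elV _ (mul_mem (inv_mem (mem_sup_right (conj_mem_cj.2 hb))) (mem_sup_left ha)))
    rw [inv_mul_eq_one] at e2
    rw [← e2, h.dis b (mem_sup_left hb) (e2 ▸ mem_sup_left ha)]
    simpa using ho
  have nΓ : ∀ a ∈ L, Nm a E → Nm a (Gm A (cj t A) O) := fun a ha n γ hγ => by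
    obtain ⟨g1, g2, g3⟩ := mem_Gm.1 hγ
    have n1 := h.nA ha n
    exact mem_Gm.2 ⟨(n1.mul g1).mul n1.inv, g2.conj_nm (n1.cj (h.cL a ha).symm),
      g3.conj_nm (nm_odd hO (h.nE a (h.cL a ha).symm n))⟩
  have UΓ : A ⊔ B ≤ Gm A (cj t A) O := fun u hu =>
    mem_Gm.2 ⟨h.tri.nmE hu, c12 u hu, fun o ho => (cO o ho u (mem_sup_left hu)).symm⟩
  have PΓ := PP_le' nΓ UΓ
  have MΓ : ⁅Gm A (cj t A) O, Gm A (cj t A) O⁆ ≤ Gm A (cj t A) O := commutator_le.2 fun x hx y hy =>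
    mul_mem (mul_mem (mul_mem hx hy) (inv_mem hx)) (inv_mem hy)
  have tM : ∀ m ∈ ⁅Gm A (cj t A) O, Gm A (cj t A) O⁆, t * m * t⁻¹ ∈ ⁅Gm (cj t A) A O, Gm (cj t A) A O⁆ :=
    cj_le_iff.1 (by rw [cj_commutator]; exact commutator_mono tΓ tΓ)
  have cM : ∀ x ∈ Gm A (cj t A) O, ∀ y ∈ Gm A (cj t A) O, x * y * x⁻¹ * y⁻¹ ∈ ⁅Gm A (cj t A) O, Gm A (cj t A) O⁆ :=
    fun x hx y hy => commutator_mem_commutator hx hy
  have nM : ∀ a ∈ L, Nm a E → Nm a ⁅Gm A (cj t A) O, Gm A (cj t A) O⁆ := fun a ha n => (nΓ a ha n).comm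
  have cov : ∀ a ∈ PP L E (E ⊔ F), ∃ m ∈ ⁅Gm A (cj t A) O, Gm A (cj t A) O⁆, ∀ x ∈ A, m * x * m⁻¹ = a * x * a⁻¹ := by
    let D : Subgroup G :=
      { carrier := {a | Nm a A ∧ ∃ m ∈ ⁅Gm A (cj t A) O, Gm A (cj t A) O⁆, ∀ x ∈ A, m * x * m⁻¹ = a * x * a⁻¹}
        mul_mem' := by
          rintro a b ⟨a1, m, hm, a2⟩ ⟨b1, n, hn, b2⟩
          refine ⟨a1.mul b1, m * n, mul_mem hm hn, fun x hx => ?_⟩
          calc _ = m * (n * x * n⁻¹) * m⁻¹ := by group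
            _ = _ := by rw [b2 x hx, a2 _ (b1 x hx)]; group
        one_mem' := ⟨fun x hx => by simpa using hx, 1, one_mem _, fun _ _ => rfl⟩
        inv_mem' := by
          rintro a ⟨a1, m, hm, a2⟩
          refine ⟨a1.inv, m⁻¹, inv_mem hm, fun x hx => ?_⟩
          calc _ = m⁻¹ * (a * (a⁻¹ * x * a⁻¹⁻¹) * a⁻¹) * m := by group
            _ = _ := by rw [← a2 _ (a1.inv x hx)]; group }
    refine fun a ha => (commutator_le.2 (fun a ha b hb => ?_) (h.toBor.perf ha) : a ∈ D).2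
    obtain ⟨γ, hγ, g1⟩ := h.cover ha
    obtain ⟨δ, hδ, d1⟩ := h.cover hb
    have na := h.nA (h.PP_nmE ha).1 (h.PP_nmE ha).2
    have nb := h.nA (h.PP_nmE hb).1 (h.PP_nmE hb).2
    have inv : ∀ {γ a : G}, Nm a A → (∀ x ∈ A, γ * x * γ⁻¹ = a * x * a⁻¹) → ∀ x ∈ A,
        γ⁻¹ * x * γ⁻¹⁻¹ = a⁻¹ * x * a⁻¹⁻¹ := fun {γ a} n e x hx => by
      calc _ = γ⁻¹ * (a * (a⁻¹ * x * a⁻¹⁻¹) * a⁻¹) * γ := by group
        _ = _ := by rw [← e _ (n.inv x hx)]; group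
    refine ⟨((na.mul nb).mul na.inv).mul nb.inv, _, cM γ (PΓ hγ) δ (PΓ hδ), fun x hx => ?_⟩
    calc _ = γ * (δ * (γ⁻¹ * (δ⁻¹ * x * δ⁻¹⁻¹) * γ⁻¹⁻¹) * δ⁻¹) * γ⁻¹ := by group
      _ = _ := by
        rw [inv nb d1 x hx, inv na g1 _ (nb.inv x hx), d1 _ (na.inv _ (nb.inv x hx)),
          g1 _ (nb _ (na.inv _ (nb.inv x hx))), commutatorElement_def]
        group
  have mG : ∀ γ ∈ Gm A (cj t A) O, Nm γ A ∧ Cm γ (cj t A) ∧ Cm γ O := fun γ => mem_Gm.1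
  generalize ⁅Gm A (cj t A) O, Gm A (cj t A) O⁆ = M at k1 MΓ tM cM nM cov
  obtain ⟨d, hd, -, -, fA, -⟩ := h.del
  obtain ⟨x, hx, ex⟩ := h.cover hd
  have fx : Fpf x A := fun y hy c => fA y hy (comm_of_conj (by rw [← ex y hy, conj_of_comm c]))
  have AM : A ≤ M := fx.le h.tri.elE (mG x (PΓ hx)).1 fun y hy => cM x (PΓ hx) y (UΓ (mem_sup_left hy))
  have M2 : ∀ y ∈ A, t * y * t⁻¹ ∈ M → y = 1 := fun y hy hm => by
    have m1 : x * y * x⁻¹ * y⁻¹ ∈ A := mul_mem ((mG x (PΓ hx)).1 y hy) (inv_mem hy)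
    have := k1 (tΓ (conj_mem_cj.2 (PΓ hx))) hm
    rw [show t * x * t⁻¹ * (t * y * t⁻¹) * (t * x * t⁻¹)⁻¹ * (t * y * t⁻¹)⁻¹ = t * (x * y * x⁻¹ * y⁻¹) * t⁻¹ by group]
      at this
    have m2 := conj_mem_cj (g := t).2 m1
    exact fx y hy (commutatorElement_eq_one_iff_commute.1 (conj_eq_one_iff.1 (eq_one_of_odd_sq
      ((hO _).1 (dj _ this (mem_sup_left m2))).2 (h.tri.elE.cj t _ m2))))
  have BM : B ≤ M := fun y hy => by
    obtain ⟨b, hb, cb, z, hz, rfl⟩ := h.decB hy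
    refine mul_mem ?_ (AM (mem_inf.1 hz).1)
    have bU : b ∈ A ⊔ B := mem_sup_right hb
    obtain ⟨m, hm, e⟩ := cov _ (le_PP (mem_sup_right ((h.dF _).2 ⟨b, hb, rfl⟩)))
    obtain ⟨v, hv, o, ho, e1⟩ := dO (m⁻¹ * b) (Cm.sup (fun u hu => comm_of_conj (by
      have n := h.tri.nmE bU u hu
      calc _ = m⁻¹ * (b * u * b⁻¹) * m := by group
        _ = m⁻¹ * (m * u * m⁻¹) * m := by
          rw [e u hu, show b * (t * b * t⁻¹) * u * (b * (t * b * t⁻¹))⁻¹ =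
            b * (t * b * t⁻¹ * u * (t * b * t⁻¹)⁻¹) * b⁻¹ by group,
            conj_of_comm (h.com' u (mem_sup_left hu) b bU).symm]
        _ = u := by group)) ((mG m (MΓ hm)).2.1.inv.mul (c12 b bU)))
    obtain ⟨a, ha, c, hc, rfl⟩ := (h.mem_pair le_sup_left le_sup_left).1 hv
    have cU : c ∈ A ⊔ B := mem_sup_left hc
    have cc : t * c * t⁻¹ * (t * c * t⁻¹) = 1 := by rw [conj_mul, h.tri.elE c hc]; group
    have co : Commute o (t * c * t⁻¹) := cV o ho _ (mem_sup_right (conj_mem_cj.2 hc))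
    have e2 : b * (t * c * t⁻¹) * o⁻¹ = m * a := by
      rw [inv_mul_eq_iff_eq_mul.1 e1]
      calc _ = m * a * (t * c * t⁻¹) * (o * (t * c * t⁻¹) * o⁻¹) := by group
        _ = _ := by rw [conj_of_comm co, mul_assoc, cc, mul_one]
    have m1 := pow_mem (e2 ▸ mul_mem hm (AM ha)) (orderOf o)
    rw [((cO o ho b (mem_sup_left bU)).mul_right co).symm.inv_right.mul_pow, inv_pow, pow_orderOf_eq_one, inv_one,
      mul_one, odd_pow_sq (by rw [(h.com' b bU c cU).symm.mul_mul_mul_comm, h.tri.elF b hb, cc, mul_one])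
      ((hO o).1 ho).2] at m1
    have m2 := mul_mem (inv_mem m1) (nM σ h.σL h.σE _ m1)
    have σt : Commute σ t := (h.cL σ h.σL).symm
    rw [show (b * (t * c * t⁻¹))⁻¹ * (σ * (b * (t * c * t⁻¹)) * σ⁻¹) =
      t * c⁻¹ * t⁻¹ * b⁻¹ * (σ * b * σ⁻¹) * (σ * t * σ⁻¹) * (σ * c * σ⁻¹) * (σ * t * σ⁻¹)⁻¹ by group,
      conj_of_comm cb, conj_of_comm σt, show t * c⁻¹ * t⁻¹ * b⁻¹ * b * t * (σ * c * σ⁻¹) * t⁻¹ =
      t * (c⁻¹ * (σ * c * σ⁻¹)) * t⁻¹ by group] at m2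
    have c1 := h.fσA c hc (comm_of_conj (inv_mul_eq_one.1 (M2 _ (mul_mem (inv_mem hc) (h.σA c hc)) m2)).symm)
    simpa [c1] using m1
  have PM := PP_le' nM (sup_le AM BM)
  intro γ hγ δ hδ
  refine mem_centralizer_singleton_iff.1 ((closure_le (centralizer {t * δ * t⁻¹})).2 ?_ hγ)
  rintro _ ⟨a, ha, n, u, hu, rfl⟩
  have hm := nM a ha n u (sup_le AM BM hu)
  obtain ⟨k, hk⟩ := two_conj a (two_of_mem h.tri.two hu)
  generalize a * u * a⁻¹ = m at hm hk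
  have o1 := dj _ (k1 (tΓ (conj_mem_cj.2 (PΓ hδ))) hm) (by simpa [mul_assoc] using inv_mem (k2 (MΓ hm) (tM δ (PM hδ))))
  generalize t * δ * t⁻¹ = y at o1
  have o2 := eq_one_of_odd_two ((hO _).1 o1).2 ⟨k, by
    have := ((mG m (MΓ hm)).2.2 _ o1).symm.mul_pow (2 ^ k)
    rwa [hk, mul_one, inv_mul_cancel_right, conj_pow, hk, mul_one, mul_inv_cancel, eq_comm] at this⟩
  exact mem_centralizer_singleton_iff.2 (commutatorElement_eq_one_iff_commute.1 o2).symm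

/-- PAR2 -/
theorem Sp.pe (h : Sp L E F A B t σ ρ φ) : Pe L E F A B t := by
  obtain ⟨O, hO, dO, cO⟩ := h.exists_odd
  have dec : ∀ a ∈ PP L E (E ⊔ F), ∃ γ ∈ PP L E (A ⊔ B), a = γ * (t * γ * t⁻¹) := fun a ha => by
    induction ha using closure_induction with
    | mem _ hx =>
      obtain ⟨a, ha, n, u, hu, rfl⟩ := hx
      obtain ⟨x, hx, rfl⟩ := h.dU.1 hu
      refine ⟨_, conj_PP ha n (le_PP hx), ?_⟩
      conv_lhs => rw [← conj_mul, ← conj_mul, ← conj_mul, conj_of_comm (h.cL a ha).symm,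
        conj_of_comm (h.cL a ha).symm.inv_right]
    | one => exact ⟨1, one_mem _, by simp⟩
    | mul _ _ _ _ h1 h2 =>
      obtain ⟨γ, hγ, rfl⟩ := h1
      obtain ⟨δ, hδ, rfl⟩ := h2
      exact ⟨_, mul_mem hγ hδ, by rw [(h.pe_com δ hδ γ hγ).symm.mul_mul_mul_comm, conj_mul]⟩
    | inv _ _ h1 =>
      obtain ⟨γ, hγ, rfl⟩ := h1
      exact ⟨_, inv_mem hγ, by rw [(h.pe_com γ hγ γ hγ).eq]; group⟩
  refine ⟨h.pe_com, dec, ?_, fun γ hγ o ho c => PP_cm (fun a ha n => nm_odd hO (h.nE a (h.cL a ha).symm n))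
    (fun u hu o ho => (cO o ho u (mem_sup_left hu)).symm) hγ o ((hO o).2 ⟨c.mono (h.UU_eq ▸ le_sup_left), ho⟩),
    fun x c => ?_⟩
  · obtain ⟨d, hd, nA, nB, fA, fB⟩ := h.del
    obtain ⟨γ, hγ, rfl⟩ := dec d hd
    have k : ∀ y ∈ A ⊔ B, γ * (t * γ * t⁻¹) * y * (γ * (t * γ * t⁻¹))⁻¹ * y⁻¹ ∈
        ⁅PP L E (A ⊔ B), PP L E (A ⊔ B)⁆ := fun y hy => by
      rw [show γ * (t * γ * t⁻¹) * y * (γ * (t * γ * t⁻¹))⁻¹ = γ * (t * γ * t⁻¹ * y * (t * γ * t⁻¹)⁻¹) * γ⁻¹ by group,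
        conj_of_comm (h.pe_com y (le_PP hy) γ hγ).symm]
      exact commutator_mem_commutator hγ (le_PP hy)
    exact PP_le' (fun a ha n => Nm.comm fun γ => conj_PP ha n)
      (sup_le (fA.le h.tri.elE nA fun y hy => k y (mem_sup_left hy))
        (fB.le h.tri.elF nB fun y hy => k y (mem_sup_right hy)))
  · obtain ⟨v, hv, o, ho, e⟩ := dO x c
    exact ⟨v, hv, o, ((hO o).1 ho).2, cO o ho, e⟩

end CfsgLib.StdL
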