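import Mathlib
import Cfsg.Agent.Lib.StdL.UtA

/-!
# Standard subgroups of type `M22`: the two doubles
-/

set_option autoImplicit false
set_option linter.unusedSectionVars false

namespace CfsgLib.StdL

open Subgroup Cfsg CfsgLib.Tech
open CfsgLib.StdInt hiding cj mem_cj

variable {G : Type*} [Group G] [Finite G] {L E F V W : Subgroup G} {t σ ρ φ a b g u x y : G}

local notation "cn" => MulAut.conj

/-- the two doubles -/
structure Dw (L E F V W : Subgroup G) (t σ ρ φ : G) : Prop where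
  h : Fr0 L E F t σ ρ φ
  p : Pv L E F V t σ ρ
  q : Pv L F E W t ρ σ

/-- the elements acting trivially on the chain `⟨t⟩ U Z ≥ U Z ≥ Z ≥ 1` -/
structure Stb (U Z : Subgroup G) (t g : G) : Prop where
  c : Cm g Z
  u : ∀ u ∈ U, ∃ z ∈ Z, cn g u = z * u
  t : ∃ u ∈ U, ∃ z ∈ Z, cn g t = t * (z * u)

theorem Stb.mul {U Z : Subgroup G} (c : ∀ z ∈ Z, Cm z U) (a : Stb U Z t x) (b : Stb U Z t y) : Stb U Z t (x * y) := by
  refine ⟨a.c.mul b.c, fun u hu => ?_, ?_⟩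
  · obtain ⟨z, hz, e⟩ := a.u u hu
    obtain ⟨z', hz', e'⟩ := b.u u hu
    exact ⟨z' * z, mul_mem hz' hz, by rw [map_mul, MulAut.mul_apply, e', map_mul, e, cn_eq.2 (a.c _ hz'), mul_assoc]⟩
  · obtain ⟨u, hu, z, hz, e⟩ := a.t
    obtain ⟨u', hu', z', hz', e'⟩ := b.t
    obtain ⟨z'', hz'', e''⟩ := a.u u' hu'
    refine ⟨u * u', mul_mem hu hu', z * (z' * z''), mul_mem hz (mul_mem hz' hz''), ?_⟩
    rw [map_mul, MulAut.mul_apply, e', map_mul, map_mul, e, e'', cn_eq.2 (a.c _ hz'), ← mul_assoc z']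
    calc _ = t * z * (u * (z' * z'')) * u' := by group
      _ = _ := by rw [← (c _ (mul_mem hz' hz'') u hu).eq]; group

theorem Stb.pow {U Z : Subgroup G} (c : ∀ z ∈ Z, Cm z U) (a : Stb U Z t x) (n : ℕ) : Stb U Z t (x ^ n) := by
  induction n with
  | zero =>
    rw [pow_zero]
    exact ⟨fun _ _ => Commute.one_left _, fun u _ => ⟨1, Z.one_mem, by simp⟩, 1, U.one_mem, 1, Z.one_mem, by simp⟩
  | succ n ih => rw [pow_succ]; exact ih.mul c a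

namespace Dw

variable (D : Dw L E F V W t σ ρ φ)
include D

theorem symm : Dw L F E W V t ρ σ φ := ⟨D.h.symm, D.q, D.p⟩

theorem dv : Dv L E F V t σ ρ φ := ⟨D.h, D.p.toPre⟩

theorem normV (hx : x ∈ V) : x * cn σ x * cn σ (cn σ x) = 1 := D.p.fσ.norm' D.p.el D.dv.nσ D.dv.cs3 hx

theorem mem_of (hx : x ∈ V) (c : cn σ x = cn ρ x) : x ∈ W := by
  refine (D.q.mem x).2 ⟨⟨(D.dv.rr hx).1, D.p.cF x hx c⟩, ?_⟩
  rw [cn_sq, D.dv.rr_eq hx c, show ρ * x * ρ⁻¹ = cn σ x from c.symm, D.normV hx]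
  exact F.one_mem

theorem tau_Z (hx : x ∈ V ⊓ W) : tau t x ∈ E ⊓ F := ⟨D.dv.tE hx.1, D.symm.dv.tE hx.2⟩

theorem ker_Z (hx : x ∈ V ⊓ W) (h1 : tau t x = 1) : x ∈ E ⊓ F := ⟨D.dv.ker hx.1 h1, D.symm.dv.ker hx.2 h1⟩

theorem onto_Z (hx : x ∈ E ⊓ F) : ∃ y ∈ V ⊓ W, tau t y = x := by
  obtain ⟨y, hy, c, e⟩ := D.p.ontoZ x hx
  exact ⟨y, ⟨hy, D.mem_of hy c⟩, e⟩

theorem Z_le : E ⊓ F ≤ V ⊓ W := inf_le_inf D.p.le D.q.le

theorem eq_of (hx : x ∈ V ⊓ W) : cn σ x = cn ρ x := by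
  obtain ⟨y, hy, c, e⟩ := D.p.ontoZ _ (D.tau_Z hx)
  have h1 : y * x ∈ E ⊓ F := D.ker_Z (mul_mem ⟨hy, D.mem_of hy c⟩ hx) (by
    rw [D.dv.tau_mul hy hx.1, show tau t y = _ from e, D.h.elE _ (D.tau_Z hx).1])
  have h2 : cn σ (y * x) = cn ρ (y * x) := D.h.eqZ _ h1
  rwa [map_mul, map_mul, show cn σ y = cn ρ y from c, mul_right_inj] at h2

theorem cZU (hx : x ∈ V ⊓ W) : Cm x (E ⊔ F) :=
  Cm.sup (fun _ => D.dv.cE hx.1) fun _ => D.symm.dv.cE hx.2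

theorem cm_U (ha : a ∈ V) (hu : u ∈ E ⊔ F) : ∃ z ∈ V ⊓ W, cn a u = z * u := by
  obtain ⟨e, he, f, hf, rfl⟩ := D.h.toTri.mem_sup.1 hu
  have h1 : a * f * a⁻¹ * f⁻¹ ∈ V := by
    rw [mul_assoc, mul_assoc, ← mul_assoc f]
    exact mul_mem ha (D.p.nm f (D.dv.cLt (D.h.FL hf)) (D.h.toTri.nmE (mem_sup_right hf)) _ (inv_mem ha))
  refine ⟨_, ⟨h1, D.mem_of h1 (D.p.comF a ha f hf)⟩, ?_⟩
  rw [map_mul, cn_eq.2 (D.dv.cE ha he), ← mul_assoc, (D.dv.cE h1 he).eq, MulAut.conj_apply]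
  group

theorem stbV (ha : a ∈ V) : Stb (E ⊔ F) (V ⊓ W) t a :=
  ⟨fun _ hz => D.p.el.comm ha hz.1, fun _ => D.cm_U ha, tau t a, mem_sup_left (D.dv.tE ha), 1, one_mem _, by
    rw [one_mul, conj_t_eq D.h.tt, (D.dv.cLt (D.h.EL (D.dv.tE ha))).eq]⟩

theorem stb (ha : a ∈ V) (hb : b ∈ W) : Stb (E ⊔ F) (V ⊓ W) t (a * b) :=
  (D.stbV ha).mul (fun _ => D.cZU) (by rw [sup_comm, inf_comm]; exact D.symm.stbV hb)

theorem twoZ (hx : x ∈ V ⊓ W) : Two x := (D.dv.rr hx.1).1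

theorem two_mul (ha : a ∈ V) (hb : b ∈ W) : Two (a * b) := by
  obtain ⟨k, m, hm, e⟩ := Nat.exists_eq_two_pow_mul_odd (orderOf_pos (a * b)).ne'
  have ho : Odd (orderOf ((a * b) ^ 2 ^ k)) := odd_of_pow hm (by rw [← pow_mul, ← e, pow_orderOf_eq_one])
  have S := (D.stb ha hb).pow (fun _ => D.cZU) (2 ^ k)
  have inv : cn a ((a * b) ^ 2 ^ k) = ((a * b) ^ 2 ^ k)⁻¹ := by
    rw [map_pow, ← inv_pow, mul_inv_rev, D.q.el.inv hb, MulAut.conj_apply, ← mul_assoc, D.p.el a ha, one_mul]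
  refine ⟨k, ?_⟩
  generalize (a * b) ^ 2 ^ k = o at ho S inv
  have c1 : Cm o (E ⊔ F) := fun u hu => by
    obtain ⟨z, hz, e⟩ := S.u u hu
    have := odd_fix ho (e.trans (D.cZU hz u hu).eq) (S.c z hz) (D.twoZ hz)
    rw [this, one_mul] at e
    exact cn_eq.1 e
  obtain ⟨u, hu, z, hz, e⟩ := S.t
  have := odd_fix ho e ((S.c z hz).mul_right (c1 u hu))
    (StdW.two_mul' (D.cZU hz u hu) (D.twoZ hz) (two_of_mem D.h.toTri.two hu))
  rw [this, mul_one] at e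
  have := D.p.th o (D.h.oddE (cn_eq.1 e) ho (c1.mono le_sup_left)) a ha
  rw [cn_eq.2 this.symm] at inv
  exact eq_one_of_odd_sq ho (mul_eq_one_iff_eq_inv.2 inv)

theorem not_cm : ¬Cm t (V ⊓ W) := fun c => by
  obtain ⟨z, hz, h1⟩ := D.h.toTri.exZ
  obtain ⟨y, hy, rfl⟩ := D.onto_Z hz
  exact h1 ((tau_eq_one D.h.tt).2 (c y hy).symm)

theorem mem_E (c : Commute x t) (h2 : Two x) (c1 : Cm x E) (c2 : Cm x (V ⊓ W)) : x ∈ E :=
  (D.h.twoE c h2 c1).elim id fun h1 => (D.not_cm fun y hy => by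
    have := (D.dv.cE hy.1 h1).symm.mul_left (c2 y hy).inv_left
    rwa [mul_inv_cancel_right] at this).elim

theorem com (ha : a ∈ V) (hb : b ∈ W) : a * b * a⁻¹ * b⁻¹ ∈ V ⊓ W := by
  rw [D.p.el.inv ha, D.q.el.inv hb, mul_assoc]
  have S := D.stb ha hb
  have h2 := D.two_mul ha hb
  generalize a * b = g at S h2
  have el : El (V ⊓ W) := D.p.el.mono inf_le_left
  have c1 : Cm (g * g) (E ⊔ F) := fun u hu => by
    obtain ⟨z, hz, e⟩ := S.u u hu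
    rw [← cn_eq, map_mul, MulAut.mul_apply, e, map_mul, e, cn_eq.2 (S.c z hz), ← mul_assoc, el z hz, one_mul]
  have c2 := S.c.mul S.c
  obtain ⟨x, hx, e⟩ : ∃ x ∈ V ⊓ W, cn (g * g) t = t * x := by
    obtain ⟨u, hu, z, hz, e⟩ := S.t
    obtain ⟨z', hz', e'⟩ := S.u u hu
    refine ⟨z' * (u * u), mul_mem hz' (D.Z_le (D.h.toTri.sq_mem hu)), ?_⟩
    rw [map_mul, MulAut.mul_apply, e, map_mul, map_mul, e, e', cn_eq.2 (S.c z hz)]
    calc _ = t * z * (u * (z * z')) * u := by group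
      _ = t * (z * z) * (z' * (u * u)) := by rw [← (D.cZU (mul_mem hz hz') u hu).eq]; group
      _ = _ := by rw [el z hz, mul_one]
  have c3 : Commute x t := by
    have : t * x * (t * x) = 1 := by rw [← e, ← map_mul, D.h.tt, map_one]
    rw [Commute, SemiconjBy, ← inv_eq_of_mul_eq_one_right this, mul_inv_rev, el.inv hx, D.h.ti]
  obtain ⟨y, hy, e1⟩ := D.onto_Z (D.ker_Z hx ((tau_eq_one D.h.tt).2 c3))
  have c4 : Commute (g * g * y) t := by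
    rw [← cn_eq, map_mul, MulAut.mul_apply, conj_t_eq D.h.tt y, e1, map_mul, e, cn_eq.2 (c2 x hx), ← c3.eq,
      ← mul_assoc, el x hx, one_mul]
  have h3 : Two (g * g * y) := StdW.two_mul' (c2 y hy) (StdW.two_mul' (Commute.refl g) h2 h2) (D.twoZ hy)
  have c5 := c1.mul (D.cZU hy)
  have c6 : Cm (g * g * y) (V ⊓ W) := c2.mul fun _ => el.comm hy
  exact (mul_mem_cancel_right hy).1 (D.Z_le ⟨D.mem_E c4 h3 (c5.mono le_sup_left) c6,
    D.symm.mem_E c4 h3 (c5.mono le_sup_right) (by rwa [inf_comm])⟩)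

end Dw

/-- UTB -/
theorem Fr0.ut (h : Fr0 L E F t σ ρ φ) (p : Pv L E F V t σ ρ) (q : Pv L F E W t ρ σ) : Ut L E F V W t σ ρ :=
  have D : Dw L E F V W t σ ρ φ := ⟨h, p, q⟩
  ⟨p, q, fun _ hv _ hw => D.com hv hw, fun _ hx => ⟨fun h => D.eq_of ⟨hx, h⟩, D.mem_of hx⟩,
    fun _ hx => ⟨fun h => D.symm.eq_of ⟨hx, h⟩, D.symm.mem_of hx⟩⟩

end CfsgLib.StdL
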