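import Mathlib
import Cfsg.Agent.Lib.StdL.UtB

/-!
# Standard subgroups of type `M22`: the generators of the first factor
-/

set_option autoImplicit false
set_option linter.unusedSectionVars false

namespace CfsgLib.StdL

open Subgroup Cfsg CfsgLib.Tech
open CfsgLib.StdInt hiding cj mem_cj

variable {G : Type*} [Group G] [Finite G] {L E F V W : Subgroup G} {t σ ρ φ a a' b b' x : G}

local notation "cn" => MulAut.conj

/-- the commutator -/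
def bt (a b : G) : G := a * b * a⁻¹ * b⁻¹

theorem bt_map (α : MulAut G) (a b : G) : α (bt a b) = bt (α a) (α b) := by simp only [bt, map_mul, map_inv]

theorem bt_eq_one : bt a b = 1 ↔ Commute a b := by rw [bt, mul_inv_eq_one, mul_inv_eq_iff_eq_mul]; rfl

namespace Dw

variable (D : Dw L E F V W t σ ρ φ)
include D

theorem bt_mem (ha : a ∈ V) (hb : b ∈ W) : bt a b ∈ V ⊓ W := D.com ha hb

theorem bt_left (ha : a ∈ V) (ha' : a' ∈ V) (hb : b ∈ W) : bt (a * a') b = bt a b * bt a' b := by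
  rw [(D.p.el.comm (D.bt_mem ha hb).1 (D.bt_mem ha' hb).1).eq, bt.eq_1 a, ← mul_assoc, ← mul_assoc, ← mul_assoc,
    ← (D.p.el.comm ha (D.bt_mem ha' hb).1).eq, bt, bt]
  group

theorem bt_right (ha : a ∈ V) (hb : b ∈ W) (hb' : b' ∈ W) : bt a (b * b') = bt a b * bt a b' := by
  rw [← conj_of_comm (D.q.el.comm hb (D.bt_mem ha hb').2), bt, bt, bt]
  group

theorem bt_symm (ha : a ∈ V) (hb : b ∈ W) : bt b a = bt a b := by
  rw [← D.p.el.inv (D.bt_mem ha hb).1, bt, bt]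
  group

theorem t_eq (ha : a ∈ V) : cn t a = a * tau t a := cn_t D.h.tt (D.p.el a ha)

theorem tau_eq (ha : a ∈ V) : tau t a = a * cn t a := by rw [D.t_eq ha, ← mul_assoc, D.p.el a ha, one_mul]

theorem nt : Nm t V := D.p.nm t (Commute.refl t) (D.h.cL.mono D.h.EL).nm

theorem nφ : Nm φ V := D.p.nm φ (D.dv.cLt D.h.φL) D.h.φE

theorem t_E (hx : x ∈ E) : cn t x = x := cn_eq.2 (D.h.cL x (D.h.EL hx))

theorem t_s (x : G) : cn t (cn σ x) = cn σ (cn t x) := cn_comm' (D.h.cL σ D.h.σL) x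

theorem t_p (x : G) : cn t (cn φ x) = cn φ (cn t x) := cn_comm' (D.h.cL φ D.h.φL) x

theorem tau_p (x : G) : tau t (cn φ x) = cn φ (tau t x) := tau_cn (D.dv.cLt D.h.φL) x

theorem tau_bt (ha : a ∈ V) (hb : b ∈ F) : tau t (bt a b) = bt (tau t a) b := by
  rw [D.tau_eq (D.bt_mem ha (D.q.le hb)).1, bt_map, D.symm.t_E hb, ← D.bt_left ha (D.nt.cn ha) (D.q.le hb),
    D.tau_eq ha]

/-- a generator fixed by `φ` -/
theorem exists_a : ∃ a ∈ V, cn ρ a = a ∧ cn φ a = a ∧ tau t a ≠ 1 := by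
  have key : ∀ a ∈ V, cn ρ a = a → cn φ (tau t a) ≠ tau t a → ∃ a ∈ V, cn ρ a = a ∧ cn φ a = a ∧ tau t a ≠ 1 :=
    fun a ha c h1 => by
      have hp := D.nφ.cn ha
      refine ⟨a * cn φ a, mul_mem ha hp, ?_, ?_, fun h2 => h1 ?_⟩
      · have := D.dv.pr D.nφ ha
        rw [c] at this
        rw [map_mul, c, this, D.dv.r3 hp, ← this]
      · rw [map_mul, cn_cn D.h.φφ, (D.p.el.comm ha hp).eq]
      · rw [D.dv.tau_mul ha hp, D.tau_p] at h2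
        rw [eq_inv_of_mul_eq_one_right h2, D.h.elE.inv (D.dv.tE ha)]
  obtain ⟨e, he, c, e1⟩ := D.dv.tor.u_exA
  obtain ⟨a, ha, c1, rfl⟩ := D.dv.liftA he c
  by_cases h1 : cn φ (tau t a) = tau t a
  · refine key _ (D.dv.ms ha) (D.dv.r_s ha c1) fun h2 => e1 (D.h.fσ _ he (cn_eq.1 ?_))
    rw [D.dv.tau_s, D.dv.ps D.nφ (D.p.le he), h1] at h2
    exact (cn σ).injective h2
  · exact key a ha c1 h1

theorem exists_gen : ∃ a ∈ V, ∃ b ∈ W, cn ρ a = a ∧ cn σ b = b ∧ tau t a ≠ 1 ∧ tau t b ≠ 1 ∧ bt a (cn t b) = 1 ∧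
    ∃ ψ, (ψ = φ ∨ ψ = t * φ) ∧ cn ψ a = a ∧ cn ψ b = b := by
  obtain ⟨a, ha, a1, a2, a3⟩ := D.exists_a
  obtain ⟨b0, hb0, c1, c2, c3⟩ := D.symm.exists_a
  have he := D.dv.tE ha
  have hf := D.symm.dv.tE hb0
  have e1 : cn ρ (tau t a) = tau t a := by rw [← D.dv.tau_r, a1]
  have e2 : cn φ (tau t a) = tau t a := by rw [← D.tau_p, a2]
  have f1 : cn σ (tau t b0) = tau t b0 := by rw [← D.dv.tau_s, c1]
  have f2 : cn φ (tau t b0) = tau t b0 := by rw [← D.tau_p, c2]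
  generalize hf0 : tau t b0 = f at hf f1 f2 c3
  have n1 : bt (tau t a) f ≠ 1 := fun h => D.dv.tor.u_nd he (cn_eq.1 e1) a3 hf (cn_eq.1 f1) c3 (bt_eq_one.1 h)
  have n2 : bt (tau t a) f ∈ E ⊓ F := D.h.com _ he _ hf
  have fix : ∀ x ∈ E ⊓ F, cn φ x = x → x = 1 ∨ x = bt (tau t a) f := by
    obtain ⟨z, -, -, -, h1, -⟩ := D.dv.tor.triP.fix
    intro x hx c
    rw [(h1 _ n2 (cn_eq.1 (by rw [bt_map, e2, f2])).symm).resolve_left n1]
    exact h1 x hx (cn_eq.1 c).symm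
  obtain ⟨b, hb, b1, b2, b3, b4⟩ : ∃ b ∈ W, cn σ b = b ∧ cn φ b = b ∧ tau t b = f ∧ tau t (bt a (cn t b)) = 1 := by
    have h1 := D.bt_mem ha (D.symm.nt.cn hb0)
    rcases fix _ (D.tau_Z h1) (by rw [← D.tau_p, bt_map, a2, ← D.t_p, c2]) with h2 | h2
    · exact ⟨b0, hb0, c1, c2, hf0, h2⟩
    · refine ⟨b0 * f, mul_mem hb0 (D.q.le hf), by rw [map_mul, c1, f1], by rw [map_mul, c2, f2],
        by rw [D.symm.dv.tau_mul hb0 (D.q.le hf), hf0, D.symm.dv.tau_E hf, mul_one], ?_⟩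
      rw [map_mul, D.symm.t_E hf, D.bt_right ha (D.symm.nt.cn hb0) (D.q.le hf),
        D.dv.tau_mul h1.1 (D.bt_mem ha (D.q.le hf)).1, h2, D.tau_bt ha hf, D.h.elE _ n2.1]
  have hb' := D.symm.nt.cn hb
  rcases fix _ (D.ker_Z (D.bt_mem ha hb') b4) (by rw [bt_map, a2, ← D.t_p, b2]) with h2 | h2
  · exact ⟨a, ha, b, hb, a1, b1, a3, by rwa [b3], h2, φ, Or.inl rfl, a2, b2⟩
  have he' := D.h.σE.cn he
  have hf' := D.h.ρF.cn hf
  have f3 : cn σ (cn ρ f) = cn ρ f := D.symm.dv.r_s (D.q.le hf) f1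
  refine ⟨a * cn σ (tau t a), mul_mem ha (D.p.le he'), b * cn ρ f, mul_mem hb (D.q.le hf'), ?_, ?_, ?_, ?_, ?_,
    t * φ, Or.inr rfl, ?_, ?_⟩
  · rw [map_mul, a1, D.dv.r_s (D.p.le he) e1]
  · rw [map_mul, b1, f3]
  · rwa [D.dv.tau_mul ha (D.p.le he'), D.dv.tau_E he', mul_one]
  · rwa [D.symm.dv.tau_mul hb (D.q.le hf'), D.symm.dv.tau_E hf', mul_one, b3]
  · have u1 := D.bt_mem ha (D.q.le hf)
    have k1 : bt a (cn ρ f) = cn σ (bt a f) := by rw [D.eq_of u1, bt_map, a1]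
    have k2 : bt (cn σ (tau t a)) (cn ρ f) = cn σ (cn σ (bt (tau t a) f)) := by
      rw [D.eq_of (D.Z_le n2), bt_map, e1, bt_map, f3]
    have k3 : bt a b * bt a f = bt (tau t a) f := by rw [← h2, D.symm.t_eq hb, b3, D.bt_right ha hb (D.q.le hf)]
    have k4 : bt a b * bt (tau t a) b = bt (tau t a) f := by
      rw [← D.bt_left ha (D.p.le he) hb, ← D.t_eq ha, ← cn_cn D.h.tt b, ← bt_map, h2, D.t_E n2.1]
    have k5 : bt (cn σ (tau t a)) (cn t b) = cn σ (bt a f) * cn σ (bt (tau t a) f) := by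
      rw [← map_mul, ← mul_left_cancel (k4.trans k3.symm), ← D.bt_right (D.p.le he) hb (D.q.le hf), ← b3,
        ← D.symm.t_eq hb, bt_map, ← D.t_s, b1]
    rw [map_mul, D.symm.t_E hf', D.bt_left ha (D.p.le he') (mul_mem hb' (D.q.le hf')),
      D.bt_right ha hb' (D.q.le hf'), D.bt_right (D.p.le he') hb' (D.q.le hf'), h2, k1, k2, k5,
      ← D.dv.tor.u_normE n2.1, mul_assoc, ← mul_assoc (cn σ (bt a f)), ← mul_assoc (cn σ (bt a f)),
      D.p.el _ (D.dv.ms u1.1), one_mul, mul_assoc]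
  · rw [map_mul cn, MulAut.mul_apply, map_mul, a2, D.dv.ps D.nφ (D.p.le he), e2, map_mul, D.t_eq ha,
      D.t_E (D.h.σE.cn he'), D.dv.tor.u_sqE he, mul_assoc, ← mul_assoc (tau t a), D.h.elE _ he, one_mul]
  · rw [map_mul cn, MulAut.mul_apply, map_mul, b2, D.symm.dv.ps D.symm.nφ (D.q.le hf), f2, map_mul, D.symm.t_eq hb,
      D.symm.t_E (D.h.ρF.cn hf'), D.symm.dv.tor.u_sqE hf, b3, mul_assoc, ← mul_assoc f, D.h.elF _ hf, one_mul]

end Dw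

/-- SPLA -/
theorem Fr0.exists_gen (h : Fr0 L E F t σ ρ φ) (u : Ut L E F V W t σ ρ) :
    ∃ a ∈ V, ∃ b ∈ W, Commute ρ a ∧ Commute σ b ∧ ¬Commute a t ∧ ¬Commute b t ∧ Commute a (t * b * t⁻¹) ∧
      ∃ ψ, (ψ = φ ∨ ψ = t * φ) ∧ Commute ψ a ∧ Commute ψ b := by
  obtain ⟨a, ha, b, hb, h1, h2, h3, h4, h5, ψ, h6, h7, h8⟩ := Dw.exists_gen ⟨h, u.pV, u.pW⟩
  exact ⟨a, ha, b, hb, cn_eq.1 h1, cn_eq.1 h2, mt (tau_eq_one h.tt).2 h3, mt (tau_eq_one h.tt).2 h4, bt_eq_one.1 h5,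
    ψ, h6, cn_eq.1 h7, cn_eq.1 h8⟩

end CfsgLib.StdL
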