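import Mathlib
import Cfsg.Agent.Lib.StdL.SplA

/-!
# Standard subgroups of type `M22`: the first factor
-/

set_option autoImplicit false
set_option linter.unusedSectionVars false

namespace CfsgLib.StdL

open Subgroup Cfsg CfsgLib.Tech
open CfsgLib.StdInt hiding cj mem_cj

variable {G : Type*} [Group G] [Finite G] {L E F V W : Subgroup G} {t σ ρ φ ψ a b g x y : G}

local notation "cn" => MulAut.conj

theorem mem_closure_kl (xx : x * x = 1) (yy : y * y = 1) (c : Commute x y) :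
    g ∈ closure {x, y} ↔ g = 1 ∨ g = x ∨ g = y ∨ g = x * y := by
  have h1 : ∀ a, x * (x * a) = a := fun a => by rw [← mul_assoc, xx, one_mul]
  have h2 : ∀ a, y * (x * a) = x * (y * a) := fun a => by rw [← mul_assoc, ← c.eq, mul_assoc]
  have hx : x ∈ closure {x, y} := subset_closure (Or.inl rfl)
  have hy : y ∈ closure {x, y} := subset_closure (Or.inr rfl)
  constructor
  · intro hg
    induction hg using closure_induction with
    | mem a ha => rcases ha with h | h <;> simp [show a = _ from h]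
    | one => exact Or.inl rfl
    | mul a b _ _ ha hb =>
      rcases ha with h | h | h | h <;> rcases hb with h' | h' | h' | h' <;> rw [h, h'] <;>
        simp [mul_assoc, xx, yy, h1, h2, ← c.eq]
    | inv a _ ha =>
      rcases ha with h | h | h | h <;> rw [h] <;>
        simp [inv_eq_of_mul_eq_one_right xx, inv_eq_of_mul_eq_one_right yy, ← c.eq]
  · rintro (h | h | h | h) <;> rw [h]
    exacts [one_mem _, hx, hy, mul_mem hx hy]

/-- the four-group generated by `x` and its conjugate -/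
def Kl (σ x : G) : Subgroup G := closure {x, cn σ x}

namespace Dw

variable (D : Dw L E F V W t σ ρ φ)
include D

theorem sqV (hx : x ∈ V) : cn σ (cn σ x) = x * cn σ x := D.p.fσ.sq_eq D.p.el D.dv.nσ D.dv.cs3 hx

theorem mem_Kl (hx : x ∈ V) : g ∈ Kl σ x ↔ g = 1 ∨ g = x ∨ g = cn σ x ∨ g = cn σ (cn σ x) := by
  rw [D.sqV hx]
  exact mem_closure_kl (D.p.el _ hx) (D.p.el _ (D.dv.ms hx)) (D.p.el.comm hx (D.dv.ms hx))

theorem Kl_le {H : Subgroup G} (n : Nm σ H) (hx : x ∈ H) : Kl σ x ≤ H :=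
  (closure_le _).2 (by rintro _ (rfl | rfl); exacts [hx, n.cn hx])

theorem Kl_nm (hx : x ∈ V) : Nm σ (Kl σ x) := by
  intro y hy
  change cn σ y ∈ _
  rcases (D.mem_Kl hx).1 hy with h | h | h | h <;> rw [h, D.mem_Kl hx] <;>
    simp only [D.dv.s3 hx, map_one, true_or, or_true]

theorem Kl_r (hx : x ∈ V) (c : cn ρ x = x) (hy : y ∈ Kl σ x) : cn ρ y = y := by
  rcases (D.mem_Kl hx).1 hy with h | h | h | h <;> rw [h]
  exacts [map_one _, c, D.dv.r_s hx c, D.dv.r_s (D.dv.ms hx) (D.dv.r_s hx c)]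

theorem Kl_tau (hx : x ∈ V) (h1 : tau t x ≠ 1) (hy : y ∈ Kl σ x) (h2 : tau t y = 1) : y = 1 := by
  rcases (D.mem_Kl hx).1 hy with h | h | h | h <;> rw [h] at h2
  · exact h
  · exact absurd h2 h1
  · exact absurd (by rwa [D.dv.tau_s, EmbeddingLike.map_eq_one_iff] at h2) h1
  · exact absurd (by rwa [D.dv.tau_s, D.dv.tau_s, EmbeddingLike.map_eq_one_iff, EmbeddingLike.map_eq_one_iff] at h2) h1

theorem Kl_onto (hx : x ∈ V) (h : y = 1 ∨ y = tau t x ∨ y = cn σ (tau t x) ∨ y = tau t x * cn σ (tau t x)) :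
    ∃ u ∈ Kl σ x, tau t u = y := by
  rcases h with h | h | h | h <;> rw [h]
  · exact ⟨1, one_mem _, D.dv.tau_E (one_mem _)⟩
  · exact ⟨x, by simp [D.mem_Kl hx], rfl⟩
  · exact ⟨cn σ x, by simp [D.mem_Kl hx], D.dv.tau_s x⟩
  · exact ⟨cn σ (cn σ x), by simp [D.mem_Kl hx], by rw [D.dv.tau_s, D.dv.tau_s, D.dv.tor.u_sqE (D.dv.tE hx)]⟩

theorem psi_s (hψ : ψ = φ ∨ ψ = t * φ) (hx : x ∈ V) : cn ψ (cn σ x) = cn σ (cn σ (cn ψ x)) := by
  rcases hψ with rfl | rfl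
  · exact D.dv.ps D.nφ hx
  · simp only [map_mul cn, MulAut.mul_apply, D.dv.ps D.nφ hx, D.t_s]

theorem Kl_psi (hψ : ψ = φ ∨ ψ = t * φ) (hx : x ∈ V) (c : cn ψ x = x) : Nm ψ (Kl σ x) := by
  intro y hy
  change cn ψ y ∈ _
  rcases (D.mem_Kl hx).1 hy with h | h | h | h <;> rw [h, D.mem_Kl hx] <;>
    simp only [D.psi_s hψ hx, D.psi_s hψ (D.dv.ms hx), c, D.dv.s3 (D.dv.ms hx), map_one, true_or, or_true]

end Dw

/-- the generators of the first factor -/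
structure Gn (L E F V W : Subgroup G) (t σ ρ φ a b : G) : Prop extends Dw L E F V W t σ ρ φ where
  ha : a ∈ V
  hb : b ∈ W
  ra : cn ρ a = a
  sb : cn σ b = b
  ta : tau t a ≠ 1
  tb : tau t b ≠ 1
  ab : Commute a (cn t b)

/-- the subgroup `A` of the first factor -/
def Af (σ a b : G) : Subgroup G := Kl σ a ⊔ Kl σ (bt a b)

namespace Gn

variable (D : Gn L E F V W t σ ρ φ a b)
include D

theorem symm : Gn L F E W V t ρ σ φ b a :=
  ⟨D.toDw.symm, D.hb, D.ha, D.sb, D.ra, D.tb, D.ta, by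
    simpa only [cn_cn D.h.tt] using (cn_commute t D.ab).symm⟩

theorem zm : bt a b ∈ V ⊓ W := D.bt_mem D.ha D.hb

theorem K_eq : Kl ρ (bt b a) = Kl σ (bt a b) := by rw [D.bt_symm D.ha D.hb, Kl, Kl, D.eq_of D.zm]

theorem KZ : Kl σ (bt a b) ≤ V ⊓ W := D.Kl_le (D.dv.nσ.inf D.toDw.symm.dv.nρ) D.zm

theorem KV : Kl σ a ≤ V := D.Kl_le D.dv.nσ D.ha

theorem AV : Af σ a b ≤ V := sup_le D.KV (D.KZ.trans inf_le_left)

theorem memA : g ∈ Af σ a b ↔ ∃ x ∈ Kl σ a, ∃ y ∈ Kl σ (bt a b), g = x * y :=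
  mem_sup_comm fun _ hx _ hy => D.p.el.comm (D.KV hx) (D.KZ hy).1

theorem KB : Kl σ (bt a b) ≤ Af ρ b a := D.K_eq ▸ le_sup_right

theorem tau_z : tau t (bt a b) = bt (tau t a) (tau t b) := by
  have he := D.p.le (D.dv.tE D.ha)
  have hf := D.q.le (D.toDw.symm.dv.tE D.hb)
  have hb' := D.toDw.symm.nt.cn D.hb
  have h1 : bt a b * bt (tau t a) b = 1 := by
    rw [← D.bt_left D.ha he D.hb, ← D.t_eq D.ha, bt_eq_one]
    exact D.symm.ab.symm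
  rw [D.tau_eq D.zm.1, bt_map, D.t_eq D.ha, D.bt_left D.ha he hb', bt_eq_one.2 D.ab, one_mul, D.toDw.symm.t_eq D.hb,
    D.bt_right he D.hb hf, ← mul_assoc, h1, one_mul]

theorem tz : tau t (bt a b) ≠ 1 := fun h =>
  D.dv.tor.u_nd (D.dv.tE D.ha) (D.dv.tau_A D.ra) D.ta (D.toDw.symm.dv.tE D.hb) (D.toDw.symm.dv.tau_A D.sb) D.tb
    (bt_eq_one.1 (D.tau_z ▸ h))

theorem z1 : bt a b ≠ 1 := fun h => D.tz (by rw [h, D.dv.tau_E (one_mem _)])

theorem eq_one (hx : x ∈ Kl σ a) (h : x ∈ W) : x = 1 :=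
  D.p.fσ x (D.KV hx) (cn_eq.1 ((D.eq_of ⟨D.KV hx, h⟩).trans (D.Kl_r D.ha D.ra hx)))

theorem inf_eq : Af σ a b ⊓ Af ρ b a = Kl σ (bt a b) := by
  refine le_antisymm (fun g hg => ?_) (le_inf le_sup_right D.KB)
  obtain ⟨x, hx, y, hy, rfl⟩ := D.memA.1 hg.1
  rwa [D.eq_one hx ((W.mul_mem_cancel_right (D.KZ hy).2).1 (D.symm.AV hg.2)), one_mul]

theorem tau_inj (hg : g ∈ Af σ a b) (h : tau t g = 1) : g = 1 := by
  obtain ⟨x, hx, y, hy, rfl⟩ := D.memA.1 hg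
  rw [D.dv.tau_mul (D.KV hx) (D.KZ hy).1] at h
  have h1 : tau t x = 1 := D.h.fρ _ (by
    rw [eq_inv_of_mul_eq_one_left h]; exact inv_mem (D.tau_Z (D.KZ hy)).2) (D.dv.tau_A (D.Kl_r D.ha D.ra hx))
  rw [h1, one_mul] at h
  rw [D.Kl_tau D.ha D.ta hx h1, D.Kl_tau D.zm.1 D.tz hy h, one_mul]

theorem onto_K (hx : x ∈ E ⊓ F) : ∃ u ∈ Kl σ (bt a b), tau t u = x :=
  D.Kl_onto D.zm.1 (D.dv.tor.u_fourZ (D.tau_Z D.zm) D.tz x hx)

theorem onto_A (hx : x ∈ E) : ∃ u ∈ Af σ a b, tau t u = x := by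
  obtain ⟨e, he, c, z, hz, rfl⟩ := D.dv.tor.decE hx
  obtain ⟨u, hu, rfl⟩ := D.Kl_onto D.ha (D.dv.tor.u_fourA (D.dv.tE D.ha) (D.dv.tau_A D.ra) D.ta he c)
  obtain ⟨v, hv, rfl⟩ := D.onto_K hz
  exact ⟨u * v, mul_mem_sup hu hv, D.dv.tau_mul (D.KV hu) (D.KZ hv).1⟩

theorem card_eq {X Y : Subgroup G} (h1 : X ≤ Af σ a b) (h2 : ∀ x ∈ X, tau t x ∈ Y)
    (h3 : ∀ y ∈ Y, ∃ x ∈ X, tau t x = y) : Nat.card X = Nat.card Y := by
  refine Nat.card_eq_of_bijective (fun x : X => (⟨_, h2 x.1 x.2⟩ : Y)) ⟨fun x y e => Subtype.ext ?_, fun y => ?_⟩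
  · have e' : tau t x.1 = tau t y.1 := congrArg Subtype.val e
    have hx := D.AV (h1 x.2)
    have hy := D.AV (h1 y.2)
    have := D.tau_inj (mul_mem (h1 x.2) (h1 y.2)) (by rw [D.dv.tau_mul hx hy, e', D.h.elE _ (D.dv.tE hy)])
    rw [eq_inv_of_mul_eq_one_left this, D.p.el.inv hy]
  · obtain ⟨x, hx, e⟩ := h3 y.1 y.2
    exact ⟨⟨x, hx⟩, Subtype.ext e⟩

theorem cardA : Nat.card (Af σ a b) = 16 :=
  (D.card_eq le_rfl (fun _ hx => D.dv.tE (D.AV hx)) fun _ => D.onto_A).trans D.h.cE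

theorem cardK : Nat.card (Kl σ (bt a b)) = 4 :=
  (D.card_eq le_sup_right (fun _ hx => D.tau_Z (D.KZ hx)) fun _ => D.onto_K).trans D.h.cZ

theorem nσA : Nm σ (Af σ a b) := (D.Kl_nm D.ha).sup (D.Kl_nm D.zm.1)

theorem nρK : Nm ρ (Kl σ (bt a b)) := D.K_eq ▸ D.toDw.symm.Kl_nm D.symm.zm.1

theorem nρA : Nm ρ (Af σ a b) := Nm.sup (Cm.nm fun _ hx => cn_eq.1 (D.Kl_r D.ha D.ra hx)) D.nρK

/-- a property of pairs which is invariant under the torus -/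
theorem pairs {P : G → G → Prop} (h0 : P a b) (hs : ∀ x y, P x y → P (cn σ x) (cn σ y))
    (hr : ∀ x y, P x y → P (cn ρ x) (cn ρ y)) (hx : x ∈ Kl σ a) (x1 : x ≠ 1) (hy : y ∈ Kl ρ b) (y1 : y ≠ 1) :
    P x y := by
  have h1 : P a y := by
    have e1 := hr _ _ h0
    rw [D.ra] at e1
    have e2 := hr _ _ e1
    rw [D.ra] at e2
    rcases (D.toDw.symm.mem_Kl D.hb).1 hy with h | h | h | h <;> rw [h]
    exacts [absurd h y1, h0, e1, e2]
  have c := D.toDw.symm.Kl_r D.hb D.sb hy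
  have e1 := hs _ _ h1
  rw [c] at e1
  have e2 := hs _ _ e1
  rw [c] at e2
  rcases (D.mem_Kl D.ha).1 hx with h | h | h | h <;> rw [h]
  exacts [absurd h x1, h1, e1, e2]

theorem bt_K (hx : x ∈ Kl σ a) (x1 : x ≠ 1) (hy : y ∈ Kl ρ b) (y1 : y ≠ 1) :
    bt x y ∈ Kl σ (bt a b) ∧ bt x y ≠ 1 :=
  D.pairs (P := fun x y => bt x y ∈ Kl σ (bt a b) ∧ bt x y ≠ 1) ⟨subset_closure (Or.inl rfl), D.z1⟩
    (fun x y h => by rw [← bt_map]; exact ⟨(D.Kl_nm D.zm.1).cn h.1, by simpa using h.2⟩)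
    (fun x y h => by rw [← bt_map]; exact ⟨D.nρK.cn h.1, by simpa using h.2⟩) hx x1 hy y1

theorem bt_red {x' y' : G} (hx : x ∈ V) (hx' : x' ∈ V ⊓ W) (hy : y ∈ W) (hy' : y' ∈ V ⊓ W) :
    bt (x * x') (y * y') = bt x y := by
  rw [D.bt_left hx hx'.1 (mul_mem hy hy'.2), D.bt_right hx hy hy'.2, bt_eq_one.2 (D.p.el.comm hx hy'.1),
    bt_eq_one.2 (D.q.el.comm hx'.2 (mul_mem hy hy'.2)), mul_one, mul_one]

theorem tri : Tri (Af σ a b) (Af ρ b a) where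
  elE := D.p.el.mono D.AV
  elF := D.q.el.mono D.symm.AV
  cE := D.cardA
  cF := D.symm.cardA
  cZ := by rw [D.inf_eq, D.cardK]
  com e he f hf := by
    obtain ⟨x, hx, x', hx', rfl⟩ := D.memA.1 he
    obtain ⟨y, hy, y', hy', rfl⟩ := D.symm.memA.1 hf
    change bt _ _ ∈ _
    rw [D.inf_eq, D.bt_red (D.KV hx) (D.KZ hx') (D.symm.KV hy) (D.KZ (D.K_eq ▸ hy'))]
    by_cases x1 : x = 1
    · rw [x1, bt_eq_one.2 (Commute.one_left _)]; exact one_mem _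
    by_cases y1 : y = 1
    · rw [y1, bt_eq_one.2 (Commute.one_right _)]; exact one_mem _
    exact (D.bt_K hx x1 hy y1).1
  nd e he f hf c := by
    obtain ⟨x, hx, x', hx', rfl⟩ := D.memA.1 he
    obtain ⟨y, hy, y', hy', rfl⟩ := D.symm.memA.1 hf
    rw [← bt_eq_one, D.bt_red (D.KV hx) (D.KZ hx') (D.symm.KV hy) (D.KZ (D.K_eq ▸ hy'))] at c
    by_cases x1 : x = 1
    · rw [x1, one_mul]; exact Or.inl (D.KB hx')
    by_cases y1 : y = 1
    · rw [y1, one_mul]; exact Or.inr (D.symm.KB hy')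
    exact absurd c (D.bt_K hx x1 hy y1).2

theorem comAB (hx : x ∈ Af σ a b) (hy : y ∈ Af ρ b a) : Commute x (cn t y) := by
  obtain ⟨x, hx, x', hx', e⟩ := D.memA.1 hx
  obtain ⟨y, hy, y', hy', e'⟩ := D.symm.memA.1 hy
  rw [e, e', ← bt_eq_one, map_mul, D.bt_red (D.KV hx) (D.KZ hx') (D.toDw.symm.nt.cn (D.symm.KV hy))
    ((D.nt.inf D.toDw.symm.nt).cn (D.KZ (D.K_eq ▸ hy'))), bt_eq_one]
  by_cases x1 : x = 1
  · rw [x1]; exact Commute.one_left _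
  by_cases y1 : y = 1
  · rw [y1, map_one]; exact Commute.one_right _
  exact D.pairs (P := fun x y => Commute x (cn t y)) D.ab (fun x y h => by rw [D.t_s]; exact cn_commute σ h)
    (fun x y h => by rw [D.toDw.symm.t_s]; exact cn_commute ρ h) hx x1 hy y1

theorem cmA (hy : y ∈ Af σ a b) : Cm (cn t y) (Af σ a b ⊔ Af ρ b a) :=
  Cm.sup (fun _ hx => D.p.el.comm (D.nt.cn (D.AV hy)) (D.AV hx)) fun _ hx => (D.symm.comAB hx hy).symm

theorem com' (hx : x ∈ Af σ a b ⊔ Af ρ b a) (hy : y ∈ Af σ a b ⊔ Af ρ b a) : Commute x (cn t y) := by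
  have key : ∀ {u v : G}, Commute (cn t u) v → Commute (cn t v) u := fun h => by
    simpa only [cn_cn D.h.tt] using (cn_commute t h).symm
  exact (key (Cm.sup (fun _ hu => key (D.cmA hu x hx))
    (fun _ hu => key (D.symm.cmA hu x (by rwa [sup_comm]))) y hy)).symm

theorem dis (hx : x ∈ Af σ a b ⊔ Af ρ b a) (h : cn t x ∈ Af σ a b ⊔ Af ρ b a) : x = 1 := by
  have h1 := D.tri.centU hx fun y hy => by simpa only [cn_cn D.h.tt] using (D.com' hy h).symm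
  have h2 := D.tri.centU h fun y hy => (D.com' hy hx).symm
  have hV := D.AV h1.1
  refine D.tau_inj h1.1 (D.tau_inj ?_ (D.dv.tau_E (D.dv.tE hV)))
  rw [D.tau_eq hV]
  exact mul_mem h1.1 h2.1

theorem dE (e : G) : e ∈ E ↔ ∃ x ∈ Af σ a b, e = x * (t * x * t⁻¹) := by
  constructor
  · intro he
    obtain ⟨x, hx, rfl⟩ := D.onto_A he
    exact ⟨x, hx, D.tau_eq (D.AV hx)⟩
  · rintro ⟨x, hx, rfl⟩
    exact (show tau t x = x * (t * x * t⁻¹) from D.tau_eq (D.AV hx)) ▸ D.dv.tE (D.AV hx)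

theorem V_eq : Af σ a b ⊔ cj t (Af σ a b) = V := by
  refine le_antisymm (sup_le D.AV (cj_le_iff.2 fun x hx => D.nt x (D.AV hx))) fun v hv => ?_
  obtain ⟨x, hx, h⟩ := D.onto_A (D.dv.tE hv)
  obtain ⟨e, he, h'⟩ := D.dv.of_tau (D.AV hx) hv h
  obtain ⟨y, hy, rfl⟩ := (D.dE e).1 he
  rw [h']
  exact mul_mem (mem_sup_left hx) (mul_mem_sup hy (conj_mem_cj.2 hy))

theorem sp0 : Sp0 L E F (Af σ a b) (Af ρ b a) t σ ρ φ where
  toFr0 := D.h
  tri := D.tri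
  com' _ hx _ hy := D.com' hx hy
  dis _ hx h := D.dis hx h
  dE := D.dE
  dF := D.symm.dE
  σA := D.nσA
  σB := D.symm.nρA
  ρA := D.nρA
  ρB := D.symm.nσA
  nE := by rw [D.V_eq]; exact D.p.nm
  nF := by rw [D.symm.V_eq]; exact D.q.nm
  th θ h := ((D.p.th θ h).mono D.AV).sup ((D.q.th θ h).mono D.symm.AV)

theorem nψ (hψ : ψ = φ ∨ ψ = t * φ) (a3 : cn ψ a = a) (b3 : cn ψ b = b) : Nm ψ (Af σ a b) :=
  (D.Kl_psi hψ D.ha a3).sup (D.Kl_psi hψ D.zm.1 (by rw [bt_map, a3, b3]))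

end Gn

/-- SPLB -/
theorem Fr0.exists_sp0 (h : Fr0 L E F t σ ρ φ) (u : Ut L E F V W t σ ρ) (ha : a ∈ V) (hb : b ∈ W) (a1 : Commute ρ a)
    (b1 : Commute σ b) (a2 : ¬Commute a t) (b2 : ¬Commute b t) (ab : Commute a (t * b * t⁻¹))
    (hψ : ψ = φ ∨ ψ = t * φ) (a3 : Commute ψ a) (b3 : Commute ψ b) :
    ∃ A B, Sp0 L E F A B t σ ρ φ ∧ Nm ψ A ∧ Nm ψ B :=
  have D : Gn L E F V W t σ ρ φ a b := ⟨⟨h, u.pV, u.pW⟩, ha, hb, cn_eq.2 a1, cn_eq.2 b1, mt (tau_eq_one h.tt).1 a2,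
    mt (tau_eq_one h.tt).1 b2, ab⟩
  ⟨_, _, D.sp0, D.nψ hψ (cn_eq.2 a3) (cn_eq.2 b3), D.symm.nψ hψ (cn_eq.2 b3) (cn_eq.2 a3)⟩

end CfsgLib.StdL
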