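import Mathlib
import Cfsg.Agent.Lib.StdL.Bor

/-!
# Standard subgroups of type `M22`: calculus in the double
-/

set_option autoImplicit false
set_option linter.unusedSectionVars false

namespace CfsgLib.StdL

open Subgroup Cfsg CfsgLib.Tech
open CfsgLib.StdInt hiding cj mem_cj

variable {G : Type*} [Group G] {L E F V H : Subgroup G} {t σ ρ φ θ g x y e : G}

local notation "cn" => MulAut.conj

/-- the translation defined by `x` -/
def tau (t x : G) : G := x * t * x⁻¹ * t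

theorem cn_eq : cn g x = x ↔ Commute g x := mul_inv_eq_iff_eq_mul

theorem Nm.cn (n : Nm g H) (hx : x ∈ H) : cn g x ∈ H := n x hx

theorem cn_sq (g x : G) : g ^ 2 * x * (g ^ 2)⁻¹ = cn g (cn g x) := by
  rw [← MulAut.mul_apply, ← map_mul, ← sq]; rfl

theorem cn_cube (c : Commute (g ^ 3) x) : cn g (cn g (cn g x)) = x := by
  rw [← MulAut.mul_apply, ← MulAut.mul_apply, ← map_mul, ← map_mul, ← pow_three', cn_eq.2 c]

theorem cn_comm (c : Commute (σ * ρ * σ⁻¹ * ρ⁻¹) (cn ρ (cn σ x))) : cn σ (cn ρ x) = cn ρ (cn σ x) := by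
  rw [← cn_eq.2 c]
  simp only [MulAut.conj_apply]; group

theorem cn_comm' (c : Commute σ ρ) (x : G) : cn σ (cn ρ x) = cn ρ (cn σ x) :=
  cn_comm (by rw [c.eq, mul_inv_cancel_right, mul_inv_cancel]; exact Commute.one_left _)

theorem cn_cn (tt : t * t = 1) (x : G) : cn t (cn t x) = x := by
  rw [← MulAut.mul_apply, ← map_mul, tt, map_one, MulAut.one_apply]

theorem cn_inv (c : Commute (φ * σ * φ * σ) (cn σ (cn σ (cn φ x)))) (c' : Commute (σ ^ 3) (cn φ x))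
    (φφ : φ * φ = 1) : cn φ (cn σ x) = cn σ (cn σ (cn φ x)) := by
  rw [← cn_eq.2 c, map_mul, map_mul, map_mul]
  simp only [MulAut.mul_apply]
  rw [cn_cube c', cn_cn φφ]

theorem cn_commute {a b : G} (g : G) (c : Commute a b) : Commute (cn g a) (cn g b) := c.map _

theorem tau_cn (c : Commute g t) (x : G) : tau t (cn g x) = cn g (tau t x) := by
  simp only [tau, map_mul, map_inv, cn_eq.2 c]

theorem tau_eq_one (tt : t * t = 1) : tau t x = 1 ↔ Commute x t := by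
  rw [tau, mul_eq_one_iff_eq_inv, inv_eq_of_mul_eq_one_right tt, mul_inv_eq_iff_eq_mul]; rfl

theorem tau_mul' (tt : t * t = 1) (c : Commute x (tau t y)) (c' : Commute (tau t x) (tau t y)) :
    tau t (x * y) = tau t x * tau t y := by
  have e : y * t * y⁻¹ = tau t y * t := by rw [tau, mul_assoc _ t t, tt, mul_one]
  calc tau t (x * y) = x * (y * t * y⁻¹) * x⁻¹ * t := by rw [tau]; group
    _ = x * tau t y * (t * x⁻¹ * t) := by rw [e]; group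
    _ = tau t y * tau t x := by rw [c.eq, tau.eq_1 t x]; group
    _ = _ := c'.eq.symm

theorem cn_t (tt : t * t = 1) (xx : x * x = 1) : cn t x = x * tau t x := by
  rw [tau, MulAut.conj_apply, inv_eq_of_mul_eq_one_right tt, inv_eq_of_mul_eq_one_right xx, ← mul_assoc, ← mul_assoc,
    ← mul_assoc, xx, one_mul]

theorem conj_t_eq (tt : t * t = 1) (x : G) : cn x t = tau t x * t := by
  rw [tau, mul_assoc _ t t, tt, mul_one]; rfl

theorem Fpf.norm' (f : Fpf σ V) (el : El V) (n : Nm σ V) (c : Cm (σ ^ 3) V) (hx : x ∈ V) :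
    x * cn σ x * cn σ (cn σ x) = 1 := by
  rw [← cn_sq]; exact f.norm el n c hx

theorem Fpf.sq_eq (f : Fpf σ V) (el : El V) (n : Nm σ V) (c : Cm (σ ^ 3) V) (hx : x ∈ V) :
    cn σ (cn σ x) = x * cn σ x := by
  rw [eq_inv_of_mul_eq_one_right (f.norm' el n c hx)]; exact el.inv (mul_mem hx (n x hx))

theorem Fpf.four [Finite G] (f : Fpf σ H) (c : Nat.card H = 4) (el : El H) (n : Nm σ H) (hx : x ∈ H) (x1 : x ≠ 1) :
    ∀ y ∈ H, y = 1 ∨ y = x ∨ y = cn σ x ∨ y = x * cn σ x :=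
  klein c el hx (n x hx) x1 (fun e => x1 ((cn σ).map_eq_one_iff.1 e)) fun e => x1 (f x hx (cn_eq.1 e.symm))

theorem eq_one_of_cube (el : x * x = 1) (h : x * x * x = 1) : x = 1 := by rwa [el, one_mul] at h

variable [Finite G]

namespace Tor

variable (h : Tor L E F σ ρ φ)
include h

theorem u_sr (hx : x ∈ L) : cn σ (cn ρ x) = cn ρ (cn σ x) :=
  cn_comm (h.σρ _ (Nm.of_mem h.ρL _ (Nm.of_mem h.σL _ hx)))

theorem u_s3 (hx : x ∈ L) : cn σ (cn σ (cn σ x)) = x := cn_cube (h.σ3 x hx)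

theorem u_normE (hx : x ∈ E) : x * cn σ x * cn σ (cn σ x) = 1 := h.fσ.norm' h.elE h.σE (h.σ3.mono h.EL) hx

theorem u_sqE (hx : x ∈ E) : cn σ (cn σ x) = x * cn σ x := h.fσ.sq_eq h.elE h.σE (h.σ3.mono h.EL) hx

theorem u_fourZ (hx : x ∈ E ⊓ F) (x1 : x ≠ 1) : ∀ y ∈ E ⊓ F, y = 1 ∨ y = x ∨ y = cn σ x ∨ y = x * cn σ x :=
  Fpf.four (fun z hz => h.fσ z hz.1) h.cZ h.toTri.elZ (h.σE.inf h.σF) hx x1

theorem u_fourA (hx : x ∈ E) (c : Commute ρ x) (x1 : x ≠ 1) (hy : y ∈ E) (c' : Commute ρ y) :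
    y = 1 ∨ y = x ∨ y = cn σ x ∨ y = x * cn σ x := by
  have m : ∀ a, a ∈ E ⊓ centralizer {ρ} ↔ a ∈ E ∧ Commute ρ a := fun a => by
    rw [mem_inf, mem_centralizer_singleton_iff]; exact and_congr_right fun _ => eq_comm
  have h1 := card_sup_comm (H := E ⊓ centralizer {ρ}) (K := E ⊓ F) fun a ha b hb => h.elE.comm ha.1 hb.1
  have h2 : E ⊓ centralizer {ρ} ⊔ E ⊓ F = E := le_antisymm (sup_le inf_le_left inf_le_left) fun a ha => by
    obtain ⟨b, hb, c, z, hz, rfl⟩ := h.decE ha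
    exact mul_mem_sup ((m b).2 ⟨hb, c⟩) hz
  have h3 : E ⊓ centralizer {ρ} ⊓ (E ⊓ F) = ⊥ := eq_bot_iff.2 fun a ha => h.fρ a ha.2.2 ((m a).1 ha.1).2
  rw [h2, h3, card_bot, h.cE, h.cZ] at h1
  refine Fpf.four (H := E ⊓ centralizer {ρ}) (fun z hz => h.fσ z hz.1) (by omega) (h.elE.mono inf_le_left)
    (fun a ha => (m _).2 ⟨h.σE a ha.1, cn_eq.1 ?_⟩) ((m x).2 ⟨hx, c⟩) x1 y ((m y).2 ⟨hy, c'⟩)
  exact (h.u_sr (h.EL ha.1)).symm.trans (by rw [cn_eq.2 ((m a).1 ha).2]; rfl)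

theorem u_exA : ∃ a ∈ E, Commute ρ a ∧ a ≠ 1 := by
  obtain ⟨e, he, hn⟩ := h.toTri.exE
  obtain ⟨a, ha, c, z, hz, rfl⟩ := h.decE he
  exact ⟨a, ha, c, fun e => hn (by rw [e, one_mul]; exact hz.2)⟩

/-- non-trivial elements of `C_E(ρ)` and `C_F(σ)` do not commute -/
theorem u_nd {a b : G} (ha : a ∈ E) (c : Commute ρ a) (a1 : a ≠ 1) (hb : b ∈ F) (c' : Commute σ b) (b1 : b ≠ 1) :
    ¬Commute a b := fun e => (h.nd a ha b hb e).elim (fun h' => a1 (h.fρ a h' c)) fun h' => b1 (h.fσ b h' c')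

end Tor

/-- the double of `E` -/
structure Dv (L E F V : Subgroup G) (t σ ρ φ : G) : Prop where
  h : Fr0 L E F t σ ρ φ
  p : Pre L E V t σ

namespace Dv

variable (D : Dv L E F V t σ ρ φ)
include D

theorem tor : Tor L E F σ ρ φ := D.h.toBor.toTor

theorem cLt (hx : x ∈ L) : Commute x t := (D.h.cL x hx).symm

theorem rr (hx : x ∈ V) : Rr E t x := ((D.p.mem x).1 hx).1

theorem cE (hx : x ∈ V) (he : e ∈ E) : Commute x e := (D.rr hx).2.1 e he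

theorem tE (hx : x ∈ V) : tau t x ∈ E := (D.rr hx).2.2

theorem nE (hx : x ∈ V) : x * cn σ x * cn σ (cn σ x) ∈ E := by
  rw [← cn_sq]; exact ((D.p.mem x).1 hx).2

theorem tau_mul (hx : x ∈ V) (hy : y ∈ V) : tau t (x * y) = tau t x * tau t y :=
  tau_mul' D.h.tt (D.cE hx (D.tE hy)) (D.h.elE.comm (D.tE hx) (D.tE hy))

theorem tau_E (he : e ∈ E) : tau t e = 1 := (tau_eq_one D.h.tt).2 (D.cLt (D.h.EL he))

theorem ker (hx : x ∈ V) (h1 : tau t x = 1) : x ∈ E := D.p.ker x hx ((tau_eq_one D.h.tt).1 h1)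

theorem tau_inv (hx : x ∈ V) : tau t x⁻¹ = tau t x := by
  have := D.tau_mul hx (inv_mem hx)
  rw [mul_inv_cancel, D.tau_E E.one_mem] at this
  rw [eq_inv_of_mul_eq_one_right this.symm, D.h.elE.inv (D.tE hx)]

theorem of_tau (hx : x ∈ V) (hy : y ∈ V) (h1 : tau t x = tau t y) : ∃ e ∈ E, y = x * e :=
  ⟨x⁻¹ * y, D.ker (mul_mem (inv_mem hx) hy) (by
    rw [D.tau_mul (inv_mem hx) hy, D.tau_inv hx, h1, D.h.elE _ (D.tE hy)]), (mul_inv_cancel_left _ _).symm⟩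

theorem onto (he : e ∈ E) : ∃ x ∈ V, tau t x = e := D.p.onto e he

theorem thR (hθ : θ ∈ L) (c : Cm θ L) (hx : Rr E t x) : Commute θ x := by
  have h1 := D.h.th_of hθ c
  rcases D.p.half x hx with h2 | h2
  · exact D.p.th θ h1 x h2
  · have := h1.1.mul_right (D.p.th θ h1 _ h2)
    rwa [← mul_assoc, D.h.tt, one_mul] at this

theorem rr_cn (c : Commute g t) (n : Nm g E) (hx : Rr E t x) : Rr E t (cn g x) := by
  refine ⟨two_conj g hx.1, hx.2.1.conj_nm n, ?_⟩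
  change tau t (cn g x) ∈ E
  rw [tau_cn c]
  exact n _ hx.2.2

theorem rr_s (hx : Rr E t x) : Rr E t (cn σ x) := D.rr_cn (D.cLt D.h.σL) D.h.σE hx

theorem rr_r (hx : Rr E t x) : Rr E t (cn ρ x) := D.rr_cn (D.cLt D.h.ρL) D.h.ρE hx

theorem srR (hx : Rr E t x) : cn σ (cn ρ x) = cn ρ (cn σ x) :=
  cn_comm (D.thR (mul_mem (mul_mem (mul_mem D.h.σL D.h.ρL) (inv_mem D.h.σL)) (inv_mem D.h.ρL)) D.h.σρ
    (D.rr_r (D.rr_s hx)))

theorem sr (hx : x ∈ V) : cn σ (cn ρ x) = cn ρ (cn σ x) := D.srR (D.rr hx)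

theorem cs3 : Cm (σ ^ 3) V := fun _ hx => D.thR (pow_mem D.h.σL 3) D.h.σ3 (D.rr hx)

theorem cr3 : Cm (ρ ^ 3) V := fun _ hx => D.thR (pow_mem D.h.ρL 3) D.h.ρ3 (D.rr hx)

theorem s3 (hx : x ∈ V) : cn σ (cn σ (cn σ x)) = x := cn_cube (D.cs3 x hx)

theorem r3 (hx : x ∈ V) : cn ρ (cn ρ (cn ρ x)) = x := cn_cube (D.cr3 x hx)

theorem nm_of (c : Commute g t) (n : Nm g E) (hs : ∀ x, Rr E t x → cn σ (cn g x) = cn g (cn σ x)) : Nm g V := by
  intro x hx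
  refine (D.p.mem _).2 ⟨D.rr_cn c n (D.rr hx), ?_⟩
  change cn g x * cn σ (cn g x) * (σ ^ 2 * cn g x * (σ ^ 2)⁻¹) ∈ E
  rw [cn_sq, hs x (D.rr hx), hs _ (D.rr_s (D.rr hx)), ← map_mul, ← map_mul]
  exact n _ (D.nE hx)

theorem nσ : Nm σ V := D.nm_of (D.cLt D.h.σL) D.h.σE fun _ _ => rfl

theorem nρ : Nm ρ V := D.nm_of (D.cLt D.h.ρL) D.h.ρE fun _ hx => D.srR hx

theorem ms (hx : x ∈ V) : cn σ x ∈ V := D.nσ x hx

theorem mr (hx : x ∈ V) : cn ρ x ∈ V := D.nρ x hx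

theorem tau_s (x : G) : tau t (cn σ x) = cn σ (tau t x) := tau_cn (D.cLt D.h.σL) x

theorem tau_r (x : G) : tau t (cn ρ x) = cn ρ (tau t x) := tau_cn (D.cLt D.h.ρL) x

theorem ps (n : Nm φ V) (hx : x ∈ V) : cn φ (cn σ x) = cn σ (cn σ (cn φ x)) :=
  cn_inv (D.thR (mul_mem (mul_mem (mul_mem D.h.φL D.h.σL) D.h.φL) D.h.σL) D.h.φσ (D.rr (D.ms (D.ms (n x hx)))))
    (D.cs3 _ (n x hx)) D.h.φφ

theorem pr (n : Nm φ V) (hx : x ∈ V) : cn φ (cn ρ x) = cn ρ (cn ρ (cn φ x)) :=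
  cn_inv (D.thR (mul_mem (mul_mem (mul_mem D.h.φL D.h.ρL) D.h.φL) D.h.ρL) D.h.φρ (D.rr (D.mr (D.mr (n x hx)))))
    (D.cr3 _ (n x hx)) D.h.φφ

/-- `ρ²` and `σ²` agree where `ρ` and `σ` agree -/
theorem rr_eq (hx : x ∈ V) (c : cn σ x = cn ρ x) : cn ρ (cn ρ x) = cn σ (cn σ x) := by
  rw [← c, ← D.sr hx, c]

theorem d_s (hx : x ∈ V) (c : cn σ x = cn ρ x) : cn σ (cn σ x) = cn ρ (cn σ x) := by
  rw [← D.sr hx, c]

theorem r_s (hx : x ∈ V) (c : cn ρ x = x) : cn ρ (cn σ x) = cn σ x := by rw [← D.sr hx, c]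

/-- fixed points lift -/
theorem lift (α : MulAut G) (m : ∀ x ∈ V, α x ∈ V) (mE : ∀ x ∈ E, α x ∈ E) (h3 : ∀ x ∈ V, α (α (α x)) = x)
    (ht : ∀ x, tau t (α x) = α (tau t x)) (he : e ∈ E) (c : α e = e) : ∃ a ∈ V, α a = a ∧ tau t a = e := by
  obtain ⟨a, ha, rfl⟩ := D.onto he
  obtain ⟨e, he', h1⟩ := D.of_tau ha (m a ha) (by rw [ht, c])
  have c1 : Commute a (α a) := by rw [h1]; exact (Commute.refl a).mul_right (D.cE ha he')
  have c2 : Commute a (α (α a)) := by rw [h1, map_mul]; exact c1.mul_right (D.cE ha (mE e he'))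
  refine ⟨a * α a * α (α a), mul_mem (mul_mem ha (m a ha)) (m _ (m a ha)), ?_, ?_⟩
  · rw [map_mul, map_mul, h3 a ha, ← (c1.mul_right c2).eq, mul_assoc]
  · rw [D.tau_mul (mul_mem ha (m a ha)) (m _ (m a ha)), D.tau_mul ha (m a ha), ht, ht, ht, c, c,
      D.h.elE _ he, one_mul]

theorem liftA (he : e ∈ E) (c : Commute ρ e) : ∃ a ∈ V, cn ρ a = a ∧ tau t a = e :=
  D.lift (cn ρ) (fun _ => D.mr) D.h.ρE (fun _ => D.r3) D.tau_r he (cn_eq.2 c)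

theorem liftZ (he : e ∈ E ⊓ F) : ∃ x ∈ V, cn σ x = cn ρ x ∧ tau t x = e := by
  obtain ⟨x, hx, h1, h2⟩ := D.lift (cn ρ * cn ρ * cn σ) (fun x hx => D.mr (D.mr (D.ms hx)))
    (fun x hx => D.h.ρE _ (D.h.ρE _ (D.h.σE _ hx))) (fun x hx => by
      simp only [MulAut.mul_apply]
      have key : ∀ y ∈ V, cn σ (cn ρ (cn ρ y)) = cn ρ (cn ρ (cn σ y)) := fun y hy => by
        rw [D.sr (D.mr hy), D.sr hy]
      have h1 := D.ms (D.ms hx)
      rw [key _ (D.ms hx), key _ (D.mr (D.mr h1)), key _ h1, D.s3 hx, D.r3 hx, D.r3 hx])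
    (fun x => by simp only [MulAut.mul_apply, D.tau_r, D.tau_s]) he.1 (by
      simp only [MulAut.mul_apply]
      rw [show cn σ e = cn ρ e from D.h.eqZ e he, D.r3 (D.p.le he.1)])
  simp only [MulAut.mul_apply] at h1
  exact ⟨x, hx, by rw [← D.r3 (D.ms hx), h1], h2⟩

end Dv

end CfsgLib.StdL
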